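import Cfsg.Agent.Lib.J3T.TW

/-! The 5-local structure. -/

set_option autoImplicit false
set_option linter.unusedSectionVars false
open Finset Classical

namespace Cfsg.Agent.J3T
noncomputable section
variable {G : Type*} [Group G] [Fintype G]

theorem ninv_eq {g s : G} (hs : s ∈ Inv G) (h : s * g * s = g⁻¹) (hg : g ≠ g⁻¹) :
    ninv g = ((fs (Cz g)).filter fun c => s * c * s = c⁻¹).card := by
  have hss := (mem_Inv.1 hs).1
  unfold ninv
  refine card_bij (fun a _ => a * s) ?_ (fun a _ b _ e => by simpa using e) ?_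
  · intro a ha
    obtain ⟨h1, h2⟩ := mem_filter.1 ha
    have h11 := (mem_Inv.1 h1).1
    refine mem_filter.2 ⟨mem_fs.2 (mem_Cz.2 ?_), ?_⟩
    · have e1 : s * g = g⁻¹ * s := by rw [← h, mul_assoc, hss, mul_one]
      have e2 : a * g⁻¹ = g * a := by rw [← h2, ← mul_assoc, ← mul_assoc, h11, one_mul]
      rw [mul_assoc, e1, ← mul_assoc, e2, mul_assoc]
    · rw [mul_inv_rev, Inv.inv hs, Inv.inv h1, mul_assoc, mul_assoc, hss, mul_one]
  · intro c hc
    obtain ⟨h1, h2⟩ := mem_filter.1 hc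
    have h1 := mem_fs.1 h1
    have e : c * s * g * (c * s) = g⁻¹ := by
      calc c * s * g * (c * s) = c * s * (g * c) * s := by group
        _ = c * (s * c * s) * (s * s)⁻¹ * (s * g * s) := by rw [← mem_Cz.1 h1]; group
        _ = _ := by rw [h2, hss, h]; group
    refine ⟨c * s, mem_filter.2 ⟨mem_Inv.2 ⟨?_, fun e2 => hg ?_⟩, e⟩, by rw [mul_assoc, hss, mul_one]⟩
    · calc c * s * (c * s) = c * (s * c * s) := by group
        _ = 1 := by rw [h2, mul_inv_cancel]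
    · rw [e2] at e; simpa using e

theorem Cz_le_of_mem_zpowers {a b : G} (h : a ∈ Subgroup.zpowers b) : Cz b ≤ Cz a := fun _ hg =>
  mem_Cz_comm.1 ((Subgroup.zpowers_le.2 (mem_Cz_comm.1 hg)) h)

theorem eq_of_order_five {x y : G} (hx : orderOf x = 5) (h : y ∈ Subgroup.zpowers x) :
    y = 1 ∨ y = x ∨ y = x * x ∨ y = (x * x)⁻¹ ∨ y = x⁻¹ := by
  obtain ⟨k, hk, rfl⟩ := exists_pow_of_mem_zpowers h
  have h5 := pow_orderOf_eq_one x
  rw [hx] at hk h5
  interval_cases k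
  · simp
  · simp
  · simp [pow_two]
  · right; right; right; left
    rw [eq_inv_iff_mul_eq_one, ← pow_two, ← pow_add]; exact h5
  · right; right; right; right
    rw [eq_inv_iff_mul_eq_one, ← pow_succ]; exact h5

namespace J3
variable {z x u s su τ : G} (J : J3 z x u s su τ)
include J

theorem u_mem_sq : u ∈ Subgroup.zpowers (u * u) := by
  refine ⟨(3 : ℕ), ?_⟩
  simp only [zpow_natCast]
  rw [← pow_two, ← pow_mul, show 2 * 3 = 5 + 1 by norm_num, pow_succ, J.u5, one_mul]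

theorem Cz_uu : Cz (u * u) = Cz u :=
  le_antisymm (Cz_le_of_mem_zpowers J.u_mem_sq)
    (Cz_le_of_mem_zpowers (Subgroup.mul_mem _ (Subgroup.mem_zpowers u) (Subgroup.mem_zpowers u)))

theorem cu' {t d : G} (ht : t ∈ Inv G) (htu : t ∈ Cz u) (h1 : d ∈ Cz t) (h2 : d ∈ Cz u) :
    d ∈ Subgroup.zpowers u ∨ d * t ∈ Subgroup.zpowers u := by
  obtain ⟨g, hg, e⟩ := J.tr5 ht (mem_Cz_comm.1 htu) J.uo
  have e1 : g * d * g⁻¹ ∈ Cz u := by
    have := (mem_Cz_conj g).2 h2
    rcases e with e | e <;> rw [e] at this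
    · exact this
    · rwa [J.Cz_uu] at this
  have e2 : u ∈ Subgroup.zpowers (g * u * g⁻¹) := by
    rcases e with e | e <;> rw [e]
    · exact Subgroup.mem_zpowers u
    · exact J.u_mem_sq
  have e3 : ∀ k : ℕ, u ^ k ∈ Subgroup.zpowers (g * u * g⁻¹) := fun k => Subgroup.pow_mem _ e2 k
  obtain ⟨k, h | h⟩ := J.cu _ (hg ▸ (mem_Cz_conj g).2 h1) e1
  · left; rw [← conj_mem_zpowers_iff g, h]; exact e3 k
  · right
    rw [← conj_mem_zpowers_iff g, show g * (d * t) * g⁻¹ = g * d * g⁻¹ * (g * t * g⁻¹) by group, h, hg,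
      mul_assoc (u ^ k), (mem_Inv.1 J.zI).1, mul_one]
    exact e3 k

theorem U_sq {a : G} (ha : a ∈ Subgroup.zpowers u) {k : ℕ} (hk : Nat.Coprime k 5) (h : a ^ k = 1) : a = 1 := by
  have h1 := orderOf_dvd_of_mem_zpowers ha
  rw [J.uo] at h1
  rw [← orderOf_eq_one_iff]
  exact Nat.eq_one_of_dvd_coprimes hk (orderOf_dvd_of_pow_eq_one h) h1

theorem ex_r {T : Subgroup G} (D : TD z x T) :
    ∃ r, Cj x r ∧ r ∈ Cz u ∧ z * r * z = r⁻¹ ∧ Nat.card ↥(Cz r ⊓ Cz u) ∣ 15 := by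
  obtain ⟨v, hv, hvo⟩ := exists_order_of_dvd (D := Cz x ⊓ Cz τ) Nat.prime_five
    (by rw [(J.outer_count D.cL).2]; norm_num)
  obtain ⟨g, hg, e⟩ := J.tr5 J.τI hv.2 hvo
  have e1 : Cz (g * v * g⁻¹) = Cz u := by
    rcases e with e | e <;> rw [e]
    exact J.Cz_uu
  refine ⟨g * x * g⁻¹, ⟨g, rfl⟩, e1 ▸ (mem_Cz_conj g).2 (mem_Cz_comm.1 hv.1), ?_, ?_⟩
  · nth_rewrite 2 [← Inv.inv J.zI]
    rw [← hg]
    calc _ = g * (τ * x * τ⁻¹) * g⁻¹ := by group
      _ = _ := by rw [J.τx]; group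
  · rcases D.odd v hv.1 (by rw [hvo]; decide) with ⟨h, _, hh⟩ | ⟨_, h⟩
    · have := Subgroup.orderOf_dvd_natCard T hh
      rw [orderOf_conj', hvo, D.cT] at this; omega
    · rwa [← e1, ← sub_card_conj (S := Cz x ⊓ Cz v) g fun a => by
        rw [Subgroup.mem_inf, Subgroup.mem_inf, mem_Cz_conj, mem_Cz_conj]]

theorem five {T : Subgroup G} (D : TD z x T) : ∃ Θ : Finset G, Θ.card * 5 = Nat.card G ∧
    (∑ y ∈ Θ, ninv y) * 3 = Nat.card G * 10 ∧ (∀ y ∈ Θ, Odd (orderOf y) ∧ 5 ∣ orderOf y) ∧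
    (∀ y ∈ Θ, ∀ h : G, h * y * h⁻¹ ∈ Θ) ∧
    ∀ g c : G, orderOf c = 5 → g ∈ Cz c → Odd (orderOf g) → g ∈ Θ ∨ g = 1 ∨ Cj x g := by
  obtain ⟨r, hxr, hru, hzr, hK⟩ := J.ex_r D
  have hro : orderOf r = 3 := hxr.order.trans J.xo
  have hr3 : r ^ 3 = 1 := by rw [← hro, pow_orderOf_eq_one]
  have hzz := (mem_Inv.1 J.zI).1
  have hzi := Inv.inv J.zI
  have hzu : z ∈ Cz u := mem_Cz_comm.1 J.uz
  set K := Cz r ⊓ Cz u with hKdef
  have hur : Commute u r := (mem_Cz.1 hru).symm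
  have huK : u ∈ K := ⟨mem_Cz_comm.1 hru, self_mem_Cz u⟩
  have hrK : r ∈ K := ⟨self_mem_Cz r, hru⟩
  have ho15 : orderOf (u * r) = 15 := by
    rw [hur.orderOf_mul_eq_mul_orderOf_of_coprime (by rw [J.uo, hro]; norm_num), J.uo, hro]
  have hK15 : Nat.card K = 15 :=
    Nat.dvd_antisymm hK (ho15 ▸ Subgroup.orderOf_dvd_natCard K (K.mul_mem huK hrK))
  have hgen : Subgroup.zpowers (u * r) = K :=
    Subgroup.eq_of_le_of_card_ge (Subgroup.zpowers_le.2 (K.mul_mem huK hrK)) (by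
      rw [Nat.card_zpowers, ho15, hK15])
  have hdec : ∀ c ∈ K, ∃ a ∈ Subgroup.zpowers u, ∃ b ∈ Subgroup.zpowers r, c = a * b ∧ Commute a b :=
    fun c hc => by
      obtain ⟨k, _, rfl⟩ := exists_pow_of_mem_zpowers (hgen.ge hc)
      exact ⟨_, Subgroup.npow_mem_zpowers _ k, _, Subgroup.npow_mem_zpowers _ k, hur.mul_pow k,
        hur.pow_pow k k⟩
  have hb3 : ∀ b ∈ Subgroup.zpowers r, b ^ 3 = 1 := fun b hb => by
    have := orderOf_dvd_of_mem_zpowers hb
    rwa [hro, orderOf_dvd_iff_pow_eq_one] at this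
  have ha5 : ∀ a ∈ Subgroup.zpowers u, a ^ 5 = 1 := fun b hb => by
    have := orderOf_dvd_of_mem_zpowers hb
    rwa [J.uo, orderOf_dvd_iff_pow_eq_one] at this
  have hK3 : ∀ c ∈ K, c ^ 3 = 1 → c ∈ Subgroup.zpowers r := fun c hc h => by
    obtain ⟨a, ha, b, hb, rfl, hab⟩ := hdec c hc
    rw [hab.mul_pow, hb3 b hb, mul_one] at h
    rw [J.U_sq ha (by norm_num) h, one_mul]; exact hb
  have hKU : ∀ c ∈ K, c ^ 3 ∈ Subgroup.zpowers u := fun c hc => by
    obtain ⟨a, ha, b, hb, rfl, hab⟩ := hdec c hc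
    rw [hab.mul_pow, hb3 b hb, mul_one]; exact Subgroup.pow_mem _ ha 3
  have hKR : ∀ c ∈ K, c ^ 5 ∈ Subgroup.zpowers r := fun c hc => by
    obtain ⟨a, ha, b, hb, rfl, hab⟩ := hdec c hc
    rw [hab.mul_pow, ha5 a ha, one_mul]; exact Subgroup.pow_mem _ hb 5
  have hKo : Odd (Nat.card K) := by rw [hK15]; decide
  have hinvU : ∀ t ∈ Inv G, t ∉ Subgroup.zpowers u := fun t ht =>
    not_mem_of_odd (by rw [Nat.card_zpowers, J.uo]; decide) ht
  have huniq : ∀ t ∈ Inv G, ∀ w ∈ Inv G, t ∈ Cz u → w ∈ Cz u → w ∈ Cz t → w = t := by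
    intro t ht w hw h1 h2 h3
    rcases J.cu' ht h1 h3 h2 with h | h
    · exact absurd h (hinvU w hw)
    · have := J.U_sq h (k := 2) (by norm_num) (by
        calc (w * t) ^ 2 = w * (t * w) * t := by rw [pow_two]; group
          _ = w * w * (t * t) := by rw [← mem_Cz.1 h3]; group
          _ = 1 := by rw [(mem_Inv.1 hw).1, (mem_Inv.1 ht).1, one_mul])
      rw [eq_inv_of_mul_eq_one_left this, Inv.inv ht]
  have hconj : ∀ t ∈ Inv G, t ∈ Cz u → ∃ c ∈ Cz u, c * z * c⁻¹ = t := by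
    intro t ht htu
    have : Odd (orderOf (t * z)) := by
      by_contra hn
      rw [Nat.not_odd_iff_even] at hn
      have hw := half_mem_Inv hn
      have hm : (t * z) ^ (orderOf (t * z) / 2) ∈ Cz u := Subgroup.pow_mem _ (Subgroup.mul_mem _ htu hzu) _
      obtain ⟨k1, k2⟩ := pair_mem_Cz hw ht J.zI (Subgroup.npow_mem_zpowers _ _)
      rw [(huniq t ht _ hw htu hm (mem_Cz_comm.1 k1)).symm.trans
        (huniq z J.zI _ hw hzu hm (mem_Cz_comm.1 k2)), hzz] at hn
      simp at hn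
    obtain ⟨m, hm⟩ := odd_conj (mem_Inv.1 ht).1 hzz this
    exact ⟨_, Subgroup.pow_mem _ (Subgroup.mul_mem _ htu hzu) m, hm⟩
  have h10 : Nat.card ↥(Cz u ⊓ Cz z) = 10 := by
    have huz : Commute u z := mem_Cz.1 J.uz
    have e : Cz u ⊓ Cz z = Subgroup.zpowers (u * z) := by
      refine le_antisymm (fun d hd => ?_) (Subgroup.zpowers_le.2
        ⟨(Cz u).mul_mem (self_mem_Cz u) hzu, (Cz z).mul_mem J.uz (self_mem_Cz z)⟩)
      have z5 : z ∈ Subgroup.zpowers (u * z) := ⟨(5 : ℕ), by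
        simp only [zpow_natCast]
        rw [huz.mul_pow, J.u5, one_mul, show 5 = 2 * 2 + 1 by norm_num, pow_succ, pow_mul, pow_two z, hzz]
        simp⟩
      have u6 : Subgroup.zpowers u ≤ Subgroup.zpowers (u * z) := Subgroup.zpowers_le.2 (by
        simpa [mul_assoc, hzz] using Subgroup.mul_mem _ (Subgroup.mem_zpowers (u * z)) z5)
      rcases J.cu' J.zI hzu hd.2 hd.1 with h | h
      · exact u6 h
      · simpa [mul_assoc, hzz] using Subgroup.mul_mem _ (u6 h) z5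
    rw [e, Nat.card_zpowers, huz.orderOf_mul_eq_mul_orderOf_of_coprime (by rw [J.uo, Inv.order J.zI]; norm_num),
      J.uo, Inv.order J.zI]
  have hk := orbit_card (Cz u) z
  have e2 : cls (Cz u) {z} = (Inv G).filter (· ∈ Cz u) := by
    ext a; rw [mem_cls1, mem_filter]
    constructor
    · rintro ⟨g, hg, rfl⟩
      exact ⟨Inv.conj J.zI g, Subgroup.mul_mem _ (Subgroup.mul_mem _ hg hzu) (Subgroup.inv_mem _ hg)⟩
    · rintro ⟨h1, h2⟩; exact hconj a h1 h2
  rw [e2, h10] at hk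
  have hzm : z ∈ (Inv G).filter (· ∈ Cz u) := mem_filter.2 ⟨J.zI, hzu⟩
  have hkodd : Odd (((Inv G).filter (· ∈ Cz u)).card) := by
    have := free_prime Nat.prime_two (Inv.order J.zI) (((Inv G).filter (· ∈ Cz u)).erase z)
      (fun a ha => mem_erase.2 ⟨fun e => (mem_erase.1 ha).1 (by
          calc a = z⁻¹ * (z * a * z⁻¹) * z := by group
            _ = z := by rw [e]; group),
        mem_filter.2 ⟨Inv.conj (mem_filter.1 (mem_erase.1 ha).2).1 z, Subgroup.mul_mem _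
          (Subgroup.mul_mem _ hzu (mem_filter.1 (mem_erase.1 ha).2).2) (Subgroup.inv_mem _ hzu)⟩⟩)
      (fun a ha e => (mem_erase.1 ha).1 (huniq z J.zI a (mem_filter.1 (mem_erase.1 ha).2).1 hzu
        (mem_filter.1 (mem_erase.1 ha).2).2 (mem_Cz.2 e.symm)))
    rw [← card_erase_add_one hzm]
    exact (even_iff_two_dvd.2 this).add_one
  obtain ⟨Q, hQ1, hQ2, hQ3⟩ := two_comp (M := Cz u) hzu (k := 1)
    (m := 5 * ((Inv G).filter (· ∈ Cz u)).card) (by norm_num) (Inv.order J.zI) (by rw [← hk]; ring)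
    (Odd.mul (by decide) hkodd)
  have hQo : Odd (Nat.card Q) := hQ2 ▸ Odd.mul (by decide) hkodd
  have hinvr : ∀ t ∈ Inv G, t ∈ Cz u → t * r * t = r⁻¹ := by
    intro t ht htu
    have hev : Even (orderOf (r * t)) := by
      by_contra hn
      rw [Nat.not_even_iff_odd] at hn
      have := Q.mul_mem (Q.inv_mem (hQ3 r hru (by rw [hro]; decide)))
        (hQ3 _ (Subgroup.mul_mem _ hru htu) hn)
      exact not_mem_of_odd hQo ht (by simpa using this)
    have hw := half_mem_Inv hev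
    have hrt : r * t ∈ Cz u := Subgroup.mul_mem _ hru htu
    have hwc : r * t ∈ Cz ((r * t) ^ (orderOf (r * t) / 2)) :=
      mem_Cz_of_zpowers (Subgroup.npow_mem_zpowers _ _)
    have h2 : r * t * (r * t) ∈ Subgroup.zpowers u := by
      rcases J.cu' hw (Subgroup.pow_mem _ hrt _) hwc hrt with h | h
      · exact Subgroup.mul_mem _ h h
      · have := Subgroup.mul_mem _ h h
        generalize (r * t) ^ (orderOf (r * t) / 2) = w at *
        rwa [show r * t * w * (r * t * w) = r * t * (r * t) by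
          calc r * t * w * (r * t * w) = r * t * (w * (r * t)) * w := by group
            _ = r * t * (r * t) * (w * w) := by rw [← mem_Cz.1 hwc]; group
            _ = _ := by rw [(mem_Inv.1 hw).1, mul_one]] at this
    obtain ⟨a, ha⟩ : ∃ a, a = r * t * (r * t) := ⟨_, rfl⟩
    rw [← ha] at h2
    have e : t * r * t⁻¹ = r⁻¹ * a := by rw [ha, Inv.inv ht]; group
    have hc : Commute r⁻¹ a := (mem_Cz.1 (Cz_le_of_mem_zpowers h2 ((Cz u).inv_mem hru)))
    have h3 : (t * r * t⁻¹) ^ 3 = 1 := by rw [conj_pow, hr3]; group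
    rw [e, hc.mul_pow, inv_pow, hr3, inv_one, one_mul] at h3
    rw [J.U_sq h2 (by norm_num) h3, mul_one, Inv.inv ht] at e
    exact e
  have hk3 : ((Inv G).filter (· ∈ Cz u)).card ≤ 3 := by
    rw [← hro, ← Nat.card_zpowers, ← card_fs]
    refine card_le_card_of_injOn (fun a => a * z) (fun t ht => ?_) (fun a _ b _ e => by simpa using e)
    obtain ⟨h1, h2⟩ := mem_filter.1 ht
    have htz : t * z ∈ K := ⟨mem_Cz.2 (by
      have f1 : z * r = r⁻¹ * z := by rw [← hzr, mul_assoc, hzz, mul_one]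
      have f2 : t * r⁻¹ = r * t := by
        rw [← hinvr t h1 h2, ← mul_assoc, ← mul_assoc, (mem_Inv.1 h1).1, one_mul]
      rw [mul_assoc t, f1, ← mul_assoc, ← mul_assoc, f2]), Subgroup.mul_mem _ h2 hzu⟩
    obtain ⟨a, ha, b, hb, e, hab⟩ := hdec _ htz
    have hzb : z * b * z = b⁻¹ := by
      obtain ⟨k, rfl⟩ := hb
      simp only
      nth_rewrite 2 [← hzi]
      rw [← conj_zpow, hzi, hzr, inv_zpow]
    have hza : z * a = a * z := mem_Cz.1 (Cz_le_of_mem_zpowers ha hzu)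
    have : a ^ 2 = 1 := by
      have e3 : t = a * b * z := by rw [← e, mul_assoc, hzz, mul_one]
      calc a ^ 2 = a * (b * b⁻¹) * a := by rw [pow_two]; group
        _ = a * b * (z * b * z) * a := by rw [hzb]; group
        _ = a * b * z * b * (a * z) := by rw [← hza]; group
        _ = a * b * z * (b * a) * z := by group
        _ = t * t := by rw [← hab.eq, e3]; group
        _ = 1 := (mem_Inv.1 h1).1
    refine mem_fs.2 ?_
    simp only
    rw [e, J.U_sq ha (by norm_num) this, one_mul]; exact hb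
  have hC30 : Nat.card (Cz u) = 30 := by
    have d1 : 15 ∣ Nat.card (Cz u) := hK15 ▸ Subgroup.card_dvd_of_le inf_le_right
    have : 0 < Nat.card (Cz u) := Nat.card_pos
    omega
  have hKQ : K = Q := Subgroup.eq_of_le_of_card_ge
    (fun c hc => hQ3 c hc.2 (odd_order_of_mem hKo hc)) (by rw [hK15, hQ2]; omega)
  have hoddK : ∀ c ∈ Cz u, Odd (orderOf c) → c ∈ K := fun c hc ho => hKQ.ge (hQ3 c hc ho)
  -- the normalizer
  set N := Subgroup.normalizer (Subgroup.zpowers u : Set G) with hN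
  have hNu : ∀ h : G, h * u * h⁻¹ ∈ Subgroup.zpowers u → h ∈ N := fun h hh =>
    mem_normalizer_iff'.2 fun a ha => (Subgroup.zpowers_le.2 hh) (conj_mem_zpowers h ha)
  have hNC : ∀ h ∈ N, ∀ c ∈ Cz u, h * c * h⁻¹ ∈ Cz u := fun h hh c hc =>
    Cz_le_of_mem_zpowers (mem_zpowers_of_prime Nat.prime_five J.uo
      (mem_normalizer_iff'.1 hh u (Subgroup.mem_zpowers u)) (fun e => J.u1 (by simpa using e)))
      ((mem_Cz_conj h).2 hc)
  have hpm : ∀ h ∈ N, h * u * h⁻¹ = u ∨ h * u * h⁻¹ = u⁻¹ := by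
    intro h hh
    obtain ⟨c, hc, e⟩ := hconj _ (Inv.conj J.zI h) (hNC h hh z hzu)
    have h1 : c⁻¹ * h ∈ Cz z := by
      rw [mem_Cz']
      calc c⁻¹ * h * z * (c⁻¹ * h)⁻¹ = c⁻¹ * (h * z * h⁻¹) * c := by group
        _ = z := by rw [← e]; group
    have hU := mem_normalizer_iff'.1 hh u (Subgroup.mem_zpowers u)
    have h2 : c⁻¹ * h * u * (c⁻¹ * h)⁻¹ = h * u * h⁻¹ := by
      calc _ = c⁻¹ * (h * u * h⁻¹) * c⁻¹⁻¹ := by group
        _ = _ := mem_Cz'.1 (Cz_le_of_mem_zpowers hU ((Cz u).inv_mem hc))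
    rcases eq_of_order_five J.uo hU with e | e | e | e | e
    · exact absurd (by simpa using e) J.u1
    · exact Or.inl e
    · exact absurd (h2.trans e) (J.nu _ h1)
    · refine absurd ?_ (J.nu _ ((Cz z).mul_mem J.suz h1))
      have hs : su * u * su⁻¹ = u⁻¹ := by rw [Inv.inv J.suI, J.suu]
      calc _ = su * (c⁻¹ * h * u * (c⁻¹ * h)⁻¹) * su⁻¹ := by group
        _ = ((su * u * su⁻¹) * (su * u * su⁻¹))⁻¹ := by rw [h2, e]; group
        _ = _ := by rw [hs]; simp
    · exact Or.inr e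
  have hune : u ≠ u⁻¹ := fun e => J.u1 (J.U_sq (Subgroup.mem_zpowers u) (k := 2) (by norm_num) (by
    rw [pow_two]; nth_rewrite 1 [e]; simp))
  have hsu : su * u * su⁻¹ = u⁻¹ := by rw [Inv.inv J.suI, J.suu]
  have hsuN : su ∈ N := hNu _ (hsu ▸ Subgroup.inv_mem _ (Subgroup.mem_zpowers u))
  have hN60 : Nat.card N = 60 := by
    have h := orbit_card N u
    have e : cls N {u} = {u, u⁻¹} := by
      ext a; rw [mem_cls1, mem_insert, mem_singleton]
      constructor
      · rintro ⟨h, hh, rfl⟩; exact hpm h hh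
      · rintro (rfl | rfl)
        · exact ⟨1, N.one_mem, by simp⟩
        · exact ⟨su, hsuN, hsu⟩
    rw [e, card_pair hune, inf_eq_right.2 (fun c hc => hNu c (by
      rw [mem_Cz'.1 hc]; exact Subgroup.mem_zpowers u)), hC30] at h
    omega
  have hNK : ∀ h ∈ N, ∀ c ∈ K, h * c * h⁻¹ ∈ K := fun h hh c hc =>
    hoddK _ (hNC h hh c hc.2) (by rw [orderOf_conj']; exact odd_order_of_mem hKo hc)
  set Θ := (fs K).filter fun c => c ^ 3 ≠ 1 with hΘ
  have hti : ∀ g ∈ Θ, ∀ h ∈ (⊤ : Subgroup G), (h * g * h⁻¹ ∈ Θ ↔ h ∈ N) := by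
    intro g hg h _
    obtain ⟨h1, h2⟩ := mem_filter.1 hg
    constructor
    · intro hh
      have h3 := hKU _ (mem_fs.1 (mem_filter.1 hh).1)
      rw [conj_pow] at h3
      exact hNu h ((Subgroup.zpowers_le.2 h3) (conj_mem_zpowers h
        (mem_zpowers_of_prime Nat.prime_five J.uo (hKU g (mem_fs.1 h1)) h2)))
    · intro hh
      refine mem_filter.2 ⟨mem_fs.2 (hNK h hh g (mem_fs.1 h1)), fun e => h2 ?_⟩
      rw [conj_pow] at e; simpa using e
  have hUK : Subgroup.zpowers u ≤ K := Subgroup.zpowers_le.2 huK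
  have hRK : Subgroup.zpowers r ≤ K := Subgroup.zpowers_le.2 hrK
  have hΘc : Θ.card = 12 := by
    have := card_filter_add_card_filter_not (s := fs K) (fun c => c ^ 3 = 1)
    rw [show (fs K).filter (fun c => c ^ 3 = 1) = fs (Subgroup.zpowers r) by
      ext c; rw [mem_filter, mem_fs, mem_fs]
      exact ⟨fun h => hK3 c h.1 h.2, fun h => ⟨hRK h, hb3 c h⟩⟩, card_fs, card_fs, Nat.card_zpowers, hro,
      hK15] at this
    change 3 + Θ.card = 15 at this
    omega
  obtain ⟨s0, hs0I, hs0u, hs0r, hs0z⟩ : ∃ s0 ∈ Inv G, s0 * u * s0 = u⁻¹ ∧ s0 ∈ Cz r ∧ s0 ∈ Cz z := by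
    rcases eq_of_order_three hro (hK3 _ (hNK su hsuN r hrK) (by rw [conj_pow, hr3]; group)) with e | e | e
    · rw [show r = 1 by simpa using e] at hro; simp at hro
    · exact ⟨su, J.suI, J.suu, mem_Cz'.2 e, J.suz⟩
    · have hsz : su * z = z * su := mem_Cz.1 J.suz
      have f1 : su * z * u * (su * z) = u⁻¹ := by
        calc su * z * u * (su * z) = su * (z * u * z) * su := by nth_rewrite 2 [hsz]; group
          _ = _ := by rw [mem_Cz.1 hzu, mul_assoc u, hzz, mul_one, J.suu]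
      refine ⟨su * z, mem_Inv.2 ⟨?_, fun e2 => hune (by rw [← f1, e2]; simp)⟩, f1, mem_Cz'.2 ?_,
        (Cz z).mul_mem J.suz (self_mem_Cz z)⟩
      · calc su * z * (su * z) = su * (z * su) * z := by group
          _ = su * su * (z * z) := by rw [← hsz]; group
          _ = 1 := by rw [(mem_Inv.1 J.suI).1, hzz, one_mul]
      · calc su * z * r * (su * z)⁻¹ = su * (z * r * z⁻¹) * su⁻¹ := by group
          _ = (su * r * su⁻¹)⁻¹ := by rw [hzi, hzr]; group
          _ = r := by rw [e, inv_inv]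
  have hs00 := (mem_Inv.1 hs0I).1
  have hs0U : ∀ a ∈ Subgroup.zpowers u, s0 * a * s0 = a⁻¹ := by
    rintro _ ⟨k, rfl⟩
    simp only
    nth_rewrite 2 [← Inv.inv hs0I]
    rw [← conj_zpow, Inv.inv hs0I, hs0u, inv_zpow]
  have hzR : ∀ b ∈ Subgroup.zpowers r, z * b * z = b⁻¹ := by
    rintro _ ⟨k, rfl⟩
    simp only
    nth_rewrite 2 [← hzi]
    rw [← conj_zpow, hzi, hzr, inv_zpow]
  have hs0K : ∀ a ∈ Subgroup.zpowers u, ∀ b ∈ Subgroup.zpowers r, s0 * (a * b) * s0 = a⁻¹ * b :=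
    fun a ha b hb => by
      calc s0 * (a * b) * s0 = s0 * a * (b * s0) := by group
        _ = _ := by rw [← mem_Cz.1 (Cz_le_of_mem_zpowers hb hs0r), ← mul_assoc, hs0U a ha]
  have hs0z' : s0 * z = z * s0 := mem_Cz.1 hs0z
  have hs1K : ∀ c ∈ K, s0 * z * c * (s0 * z) = c⁻¹ := fun c hc => by
    obtain ⟨a, ha, b, hb, rfl, hab⟩ := hdec c hc
    calc s0 * z * (a * b) * (s0 * z) = z * (s0 * (a * b) * s0) * z := by rw [hs0z']; nth_rewrite 2 [← hs0z']; group
      _ = (z * a⁻¹) * b * z := by rw [hs0K a ha b hb]; group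
      _ = a⁻¹ * (z * b * z) := by
        rw [mem_Cz.1 (Cz_le_of_mem_zpowers (Subgroup.inv_mem _ ha) hzu)]; group
      _ = _ := by rw [hzR b hb, hab.eq]; group
  have hs1I : s0 * z ∈ Inv G := mem_Inv.2 ⟨by simpa using hs1K 1 K.one_mem, fun e => hune (by
    rw [← hs1K u huK, e]; simp)⟩
  have hzK : z ∉ K := not_mem_of_odd hKo J.zI
  have hCdec : fs (Cz u) = fs K ∪ (fs K).image (· * z) := by
    refine (eq_of_subset_of_card_le (fun c hc => ?_) ?_).symm
    · rcases mem_union.1 hc with h | h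
      · exact mem_fs.2 (mem_fs.1 h).2
      · obtain ⟨d, hd, rfl⟩ := mem_image.1 h
        exact mem_fs.2 (Subgroup.mul_mem _ (mem_fs.1 hd).2 hzu)
    · rw [card_union_of_disjoint, card_image_of_injective _ (mul_left_injective z), card_fs, card_fs, hC30,
        hK15]
      rw [disjoint_left]; intro c h1 h2
      obtain ⟨d, hd, rfl⟩ := mem_image.1 h2
      exact hzK (by simpa using K.mul_mem (K.inv_mem (mem_fs.1 hd)) (mem_fs.1 h1))
  have n20 : ∀ g ∈ Subgroup.zpowers u, g ≠ 1 → ninv g = 20 := by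
    intro g hg hg1
    rw [ninv_eq hs0I (hs0U g hg) (fun e => hg1 (J.U_sq hg (k := 2) (by norm_num) (by
      rw [pow_two]; nth_rewrite 1 [e]; simp))),
      show Cz g = Cz u from le_antisymm (Cz_le_of_mem_zpowers (mem_zpowers_of_prime Nat.prime_five J.uo hg hg1))
        (Cz_le_of_mem_zpowers hg), hCdec, filter_union, filter_true_of_mem (s := (fs K).image (· * z)),
      show (fs K).filter (fun c => s0 * c * s0 = c⁻¹) = fs (Subgroup.zpowers u) from ?_,
      card_union_of_disjoint, card_image_of_injective _ (mul_left_injective z), card_fs, card_fs, hK15,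
      Nat.card_zpowers, J.uo]
    · rw [disjoint_left]; intro c h1 h2
      obtain ⟨d, hd, rfl⟩ := mem_image.1 h2
      exact hzK (by simpa using K.mul_mem (K.inv_mem (mem_fs.1 hd)) (hUK (mem_fs.1 h1)))
    · ext c; rw [mem_filter, mem_fs, mem_fs]
      refine ⟨fun h => ?_, fun h => ⟨hUK h, hs0U c h⟩⟩
      obtain ⟨a, ha, b, hb, rfl, hab⟩ := hdec c h.1
      have h2 := h.2
      rw [hs0K a ha b hb, hab.eq, mul_inv_rev, mul_right_inj] at h2
      have h3 : b = 1 := by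
        have := hb3 b hb
        rwa [pow_succ, pow_two, show b * b = 1 by nth_rewrite 1 [h2]; simp, one_mul] at this
      rw [h3, mul_one]; exact ha
    · intro c hc
      obtain ⟨d, hd, rfl⟩ := mem_image.1 hc
      have := hs1K d (mem_fs.1 hd)
      calc s0 * (d * z) * s0 = z⁻¹ * (z * s0 * d * (z * s0)) := by group
        _ = _ := by rw [← hs0z', this]; group
  have n15 : ∀ g ∈ Θ, g ∉ Subgroup.zpowers u → ninv g = 15 := by
    intro g hg hgu
    obtain ⟨h1, h2⟩ := mem_filter.1 hg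
    have h1 := mem_fs.1 h1
    have h5 : g ^ 5 ≠ 1 := fun e => hgu (by
      have := Subgroup.pow_mem _ (hKU g h1) 2
      rwa [← pow_mul, show 3 * 2 = 5 + 1 by norm_num, pow_succ, e, one_mul] at this)
    have hC : Cz g = K := by
      exact le_antisymm (fun c hc =>
        ⟨Cz_le_of_mem_zpowers (mem_zpowers_of_prime Nat.prime_three hro (hKR g h1) h5)
          (Cz_le_of_mem_zpowers (Subgroup.npow_mem_zpowers g 5) hc),
        Cz_le_of_mem_zpowers (mem_zpowers_of_prime Nat.prime_five J.uo (hKU g h1) h2)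
          (Cz_le_of_mem_zpowers (Subgroup.npow_mem_zpowers g 3) hc)⟩)
        (fun c hc => mem_Cz.2 (comm_of_inverts (mem_Inv.1 hs1I).1 hs1K hc h1))
    rw [ninv_eq hs1I (hs1K g h1) (fun e => not_mem_of_odd hKo (mem_Inv.2 ⟨by nth_rewrite 1 [e]; simp,
      fun e2 => h2 (by rw [e2]; simp)⟩) h1), hC, filter_true_of_mem (fun c hc => hs1K c (mem_fs.1 hc)),
      card_fs, hK15]
  have hsum : ∑ g ∈ Θ, ninv g = 200 := by
    have hsub : (fs (Subgroup.zpowers u)).erase 1 ⊆ Θ := fun a ha => mem_filter.2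
      ⟨mem_fs.2 (hUK (mem_fs.1 (mem_erase.1 ha).2)), fun e => (mem_erase.1 ha).1
        (J.U_sq (mem_fs.1 (mem_erase.1 ha).2) (by norm_num) e)⟩
    have h4 : ((fs (Subgroup.zpowers u)).erase 1).card = 4 := by
      rw [card_erase_of_mem (mem_fs.2 (Subgroup.one_mem _)), card_fs, Nat.card_zpowers, J.uo]
    rw [← sum_sdiff hsub, sum_congr rfl (g := fun _ => 15) (fun g hg => n15 g (mem_sdiff.1 hg).1 fun h =>
        (mem_sdiff.1 hg).2 (mem_erase.2 ⟨fun e => (mem_filter.1 (mem_sdiff.1 hg).1).2 (by simp [e]),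
          mem_fs.2 h⟩)),
      sum_congr rfl (g := fun _ => 20) (fun g hg => n20 g (mem_fs.1 (mem_erase.1 hg).2) (mem_erase.1 hg).1),
      sum_const, sum_const, card_sdiff_of_subset hsub, hΘc, h4]
    rfl
  have t1 := ti_card ⊤ N le_top Θ hti
  have t2 := ti_sum ⊤ N le_top Θ hti ninv (fun g _ h _ => ninv_conj h g)
  rw [hN60, Subgroup.card_top] at t1 t2
  rw [hΘc] at t1
  rw [hsum] at t2
  refine ⟨cls ⊤ Θ, by omega, by omega, fun y hy => ?_, fun y hy h => ?_, fun g c hc hg ho => ?_⟩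
  · obtain ⟨g, hg, h, _, rfl⟩ := mem_cls.1 hy
    obtain ⟨h1, h2⟩ := mem_filter.1 hg
    rw [orderOf_conj']
    refine ⟨odd_order_of_mem hKo (mem_fs.1 h1), ?_⟩
    have h3 := orderOf_dvd_of_mem_zpowers (mem_zpowers_of_prime Nat.prime_five J.uo (hKU g (mem_fs.1 h1)) h2)
    rw [J.uo] at h3
    exact h3.trans (orderOf_pow_dvd 3)
  · obtain ⟨g, hg, k, _, rfl⟩ := mem_cls.1 hy
    exact mem_cls.2 ⟨g, hg, h * k, trivial, by group⟩
  · haveI : Fact (Nat.Prime 5) := ⟨Nat.prime_five⟩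
    have hs := sylow_of_norm (p := 5) (C := ⊤) (T := Subgroup.zpowers u) le_top
      (IsPGroup.of_card (n := 1) (by rw [Nat.card_zpowers, J.uo, pow_one])) (fun n _ hn ⟨k, hk⟩ => by
        have ho : Odd (orderOf n) := Odd.of_dvd_nat (Odd.pow (by decide)) (orderOf_dvd_of_pow_eq_one hk)
        have h1 : n ∈ Cz u := by
          rcases hpm n (mem_normalizer_iff'.2 hn) with e | e
          · exact mem_Cz'.2 e
          · have := (pow_pm e _).2 ho
            rw [pow_orderOf_eq_one] at this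
            exact absurd (by simpa using this) hune
        obtain ⟨a, ha, b, hb, rfl, hab⟩ := hdec n (hoddK n h1 ho)
        have h2 : b ^ 5 ^ (k + 1) = 1 := by
          have : (a * b) ^ 5 ^ (k + 1) = 1 := by rw [pow_succ, pow_mul, hk, one_pow]
          rwa [hab.mul_pow, pow_succ', pow_mul a, ha5 a ha, one_pow, one_mul, ← pow_succ'] at this
        have h3 : b = 1 := by
          rw [← orderOf_eq_one_iff]
          exact Nat.eq_one_of_dvd_coprimes (Nat.Coprime.pow_left _ (by norm_num))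
            (orderOf_dvd_of_pow_eq_one h2) (orderOf_dvd_of_pow_eq_one (hb3 b hb))
        rw [h3, mul_one]; exact ha)
    have hidx : ¬ 5 ∣ (Subgroup.zpowers u).index := by
      let P : Sylow 5 G := Sylow.ofCard (Subgroup.zpowers u) (by rw [hs, Subgroup.card_top])
      exact P.not_dvd_index
    obtain ⟨h, hh⟩ := conj_into Nat.prime_five hidx (c := c) (k := 1) (by rw [pow_one, ← hc, pow_orderOf_eq_one])
    have h1 : h * g * h⁻¹ ∈ K := hoddK _ (Cz_le_of_mem_zpowers (mem_zpowers_of_prime Nat.prime_five J.uo hh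
      (fun e => by rw [show c = 1 by simpa using e] at hc; simp at hc)) ((mem_Cz_conj h).2 hg))
      (by rwa [orderOf_conj'])
    by_cases h3 : (h * g * h⁻¹) ^ 3 = 1
    · right
      rcases eq_of_order_three hro (hK3 _ h1 h3) with e | e | e
      · left; simpa using e
      · right; exact Cj.of_conj (e ▸ hxr)
      · right; exact Cj.of_conj (e ▸ J.cjx_inv hxr)
    · left
      exact mem_cls.2 ⟨_, mem_filter.2 ⟨mem_fs.2 h1, h3⟩, h⁻¹, trivial, by group⟩

end J3
end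
end Cfsg.Agent.J3T
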