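import Cfsg.Agent.Lib.J3T.NV

/-! The centralizer of an element of class 3A has order 1080. -/

set_option autoImplicit false
set_option linter.unusedSectionVars false
open Finset Classical

namespace Cfsg.Agent.J3T
noncomputable section
variable {G : Type*} [Group G] [Fintype G]

structure Quo {K : Type*} [Group K] (x : G) (ρ : G → K) : Prop where
  mul : ∀ a ∈ Cz x, ∀ b ∈ Cz x, ρ (a * b) = ρ a * ρ b
  ker : ∀ a ∈ Cz x, (ρ a = 1 ↔ a ∈ Subgroup.zpowers x)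
  sur : ∀ k, ∃ a ∈ Cz x, ρ a = k

theorem zpowers_le_Cz (x : G) : Subgroup.zpowers x ≤ Cz x := Subgroup.zpowers_le.2 (self_mem_Cz x)

instance normal_zpowers (x : G) : ((Subgroup.zpowers x).subgroupOf (Cz x)).Normal := ⟨fun n hn g => by
  have : (g : G) ∈ Cz (n : G) := mem_Cz_comm.1 ((Subgroup.zpowers_le.2 (mem_Cz_comm.1 g.2)) hn)
  change (g : G) * n * (g : G)⁻¹ ∈ Subgroup.zpowers x
  rw [mem_Cz'.1 this]; exact hn⟩

theorem exists_quo (x : G) : ∃ ρ : G → (Cz x ⧸ (Subgroup.zpowers x).subgroupOf (Cz x)), Quo x ρ := by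
  refine ⟨fun g => if h : g ∈ Cz x then QuotientGroup.mk ⟨g, h⟩ else 1, fun a ha b hb => ?_,
    fun a ha => ?_, fun k => ?_⟩
  · simp only [dif_pos ha, dif_pos hb, dif_pos ((Cz x).mul_mem ha hb)]; rfl
  · simp only [dif_pos ha, QuotientGroup.eq_one_iff]; rfl
  · obtain ⟨g, rfl⟩ := QuotientGroup.mk_surjective k
    exact ⟨g, g.2, by simp only [dif_pos g.2]⟩

namespace Quo
variable {K : Type*} [Group K] [Fintype K] {x : G} {ρ : G → K} (Q : Quo x ρ)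
include Q

theorem one : ρ 1 = 1 := (Q.ker 1 (Cz x).one_mem).2 (Subgroup.one_mem _)

theorem inv {a : G} (ha : a ∈ Cz x) : ρ a⁻¹ = (ρ a)⁻¹ := by
  rw [eq_inv_iff_mul_eq_one, ← Q.mul _ ((Cz x).inv_mem ha) _ ha, inv_mul_cancel, Q.one]

theorem pow {a : G} (ha : a ∈ Cz x) (k : ℕ) : ρ (a ^ k) = ρ a ^ k := by
  induction k with
  | zero => simp [Q.one]
  | succ k ih => rw [pow_succ, Q.mul _ ((Cz x).pow_mem ha k) _ ha, ih, pow_succ]

theorem conj {a b : G} (ha : a ∈ Cz x) (hb : b ∈ Cz x) : ρ (a * b * a⁻¹) = ρ a * ρ b * (ρ a)⁻¹ := by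
  rw [Q.mul _ ((Cz x).mul_mem ha hb) _ ((Cz x).inv_mem ha), Q.mul _ ha _ hb, Q.inv ha]

theorem eq_iff {a b : G} (ha : a ∈ Cz x) (hb : b ∈ Cz x) : ρ a = ρ b ↔ a * b⁻¹ ∈ Subgroup.zpowers x := by
  rw [← Q.ker _ ((Cz x).mul_mem ha ((Cz x).inv_mem hb)), Q.mul _ ha _ ((Cz x).inv_mem hb), Q.inv hb,
    mul_inv_eq_one]

theorem order_dvd {a : G} (ha : a ∈ Cz x) : orderOf (ρ a) ∣ orderOf a :=
  orderOf_dvd_of_pow_eq_one (by rw [← Q.pow ha, pow_orderOf_eq_one, Q.one])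

theorem card_pre (P : K → Prop) [DecidablePred P] (S : Finset G) (hS : ∀ g, g ∈ S ↔ g ∈ Cz x ∧ P (ρ g)) :
    S.card = orderOf x * (univ.filter P).card := by
  rw [card_eq_sum_card_fiberwise (f := ρ) (t := univ.filter P)
    (fun g hg => mem_filter.2 ⟨mem_univ _, ((hS g).1 hg).2⟩), mul_comm, ← smul_eq_mul, ← sum_const]
  refine sum_congr rfl fun k hk => ?_
  obtain ⟨a, ha, rfl⟩ := Q.sur k
  rw [← Nat.card_zpowers, ← card_fs]
  refine (card_bij (fun c _ => c * a) ?_ (fun a _ b _ e => by simpa using e) ?_).symm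
  · intro c hc
    have hc' := mem_fs.1 hc
    have e : ρ (c * a) = ρ a := by
      rw [Q.mul _ (zpowers_le_Cz x hc') _ ha, (Q.ker _ (zpowers_le_Cz x hc')).2 hc', one_mul]
    exact mem_filter.2 ⟨(hS _).2 ⟨(Cz x).mul_mem (zpowers_le_Cz x hc') ha, e ▸ (mem_filter.1 hk).2⟩, e⟩
  · intro b hb
    obtain ⟨h1, h2⟩ := mem_filter.1 hb
    exact ⟨b * a⁻¹, mem_fs.2 ((Q.eq_iff ((hS b).1 h1).1 ha).1 h2), by simp⟩

def pre (S : Subgroup K) : Subgroup G where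
  carrier := {g | g ∈ Cz x ∧ ρ g ∈ S}
  mul_mem' := fun {a b} ha hb => ⟨(Cz x).mul_mem ha.1 hb.1, Q.mul a ha.1 b hb.1 ▸ S.mul_mem ha.2 hb.2⟩
  one_mem' := ⟨(Cz x).one_mem, Q.one ▸ S.one_mem⟩
  inv_mem' := fun {a} ha => ⟨(Cz x).inv_mem ha.1, Q.inv ha.1 ▸ S.inv_mem ha.2⟩

theorem mem_pre {S : Subgroup K} {g : G} : g ∈ Q.pre S ↔ g ∈ Cz x ∧ ρ g ∈ S := Iff.rfl

theorem card_pre' (S : Subgroup K) : Nat.card (Q.pre S) = orderOf x * Nat.card S := by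
  rw [← card_fs, ← card_fs S, Q.card_pre (· ∈ S) _ (fun g => by rw [mem_fs, Q.mem_pre])]; rfl

theorem inv_unique (hx : orderOf x = 3) {a b : G} (ha : a ∈ Cz x) (hb : b ∈ Cz x) (h1 : a * a = 1)
    (h2 : b * b = 1) (e : ρ a = ρ b) : a = b := by
  have h3 := (Q.eq_iff ha hb).1 e
  have hc : b ∈ Cz (a * b⁻¹) := mem_Cz_comm.1 ((Subgroup.zpowers_le.2 (mem_Cz_comm.1 hb)) h3)
  have h4 : (a * b⁻¹) ^ 2 = 1 := by
    have e1 : a = a * b⁻¹ * b := by group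
    have : a * a = (a * b⁻¹) ^ 2 * (b * b) := by
      calc a * a = a * b⁻¹ * (b * (a * b⁻¹)) * b := by group
        _ = _ := by rw [mem_Cz.1 hc, pow_two]; group
    rwa [h1, h2, mul_one, eq_comm] at this
  have h5 := orderOf_dvd_of_mem_zpowers h3
  rw [hx] at h5
  have := Nat.eq_one_of_dvd_coprimes (by norm_num) (orderOf_dvd_of_pow_eq_one h4) h5
  rwa [orderOf_eq_one_iff, mul_inv_eq_one] at this

theorem inv_map (hx : orderOf x = 3) {a : G} (ha : a ∈ Cz x) (h : a ∈ Inv G) : ρ a ∈ Inv K := by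
  refine mem_Inv.2 ⟨by rw [← Q.mul a ha a ha, (mem_Inv.1 h).1, Q.one], fun e => ?_⟩
  have := orderOf_dvd_of_mem_zpowers ((Q.ker a ha).1 e)
  rw [hx, Inv.order h] at this; omega

theorem inv_lift (hx : orderOf x = 3) {k : K} (h : k ∈ Inv K) : ∃ a ∈ Cz x, a ∈ Inv G ∧ ρ a = k := by
  obtain ⟨a, ha, rfl⟩ := Q.sur k
  obtain ⟨h1, h2⟩ := mem_Inv.1 h
  have e : ρ (a ^ 3) = ρ a := by rw [Q.pow ha, pow_succ, pow_two, h1, one_mul]
  refine ⟨a ^ 3, (Cz x).pow_mem ha 3, mem_Inv.2 ⟨?_, fun e2 => h2 (by rw [← e, e2, Q.one])⟩, e⟩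
  have h3 := orderOf_dvd_of_mem_zpowers ((Q.ker _ ((Cz x).mul_mem ha ha)).1 (by rw [Q.mul a ha a ha, h1]))
  rw [hx, orderOf_dvd_iff_pow_eq_one, ← pow_two, ← pow_mul] at h3
  rw [← pow_add]; exact h3

theorem mem_zpowers_iff (hx : orderOf x = 3) {z g : G} (hz : z ∈ Cz x) (hzI : z ∈ Inv G) (hg : g ∈ Cz x) :
    ρ z ∈ Subgroup.zpowers (ρ g) ↔ z ∈ Subgroup.zpowers g := by
  constructor
  · intro h
    obtain ⟨k, _, hk⟩ := exists_pow_of_mem_zpowers h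
    have hI := Q.inv_map hx hz hzI
    have e : ρ ((g ^ k) ^ 3) = ρ z := by
      rw [Q.pow ((Cz x).pow_mem hg k), Q.pow hg, hk, pow_succ, pow_two, (mem_Inv.1 hI).1, one_mul]
    have h3 := orderOf_dvd_of_mem_zpowers ((Q.ker _ ((Cz x).pow_mem ((Cz x).pow_mem hg k) 2)).1 (by
      rw [Q.pow ((Cz x).pow_mem hg k), Q.pow hg, hk, pow_two, (mem_Inv.1 hI).1]))
    rw [hx, orderOf_dvd_iff_pow_eq_one, ← pow_mul] at h3
    rw [← Q.inv_unique hx ((Cz x).pow_mem ((Cz x).pow_mem hg k) 3) hz (by rw [← pow_add]; exact h3)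
      (mem_Inv.1 hzI).1 e, ← pow_mul]
    exact Subgroup.npow_mem_zpowers _ _
  · intro h
    obtain ⟨k, _, rfl⟩ := exists_pow_of_mem_zpowers h
    rw [Q.pow hg]; exact Subgroup.npow_mem_zpowers _ _

end Quo

/-- the data on `C(x)` -/
structure TD (z x : G) (T : Subgroup G) : Prop where
  cL : Nat.card (Cz x) = 1080
  le : T ≤ Cz x
  xT : x ∈ T
  cT : Nat.card T = 27
  zinv : ∀ c ∈ T, z * c * z * c ∈ Subgroup.zpowers x
  cent : ∀ c ∈ T, c ∉ Subgroup.zpowers x → ∀ g ∈ Cz x, (g * c * g⁻¹ * c⁻¹ ∈ Subgroup.zpowers x ↔ g ∈ T)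
  cN : Nat.card ↥(Cz x ⊓ Subgroup.normalizer (T : Set G)) = 108
  odd : ∀ y ∈ Cz x, Odd (orderOf y) → (∃ g ∈ Cz x, g * y * g⁻¹ ∈ T) ∨
    (5 ∣ orderOf y ∧ Nat.card ↥(Cz x ⊓ Cz y) ∣ 15)

namespace J3
variable {z x u s su τ : G} (J : J3 z x u s su τ)
include J

theorem zx : z ∈ Cz x := mem_Cz_comm.1 J.xz

theorem invL {t : G} (ht : t ∈ Inv G) (h : t ∈ Cz x) : ∃ g ∈ Cz x, g * t * g⁻¹ = z := by
  obtain ⟨g, h1, h2⟩ := J.tr3 ht (mem_Cz_comm.1 h) J.xo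
  exact ⟨g, mem_Cz'.2 h2, h1⟩

theorem cx : ∃ T : Subgroup G, TD z x T := by
  obtain ⟨ρ, Q⟩ := exists_quo x
  letI : Fintype (Cz x ⧸ (Subgroup.zpowers x).subgroupOf (Cz x)) := Fintype.ofFinite _
  have hx := J.xo
  have hz := Q.inv_map hx J.zx J.zI
  have hC : Q.pre (Cz (ρ z)) = Cz z ⊓ Cz x := by
    ext g
    rw [Q.mem_pre, Subgroup.mem_inf, and_comm]
    refine and_congr_left fun hg => ?_
    rw [mem_Cz', mem_Cz', ← Q.conj hg J.zx]
    refine ⟨fun h => Q.inv_unique hx ((Cz x).mul_mem ((Cz x).mul_mem hg J.zx) ((Cz x).inv_mem hg)) J.zx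
      (mem_Inv.1 (Inv.conj J.zI g)).1 (mem_Inv.1 J.zI).1 h, fun h => by rw [h]⟩
  obtain ⟨⟨v, hv, hvo⟩, r1, -, hr, -, hr1, -, -, hr1', -, -⟩ := J.nv
  obtain ⟨h360, A, a1, a2, a3, a4, a5⟩ := lemmaK hz (fun k hk => by
      obtain ⟨a, ha, haI, rfl⟩ := Q.inv_lift hx hk
      obtain ⟨g, hg, e⟩ := J.invL haI ha
      exact ⟨ρ g, by rw [← Q.conj hg ha, e]⟩)
    (by have := Q.card_pre' (Cz (ρ z)); rw [hC, J.c24, hx] at this; omega)
    (by
      have := Q.card_pre (fun k => ρ z ∈ Subgroup.zpowers k)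
        (univ.filter fun g => g ∈ Cz x ∧ z ∈ Subgroup.zpowers g) (fun g => by
        rw [mem_filter, and_iff_right (mem_univ _)]
        exact and_congr_right fun hg => (Q.mem_zpowers_iff hx J.zx J.zI hg).symm)
      rw [J.c9, hx] at this
      unfold J3T.n1; omega)
    (by
      rw [← J.c12]; unfold J3T.n2
      refine (card_bij (fun p _ => (ρ p.1, ρ p.2)) ?_ ?_ ?_).symm
      · rintro ⟨a, b⟩ hp
        simp only [mem_filter, mem_product] at hp ⊢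
        obtain ⟨⟨h1, h2⟩, h3, h4, h5⟩ := hp
        refine ⟨⟨Q.inv_map hx h3 h1, Q.inv_map hx h4 h2⟩, ?_⟩
        rw [← Q.mul _ h3 _ h4, Q.mem_zpowers_iff hx J.zx J.zI ((Cz x).mul_mem h3 h4)]; exact h5
      · rintro ⟨a, b⟩ hp ⟨c, d⟩ hq e
        simp only [mem_filter, mem_product, Prod.mk.injEq] at hp hq e ⊢
        exact ⟨Q.inv_unique hx hp.2.1 hq.2.1 (mem_Inv.1 hp.1.1).1 (mem_Inv.1 hq.1.1).1 e.1,
          Q.inv_unique hx hp.2.2.1 hq.2.2.1 (mem_Inv.1 hp.1.2).1 (mem_Inv.1 hq.1.2).1 e.2⟩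
      · rintro ⟨a, b⟩ hp
        simp only [mem_filter, mem_product] at hp
        obtain ⟨a', ha, haI, rfl⟩ := Q.inv_lift hx hp.1.1
        obtain ⟨b', hb, hbI, rfl⟩ := Q.inv_lift hx hp.1.2
        refine ⟨(a', b'), ?_, rfl⟩
        simp only [mem_filter, mem_product]
        refine ⟨⟨haI, hbI⟩, ha, hb, ?_⟩
        rw [← Q.mem_zpowers_iff hx J.zx J.zI ((Cz x).mul_mem ha hb), Q.mul _ ha _ hb]; exact hp.2)
    (by
      obtain ⟨c, h1, h2, h3, h4⟩ := J.cxI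
      refine ⟨ρ c, Q.inv_map hx h4 h1, fun e => h2 (Q.inv_unique hx h4 J.zx (mem_Inv.1 h1).1
        (mem_Inv.1 J.zI).1 e), (hC.ge ⟨h3, h4⟩).2⟩)
    (by
      refine Nat.Coprime.mul_dvd_of_dvd_of_dvd (m := 3) (n := 5) (by norm_num) ?_ ?_
      · have h1 := Q.order_dvd hr1
        rw [hr.order, hx] at h1
        rcases (Nat.dvd_prime Nat.prime_three).1 h1 with h | h
        · exact absurd ((Q.ker _ hr1).1 (orderOf_eq_one_iff.1 h)) hr1'
        · exact h ▸ orderOf_dvd_natCard _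
      · have h1 := Q.order_dvd hv
        rw [hvo] at h1
        rcases (Nat.dvd_prime Nat.prime_five).1 h1 with h | h
        · have := orderOf_dvd_of_mem_zpowers ((Q.ker _ hv).1 (orderOf_eq_one_iff.1 h))
          rw [hvo, hx] at this; omega
        · exact h ▸ orderOf_dvd_natCard _)
  refine ⟨Q.pre A, ?_, fun g hg => hg.1, ⟨self_mem_Cz x, ?_⟩, by rw [Q.card_pre', hx, a1], fun c hc => ?_,
    fun c hc hc1 g hg => ?_, ?_, fun y hy ho => ?_⟩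
  · have := Q.card_pre' ⊤
    rw [Subgroup.card_top, h360, hx] at this
    rw [show 1080 = 3 * 360 by norm_num, ← this]; congr 2; ext g; simp [Q.mem_pre]
  · rw [(Q.ker x (self_mem_Cz x)).2 (Subgroup.mem_zpowers x)]; exact A.one_mem
  · have hc1 := hc.1
    rw [← Q.ker _ ((Cz x).mul_mem ((Cz x).mul_mem ((Cz x).mul_mem J.zx hc1) J.zx) hc1),
      Q.mul _ ((Cz x).mul_mem ((Cz x).mul_mem J.zx hc1) J.zx) _ hc1, Q.mul _ ((Cz x).mul_mem J.zx hc1) _ J.zx,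
      Q.mul _ J.zx _ hc1, a2 _ hc.2, inv_mul_cancel]
  · rw [← Q.eq_iff ((Cz x).mul_mem ((Cz x).mul_mem hg hc.1) ((Cz x).inv_mem hg)) hc.1, Q.conj hg hc.1,
      ← mem_Cz', a3 _ hc.2 (fun e => hc1 ((Q.ker _ hc.1).1 e)), Q.mem_pre, and_iff_right hg]
  · have := Q.card_pre' (Subgroup.normalizer (A : Set _))
    rw [a4, hx] at this
    rw [show 108 = 3 * 36 by norm_num, ← this]; congr 2; ext g
    rw [Q.mem_pre, Subgroup.mem_inf]
    refine and_congr_right fun hg => ?_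
    rw [mem_normalizer_iff', mem_normalizer_iff']
    constructor
    · intro h k hk
      obtain ⟨a, ha, rfl⟩ := Q.sur k
      rw [← Q.conj hg ha]; exact (h a ⟨ha, hk⟩).2
    · intro h a ha
      exact ⟨(Cz x).mul_mem ((Cz x).mul_mem hg ha.1) ((Cz x).inv_mem hg), Q.conj hg ha.1 ▸ h _ ha.2⟩
  · rcases a5 (ρ y) (Odd.of_dvd_nat ho (Q.order_dvd hy)) with ⟨k, hk⟩ | h
    · obtain ⟨g, hg, rfl⟩ := Q.sur k
      exact Or.inl ⟨g, hg, (Cz x).mul_mem ((Cz x).mul_mem hg hy) ((Cz x).inv_mem hg), Q.conj hg hy ▸ hk⟩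
    · right
      constructor
      · have h1 := Subgroup.orderOf_dvd_natCard _ (self_mem_Cz (ρ y))
        rw [h] at h1
        rcases (Nat.dvd_prime Nat.prime_five).1 h1 with h2 | h2
        · rw [orderOf_eq_one_iff] at h2
          have : Cz (ρ y) = ⊤ := by rw [eq_top_iff]; intro g _; rw [mem_Cz, h2]; simp
          rw [this, Subgroup.card_top, h360] at h; omega
        · exact h2 ▸ Q.order_dvd hy
      · have := Q.card_pre' (Cz (ρ y))
        rw [h, hx] at this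
        rw [show 15 = 3 * 5 by norm_num, ← this]
        refine Subgroup.card_dvd_of_le fun g hg => ⟨hg.1, mem_Cz.2 ?_⟩
        rw [← Q.mul _ hg.1 _ hy, ← Q.mul _ hy _ hg.1, mem_Cz.1 hg.2]

end J3
end
end Cfsg.Agent.J3T
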