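import Cfsg.Agent.Lib.J3T.MT
import Cfsg.Agent.Lib.J3T.CU

/-! The centralizer of an element of `W`. -/

set_option autoImplicit false
set_option linter.unusedSectionVars false
open Finset Classical

namespace Cfsg.Agent.J3T
noncomputable section
variable {G : Type*} [Group G] [Fintype G]

/-- elements of odd order prime to 5 outside the class 3A -/
def Gd (x g : G) : Prop := g ≠ 1 ∧ ¬ Cj x g ∧ Odd (orderOf g) ∧ ¬ 5 ∣ orderOf g

theorem Gd.conj {x g : G} (h : Gd x g) (k : G) : Gd x (k * g * k⁻¹) :=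
  ⟨fun e => h.1 (by simpa using e), fun e => h.2.1 e.of_conj, by rw [orderOf_conj']; exact h.2.2.1,
    by rw [orderOf_conj']; exact h.2.2.2⟩

/-- the consequence of the 5-local analysis -/
def H5 (x : G) : Prop :=
  ∀ g c : G, orderOf c = 5 → g ∈ Cz c → Odd (orderOf g) → 5 ∣ orderOf g ∨ g = 1 ∨ Cj x g

namespace J3
variable {z x u s su τ : G} (J : J3 z x u s su τ) {σ : G} {T W : Subgroup G}
include J

theorem gd_odd {g : G} (h : Gd x g) : Odd (Nat.card (Cz g)) := odd_card_of_no_inv fun t ht hg => by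
  rcases J.oddc ht (mem_Cz_comm.1 hg) h.2.2.1 with e | e | e
  · exact h.1 e
  · exact h.2.1 (J.cj3 ht (mem_Cz_comm.1 hg) e)
  · exact h.2.2.2 (e ▸ dvd_rfl)

omit J in
theorem gd_five (h5 : H5 x) {g : G} (h : Gd x g) : ¬ 5 ∣ Nat.card (Cz g) := fun hd => by
  obtain ⟨c, hc, ho⟩ := exists_order_of_dvd Nat.prime_five hd
  rcases h5 g c ho (mem_Cz_comm.1 hc) h.2.2.1 with e | e | e
  · exact h.2.2.2 e
  · exact h.1 e
  · exact h.2.1 e

theorem small {t : G} (ht : t ∈ Inv G) {S : Subgroup G} (hS : S ≤ Cz t) (ho : Odd (Nat.card S))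
    (h5 : ¬ 5 ∣ Nat.card S) : Nat.card S ∣ 3 := by
  have h1 : Nat.card S ∣ 2 ^ 7 * 5 * 3 := by
    have := Subgroup.card_dvd_of_le hS
    rwa [J.cardI ht] at this
  exact (Nat.Coprime.mul_right (Nat.Coprime.pow_right 7 (Nat.coprime_two_right.2 ho))
    ((Nat.Prime.coprime_iff_not_dvd Nat.prime_five).2 h5).symm).dvd_of_dvd_mul_left h1

variable (E : WD z x σ T W)
include E

theorem gd_cj {g r : G} (h : Gd x g) (hr : r ∈ Cz g) (hx : Cj x r) : ∃ k : G, k * g * k⁻¹ ∈ W := by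
  obtain ⟨k, rfl⟩ := hx
  have h1 : k⁻¹ * g * k⁻¹⁻¹ ∈ Cz x := by
    have := (mem_Cz_conj k⁻¹).2 (mem_Cz_comm.1 hr)
    rwa [show k⁻¹ * (k * x * k⁻¹) * k⁻¹⁻¹ = x by group] at this
  rcases E.odd _ h1 (h.conj k⁻¹).2.2.1 with ⟨l, _, hl⟩ | ⟨e, _⟩
  · refine ⟨l * k⁻¹, ?_⟩
    rw [show l * k⁻¹ * g * (l * k⁻¹)⁻¹ = l * (k⁻¹ * g * k⁻¹⁻¹) * l⁻¹ by group]
    by_contra h2
    exact ((h.conj k⁻¹).conj l).2.1 (J.cj_of_T E hl h2)
  · exact absurd e (h.conj k⁻¹).2.2.2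

theorem gd_W {w : G} (hw : w ∈ W) (h1 : w ≠ 1) : Gd x w :=
  ⟨h1, J.W_not_cj E hw, by rw [E.W_order hw h1]; decide, by rw [E.W_order hw h1]; decide⟩

theorem cx_cw {w : G} (hw : w ∈ W) (h1 : w ≠ 1) : Cz w ⊓ Cz x = T := by
  rw [inf_comm]; exact E.centT w (E.WT hw) (J.W_not_x E hw h1)

theorem cz_cw (h5 : H5 x) {w : G} (hw : w ∈ W) (h1 : w ≠ 1) : Cz w ⊓ Cz z = Subgroup.zpowers x := by
  have hg := J.gd_W E hw h1
  have hle : Subgroup.zpowers x ≤ Cz w ⊓ Cz z :=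
    Subgroup.zpowers_le.2 ⟨mem_Cz_comm.1 (E.le (E.WT hw)), J.xz⟩
  have hd := Subgroup.card_dvd_of_le (inf_le_left : Cz w ⊓ Cz z ≤ Cz w)
  refine (Subgroup.eq_of_le_of_card_ge hle ?_).symm
  rw [Nat.card_zpowers, J.xo]
  exact Nat.le_of_dvd (by norm_num) (J.small J.zI inf_le_right (Odd.of_dvd_nat (J.gd_odd hg) hd)
    fun h => gd_five h5 hg (h.trans hd))

theorem inv_not_cj {w c : G} (hw : w ∈ W) (h1 : w ≠ 1) (hc : c ∈ Cz w) (hz : z * c * z = c⁻¹) :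
    ¬ Cj x c := by
  rintro ⟨g, rfl⟩
  have hzi := Inv.inv J.zI
  have h2 : g⁻¹ * w * g⁻¹⁻¹ ∈ Cz x := by
    have := (mem_Cz_conj g⁻¹).2 (mem_Cz_comm.1 hc)
    rwa [show g⁻¹ * (g * x * g⁻¹) * g⁻¹⁻¹ = x by group] at this
  obtain ⟨l, hl, h3⟩ := E.into h2 ⟨1, by rw [orderOf_conj', E.W_order hw h1, pow_one]⟩
  obtain ⟨k, hk⟩ : ∃ k, k = l * g⁻¹ := ⟨_, rfl⟩
  have h4 : k * w * k⁻¹ ∈ T := by rwa [hk, show l * g⁻¹ * w * (l * g⁻¹)⁻¹ = l * (g⁻¹ * w * g⁻¹⁻¹) * l⁻¹ by group]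
  have h5 : k * w * k⁻¹ ∉ Subgroup.zpowers x := fun h => by
    rcases eq_of_order_three J.xo h with e | e | e
    · exact h1 (by simpa using e)
    · exact J.W_not_cj E hw (Cj.of_conj (k := k) (by rw [e]; exact Cj.refl x))
    · exact J.W_not_cj E hw (Cj.of_conj (k := k) (by rw [e]; exact J.cjx_inv (Cj.refl x)))
  have hn : k * z * k⁻¹ * x * (k * z * k⁻¹)⁻¹ = x⁻¹ := by
    have lx : l⁻¹ * x * l = x := by simpa using mem_Cz'.1 ((Cz x).inv_mem hl)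
    calc _ = l * g⁻¹ * (z * (g * (l⁻¹ * x * l) * g⁻¹) * z⁻¹) * g * l⁻¹ := by rw [hk]; group
      _ = (l * x * l⁻¹)⁻¹ := by rw [lx, hzi, hz]; group
      _ = _ := by rw [mem_Cz'.1 hl]
  have hT := E.normT (Or.inr hn) h4 h5 (by
    rw [show k * z * k⁻¹ * (k * w * k⁻¹) * (k * z * k⁻¹)⁻¹ = k * (z * w * z⁻¹) * k⁻¹ by group, hzi, E.Wz hw,
      show k * w⁻¹ * k⁻¹ = (k * w * k⁻¹)⁻¹ by group]
    exact T.inv_mem h4)
  obtain ⟨t, ht, -, h4'⟩ := J.sigma_of E.toTD hn hT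
  have hI := Inv.conj J.zI k
  generalize k * z * k⁻¹ = n at *
  have h6 : t⁻¹ * n * (t⁻¹ * n) ∈ T := by
    have := T.mul_mem (T.inv_mem ht) (hT _ (T.inv_mem ht))
    rwa [Inv.inv hI, show t⁻¹ * (n * t⁻¹ * n) = t⁻¹ * n * (t⁻¹ * n) by group] at this
  have h7 : z ∈ T := by
    rw [← h4', show 4 = 2 * 2 by norm_num, pow_mul, pow_two (t⁻¹ * n)]; exact T.pow_mem h6 2
  exact not_mem_of_odd (by rw [E.cT]; decide) J.zI h7

theorem card_cj_D {w : G} (hw : w ∈ W) (h1 : w ≠ 1) :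
    ((fs (Cz w)).filter (Cj x)).card * 27 = 2 * Nat.card (Cz w) := by
  have hxD : x ∈ Cz w := mem_Cz_comm.1 (E.le (E.WT hw))
  have o1 := orbit_card (Cz w) x
  have o2 := orbit_card (Cz w) x⁻¹
  have e0 : Cz x⁻¹ = Cz x := le_antisymm (Cz_le_of_mem_zpowers (by simp))
    (Cz_le_of_mem_zpowers (by simp))
  rw [e0] at o2
  rw [J.cx_cw E hw h1, E.cT] at o1 o2
  have e : (fs (Cz w)).filter (Cj x) = cls (Cz w) {x} ∪ cls (Cz w) {x⁻¹} := by
    ext a; rw [mem_filter, mem_union, mem_cls1, mem_cls1, mem_fs]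
    constructor
    · rintro ⟨ha, g, rfl⟩
      have h2 : g⁻¹ * w * g⁻¹⁻¹ ∈ Cz x := by
        have := (mem_Cz_conj g⁻¹).2 (mem_Cz_comm.1 ha)
        rwa [show g⁻¹ * (g * x * g⁻¹) * g⁻¹⁻¹ = x by group] at this
      obtain ⟨l, hl, h3⟩ := E.into h2 ⟨1, by rw [orderOf_conj', E.W_order hw h1, pow_one]⟩
      have h4 : l * (g⁻¹ * w * g⁻¹⁻¹) * l⁻¹ ∈ W := by
        by_contra h
        exact J.W_not_cj E hw (J.cj_of_T E h3 h).of_conj.of_conj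
      obtain ⟨k, hk, e⟩ := E.trans _ h4 (((J.gd_W E hw h1).conj g⁻¹).conj l).1 w hw h1
      have h5 : (k * l * g⁻¹)⁻¹ ∈ Cz w := (Cz w).inv_mem (mem_Cz'.2 (by
        calc _ = k * (l * (g⁻¹ * w * g⁻¹⁻¹) * l⁻¹) * k⁻¹ := by group
          _ = w := e))
      have lx : l⁻¹ * x * l = x := by simpa using mem_Cz'.1 ((Cz x).inv_mem hl)
      obtain ⟨m, -, rfl⟩ := exists_pow_of_mem_zpowers hk
      rcases Nat.even_or_odd m with hm | hm
      · refine Or.inl ⟨_, h5, ?_⟩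
        have := mem_Cz'.1 ((Cz x).inv_mem ((pow_pm E.σx m).1 hm))
        calc _ = g * (l⁻¹ * ((σ ^ m)⁻¹ * x * (σ ^ m)⁻¹⁻¹) * l) * g⁻¹ := by group
          _ = _ := by rw [this, lx]
      · refine Or.inr ⟨_, h5, ?_⟩
        rw [← (pow_pm E.σx m).2 hm]
        calc _ = g * (l⁻¹ * x * l) * g⁻¹ := by group
          _ = _ := by rw [lx]
    · rintro (⟨h, hh, rfl⟩ | ⟨h, hh, rfl⟩)
      · exact ⟨(Cz w).mul_mem ((Cz w).mul_mem hh hxD) ((Cz w).inv_mem hh), (Cj.refl x).conj h⟩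
      · exact ⟨(Cz w).mul_mem ((Cz w).mul_mem hh ((Cz w).inv_mem hxD)) ((Cz w).inv_mem hh),
          (J.cjx_inv (Cj.refl x)).conj h⟩
  rw [e, card_union_of_disjoint]
  · omega
  · rw [disjoint_left]; intro a k1 k2
    obtain ⟨h, hh, rfl⟩ := mem_cls1.1 k1
    obtain ⟨h', hh', e⟩ := mem_cls1.1 k2
    have h3 : h'⁻¹ * h * x * (h'⁻¹ * h)⁻¹ = x⁻¹ := by
      calc _ = h'⁻¹ * (h * x * h⁻¹) * h' := by group
        _ = _ := by rw [← e]; group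
    have := (pow_pm h3 _).2 (odd_order_of_mem (J.gd_odd (J.gd_W E hw h1))
      ((Cz w).mul_mem ((Cz w).inv_mem hh') hh))
    rw [pow_orderOf_eq_one] at this
    exact J.x_ne_inv (by simpa using this)

omit J E in
theorem dich_arith {e k m i : ℕ} (he : 0 < e) (hm : m * k = 243 * e) (hm3 : m ≤ 81 * e)
    (hk2 : ¬ 2 ∣ k) (hk5 : ¬ 5 ∣ k) (hi : i ≤ 225 * e - 9) (h : 243 * e * (81 * e - 9) ≤ m * 3 * i) :
    k = 3 ∨ k = 7 ∨ (e = 1 ∧ m = 27 ∧ i = 216) := by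
  have hk0 : 0 < k := Nat.pos_of_ne_zero (by rintro rfl; omega)
  have hk1 : k ≠ 1 := by rintro rfl; omega
  by_cases hk9 : k < 9
  · interval_cases k <;> omega
  right; right
  obtain ⟨f, rfl⟩ : ∃ f, e = f + 1 := ⟨e - 1, by omega⟩
  have h1 : k * (81 * f + 72) ≤ 3 * i := by
    have hm0 : 0 < m := Nat.pos_of_ne_zero (by rintro rfl; omega)
    refine Nat.le_of_mul_le_mul_left ?_ hm0
    rw [show 81 * (f + 1) - 9 = 81 * f + 72 by omega, ← hm] at h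
    linarith
  have h2 : 9 * (81 * f + 72) ≤ k * (81 * f + 72) := Nat.mul_le_mul_right _ (by omega)
  have hf : f = 0 := by omega
  subst hf
  have : k = 9 := by omega
  subst this
  omega

theorem dich (h5 : H5 x) {w : G} (hw : w ∈ W) (h1 : w ≠ 1) : (∀ w' ∈ W, Cz w ≤ Cz w') ∧
    ((∀ g ∈ Cz w, g ∉ W → ¬ Cj x g → Nat.card ↥(Cz w ⊓ Cz g) ≤ 27 ∧
        ∃ k ∈ Cz w, z * (k * g * k⁻¹) * z = (k * g * k⁻¹)⁻¹) ∨
      ∃ B : Subgroup G, Nat.card B * 3 = Nat.card (Cz w) ∧ ∀ a, a ∈ B ↔ a ∈ Cz w ∧ z * a * z = a⁻¹) := by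
  haveI : Fact (Nat.Prime 3) := ⟨Nat.prime_three⟩
  obtain ⟨P, hP, hxP, hPW⟩ := J.ex_P E
  have hg := J.gd_W E hw h1
  have hzz := (mem_Inv.1 J.zI).1
  have hzi := Inv.inv J.zI
  set D := Cz w with hD
  have hDo : Odd (Nat.card D) := J.gd_odd hg
  have hD5 : ¬ 5 ∣ Nat.card D := gd_five h5 hg
  have hzD : ∀ d ∈ D, z * d * z ∈ D := fun d hd => norm_Cz_of_inverts hzz (E.Wz hw) hd
  have hDz : D ⊓ Cz z = Subgroup.zpowers x := J.cz_cw E h5 hw h1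
  have hDx : D ⊓ Cz x = T := J.cx_cw E hw h1
  have hWD : W ≤ D := fun a ha => mem_Cz.2 (E.comm a (E.WT ha) w (E.WT hw))
  have hxD : x ∈ D := mem_Cz_comm.1 (E.le (E.WT hw))
  set I := (fs D).filter fun d => z * d * z = d⁻¹ with hI
  have hIc : I.card * 3 = Nat.card D := by
    have := inverted_card hDo J.zI hzD
    rwa [hDz, Nat.card_zpowers, J.xo] at this
  obtain ⟨e, he⟩ : 243 ∣ Nat.card D := hP ▸ Subgroup.card_dvd_of_le (hPW w hw)
  have he0 : 0 < e := Nat.pos_of_ne_zero (by rintro rfl; have : 0 < Nat.card D := Nat.card_pos; omega)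
  have hWI : fs W ⊆ I := fun a ha => mem_filter.2 ⟨mem_fs.2 (hWD (mem_fs.1 ha)), E.Wz (mem_fs.1 ha)⟩
  have hI' : (I \ fs W).card = 81 * e - 9 := by rw [card_sdiff_of_subset hWI, card_fs, E.cW]; omega
  have hPna : ¬ ∀ a ∈ P, ∀ b ∈ P, a * b = b * a := fun h => by
    have := Subgroup.card_dvd_of_le (show P ≤ Cz x from fun a ha => mem_Cz.2 (h a ha x hxP))
    rw [hP, E.cL] at this; omega
  have hBinv : ∀ c ∈ I \ fs W, ∀ d ∈ D ⊓ Cz c, z * d * z = d⁻¹ := by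
    intro c hc
    obtain ⟨k1, k2⟩ := mem_sdiff.1 hc
    obtain ⟨k3, k4⟩ := mem_filter.1 k1
    refine fpf_inverts (Odd.of_dvd_nat hDo (Subgroup.card_dvd_of_le inf_le_left)) J.zI
      (fun d hd => ⟨hzD d hd.1, norm_Cz_of_inverts hzz k4 hd.2⟩) ?_
    rw [eq_bot_iff]; intro d hd
    by_contra hd1
    have h2 : x ∈ Cz c := (Subgroup.zpowers_le.2 hd.1.2)
      (mem_zpowers_of_prime Nat.prime_three J.xo (hDz.le ⟨hd.1.1, hd.2⟩) hd1)
    exact k2 (mem_fs.2 ((E.memW c).2 ⟨hDx.le ⟨mem_fs.1 k3, mem_Cz_comm.1 h2⟩, k4⟩))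
  obtain ⟨c0, hc0, hmax⟩ := exists_max_image (I \ fs W) (fun c => Nat.card ↥(D ⊓ Cz c))
    (card_pos.1 (by rw [hI']; omega))
  set m := Nat.card ↥(D ⊓ Cz c0) with hm
  set Im := (fs D ×ˢ (I \ fs W)).image fun p : G × G => p.1 * p.2 * p.1⁻¹ with hIm
  have hcount : (fs D ×ˢ (I \ fs W)).card ≤ m * 3 * Im.card := by
    refine card_le_mul_card_image _ _ fun y hy => ?_
    obtain ⟨⟨h0, c1⟩, hp, rfl⟩ := mem_image.1 hy
    obtain ⟨hh0, hc1⟩ := mem_product.1 hp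
    have hh0 : h0 ∈ D := mem_fs.1 hh0
    simp only at hc1 ⊢
    refine (card_le_mul_card_image (f := Prod.snd) _ m fun c hc => ?_).trans (Nat.mul_le_mul_left _ ?_)
    · obtain ⟨⟨h1', c'⟩, hq, rfl⟩ := mem_image.1 hc
      obtain ⟨hq1, hq2⟩ := mem_filter.1 hq
      obtain ⟨hq3, hq4⟩ := mem_product.1 hq1
      refine le_trans ?_ (hmax c' hq4)
      rw [← card_fs]
      refine card_le_card_of_injOn (fun p => h1'⁻¹ * p.1) ?_ ?_
      · rintro ⟨a, b⟩ hr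
        obtain ⟨hr1, hr2⟩ := mem_filter.1 hr
        obtain ⟨hr3, hr4⟩ := mem_filter.1 hr1
        simp only at hr2 hr4 hq2
        subst hr2
        refine mem_fs.2 ⟨D.mul_mem (D.inv_mem (mem_fs.1 hq3)) (mem_fs.1 (mem_product.1 hr3).1), mem_Cz'.2 ?_⟩
        calc h1'⁻¹ * a * b * (h1'⁻¹ * a)⁻¹ = h1'⁻¹ * (a * b * a⁻¹) * h1' := by group
          _ = b := by rw [hr4, ← hq2]; group
      · rintro ⟨a, b⟩ hr ⟨a', b'⟩ hr' e
        simp only [mul_right_inj] at e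
        have e1 := (mem_filter.1 hr).2
        have e2 := (mem_filter.1 hr').2
        simp only at e1 e2
        rw [e, e1, e2]
    · rw [← J.xo, ← Nat.card_zpowers, ← card_fs]
      refine (card_le_card (t := (fs (Subgroup.zpowers x)).image fun η => η⁻¹ * c1 * η) ?_).trans card_image_le
      intro c hc
      obtain ⟨⟨h, c'⟩, hq, rfl⟩ := mem_image.1 hc
      obtain ⟨hq1, hq2⟩ := mem_filter.1 hq
      obtain ⟨hq3, hq4⟩ := mem_product.1 hq1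
      simp only at hq2 hq3 hq4 ⊢
      obtain ⟨k, hk⟩ : ∃ k, k = h0⁻¹ * h := ⟨_, rfl⟩
      have hkD : k ∈ D := hk ▸ D.mul_mem (D.inv_mem hh0) (mem_fs.1 hq3)
      have e1 : k * c' * k⁻¹ = c1 := by
        calc _ = h0⁻¹ * (h * c' * h⁻¹) * h0 := by rw [hk]; group
          _ = c1 := by rw [hq2]; group
      have i1 := (mem_filter.1 (mem_sdiff.1 hc1).1).2
      have i2 := (mem_filter.1 (mem_sdiff.1 hq4).1).2
      have h3 : k * z * k⁻¹ * z ∈ D ⊓ Cz c1 := ⟨by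
        have := D.mul_mem hkD (hzD _ (D.inv_mem hkD))
        rwa [show k * (z * k⁻¹ * z) = k * z * k⁻¹ * z by group] at this, mem_Cz'.2 (by
        calc k * z * k⁻¹ * z * c1 * (k * z * k⁻¹ * z)⁻¹ = k * z * k⁻¹ * (z * c1 * z⁻¹) * k * z⁻¹ * k⁻¹ := by
              group
          _ = k * (z * c' * z⁻¹)⁻¹ * k⁻¹ := by rw [hzi, i1, ← e1]; group; simp [hzi]
          _ = c1 := by rw [hzi, i2, inv_inv, e1])⟩
      obtain ⟨j, hj⟩ := odd_conj (mem_Inv.1 (Inv.conj J.zI k)).1 hzz (odd_order_of_mem hDo h3.1)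
      obtain ⟨b, hb, hbj⟩ : ∃ b ∈ D ⊓ Cz c1, b * z * b⁻¹ = k * z * k⁻¹ := ⟨_, Subgroup.pow_mem _ h3 j, hj⟩
      refine mem_image.2 ⟨b⁻¹ * k, mem_fs.2 (hDz.le ⟨D.mul_mem (D.inv_mem hb.1) hkD, mem_Cz'.2 ?_⟩), ?_⟩
      · calc _ = b⁻¹ * (k * z * k⁻¹) * b := by group
          _ = z := by rw [← hbj]; group
      · calc _ = k⁻¹ * (b * c1 * b⁻¹) * k := by group
          _ = c' := by rw [mem_Cz'.1 hb.2, ← e1]; group
  set Tg := fs D \ (fs W ∪ (fs D).filter (Cj x)) with hTg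
  have hImT : Im ⊆ Tg := by
    intro y hy
    obtain ⟨⟨h, c⟩, hp, rfl⟩ := mem_image.1 hy
    obtain ⟨hh, hc⟩ := mem_product.1 hp
    have hh : h ∈ D := mem_fs.1 hh
    obtain ⟨k3, k4⟩ := mem_filter.1 (mem_sdiff.1 hc).1
    simp only at hc k3 k4 ⊢
    refine mem_sdiff.2 ⟨mem_fs.2 (D.mul_mem (D.mul_mem hh (mem_fs.1 k3)) (D.inv_mem hh)), fun h2 => ?_⟩
    rcases mem_union.1 h2 with h2 | h2
    · refine hPna fun a ha b hb => ?_
      have tr : ∀ a ∈ P, h⁻¹ * a * h⁻¹⁻¹ ∈ D ⊓ Cz c := fun a ha =>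
        ⟨D.mul_mem (D.mul_mem (D.inv_mem hh) (hPW w hw ha)) (D.inv_mem (D.inv_mem hh)), by
          have := (mem_Cz_conj h⁻¹).2 (hPW _ (mem_fs.1 h2) ha)
          rwa [show h⁻¹ * (h * c * h⁻¹) * h⁻¹⁻¹ = c by group] at this⟩
      have := comm_of_inverts hzz (hBinv c hc) (tr a ha) (tr b hb)
      calc a * b = h * (h⁻¹ * a * h⁻¹⁻¹ * (h⁻¹ * b * h⁻¹⁻¹)) * h⁻¹ := by group
        _ = _ := by rw [this]; group
    · exact J.inv_not_cj E hw h1 (mem_fs.1 k3) k4 (mem_filter.1 h2).2.of_conj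
  have hTgc : Tg.card = 225 * e - 9 := by
    have h2 := J.card_cj_D E hw h1
    rw [← hD, he] at h2
    rw [hTg, card_sdiff_of_subset (union_subset (fun a ha => mem_fs.2 (hWD (mem_fs.1 ha))) (filter_subset _ _)),
      card_union_of_disjoint (disjoint_left.2 fun a k1 k2 => J.W_not_cj E (mem_fs.1 k1) (mem_filter.1 k2).2),
      card_fs, card_fs, E.cW, he]
    omega
  obtain ⟨k, hk⟩ : m ∣ Nat.card D := Subgroup.card_dvd_of_le inf_le_left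
  have hBI : fs (D ⊓ Cz c0) ⊆ I := fun a ha =>
    mem_filter.2 ⟨mem_fs.2 (mem_fs.1 ha).1, hBinv c0 hc0 a (mem_fs.1 ha)⟩
  have hm3 := card_le_card hBI
  rw [card_fs, ← hm] at hm3
  rw [card_product, card_fs, hI', he] at hcount
  rcases dich_arith he0 (by rw [← he, hk]) (by omega)
    (fun h => (Nat.not_even_iff_odd.2 hDo) (even_iff_two_dvd.2 (hk ▸ h.mul_left m)))
    (fun h => hD5 (hk ▸ h.mul_left m)) (hTgc ▸ card_le_card hImT) hcount with h | h | ⟨r1, r2, r3⟩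
  · subst h
    have hBI' : fs (D ⊓ Cz c0) = I := eq_of_subset_of_card_le hBI (by rw [card_fs, ← hm]; omega)
    have memB : ∀ a, a ∈ D ⊓ Cz c0 ↔ a ∈ D ∧ z * a * z = a⁻¹ := fun a => by
      rw [← mem_fs, hBI', hI, mem_filter, mem_fs]
    refine ⟨fun w' hw' => ?_, Or.inr ⟨D ⊓ Cz c0, hk.symm, memB⟩⟩
    have hxB : x ∉ D ⊓ Cz c0 := fun h => by
      have := ((memB x).1 h).2
      rw [← mem_Cz.1 J.xz, mul_assoc, hzz, mul_one] at this
      exact J.x_ne_inv this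
    have : D ⊓ Cz w' = D := eq_of_index_three (B := D ⊓ Cz c0) (lt_of_le_of_ne (fun a ha => ⟨ha.1,
      mem_Cz.2 (comm_of_inverts hzz (hBinv c0 hc0) ha ((memB w').2 ⟨hWD hw', E.Wz hw'⟩))⟩)
      fun e => hxB (e ▸ ⟨hxD, mem_Cz_comm.1 (E.le (E.WT hw'))⟩)) inf_le_left hk.symm
    rw [← this]; exact inf_le_right
  · exfalso
    subst h
    obtain ⟨g, -, hg⟩ := psub_conj_into (p := 3) (B := D ⊓ Cz c0) inf_le_left (hPW w hw)
      (IsPGroup.of_card (n := 5) hP) hk.symm (by norm_num)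
    refine hPna fun a ha b hb => ?_
    have := comm_of_inverts hzz (hBinv c0 hc0) (hg a ha) (hg b hb)
    calc a * b = g⁻¹ * (g * a * g⁻¹ * (g * b * g⁻¹)) * g := by group
      _ = _ := by rw [this]; group
  · have hPD : P = D := Subgroup.eq_of_le_of_card_ge (hPW w hw) (by rw [he, hP, r1])
    refine ⟨fun w' hw' => hPD ▸ hPW w' hw', Or.inl fun g hgD hgW hgx => ?_⟩
    have hIT : Im = Tg := eq_of_subset_of_card_le hImT (by rw [hTgc, r3, r1])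
    obtain ⟨⟨h, c⟩, hp, rfl⟩ := mem_image.1 (hIT.ge (mem_sdiff.2 ⟨mem_fs.2 hgD, fun h => by
      rcases mem_union.1 h with h | h
      · exact hgW (mem_fs.1 h)
      · exact hgx (mem_filter.1 h).2⟩))
    obtain ⟨hh, hc⟩ := mem_product.1 hp
    have hh : h ∈ D := mem_fs.1 hh
    simp only at hc ⊢
    refine ⟨?_, h⁻¹, D.inv_mem hh, ?_⟩
    · rw [← r2]
      refine le_trans (le_of_eq (sub_card_conj h fun a => ?_).symm) (hmax c hc)
      rw [Subgroup.mem_inf, Subgroup.mem_inf, mem_Cz_conj]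
      refine and_congr_left fun _ => ⟨fun ha => D.mul_mem (D.mul_mem hh ha) (D.inv_mem hh), fun ha => ?_⟩
      simpa [mul_assoc] using D.mul_mem (D.mul_mem (D.inv_mem hh) ha) hh
    · rw [show h⁻¹ * (h * c * h⁻¹) * h⁻¹⁻¹ = c by group]
      exact (mem_filter.1 (mem_sdiff.1 hc).1).2

end J3
end
end Cfsg.Agent.J3T
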