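import Cfsg.Agent.Lib.J3T.Fin

/-! The order of the group and the Sylow 17- and 19-subgroups. -/

set_option autoImplicit false
set_option linter.unusedSectionVars false
open Finset Classical

namespace Cfsg.Agent.J3T
noncomputable section
variable {G : Type*} [Group G] [Fintype G]

theorem cyc_quot {X : Subgroup G} {p : ℕ} (hp : p.Prime) (hX : Nat.card X = p)
    (hC : Subgroup.centralizer (X : Set G) = X) :
    ∃ _ : (X.subgroupOf (Subgroup.normalizer (X : Set G))).Normal,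
      IsCyclic (↥(Subgroup.normalizer (X : Set G)) ⧸ X.subgroupOf _) ∧
      Nat.card (↥(Subgroup.normalizer (X : Set G)) ⧸ X.subgroupOf _) ∣ p - 1 ∧
      Nat.card (↥(Subgroup.normalizer (X : Set G)) ⧸ X.subgroupOf _) * p =
        Nat.card (Subgroup.normalizer (X : Set G)) := by
  haveI : Fact p.Prime := ⟨hp⟩
  haveI : IsCyclic X := isCyclic_of_prime_card hX
  have hk : X.normalizerMonoidHom.ker = X.subgroupOf (Subgroup.normalizer (X : Set G)) := by
    rw [Subgroup.normalizerMonoidHom_ker, hC]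
  haveI hn : (X.subgroupOf (Subgroup.normalizer (X : Set G))).Normal := hk ▸ inferInstance
  have e := (QuotientGroup.quotientMulEquivOfEq hk.symm).trans (QuotientGroup.quotientKerEquivRange _)
  haveI : IsCyclic (ZMod (Nat.card X))ˣ := ZMod.isCyclic_units_prime (hX ▸ hp)
  haveI : IsCyclic (MulAut X) := (IsCyclic.mulAutMulEquiv X).isCyclic.2 inferInstance
  refine ⟨hn, e.isCyclic.2 inferInstance, ?_, ?_⟩
  · rw [Nat.card_congr e.toEquiv, ← Nat.totient_prime hp, ← hX, ← IsCyclic.card_mulAut]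
    exact Subgroup.card_subgroup_dvd_card _
  · rw [Subgroup.card_eq_card_quotient_mul_card_subgroup (X.subgroupOf (Subgroup.normalizer (X : Set G))),
      card_subgroupOf Subgroup.le_normalizer, hX]

namespace PD
variable {P : Finset G} {b n : ℕ} (D : PD P b n)
include D

theorem ord {g : G} (hg : g ∈ P) : Nat.Coprime (1920 * b) (orderOf g) :=
  (D.cop g hg).coprime_dvd_right (Subgroup.orderOf_dvd_natCard _ (self_mem_Cz g))

theorem conj {g : G} (hg : g ∈ P) (h : G) : h * g * h⁻¹ ∈ P :=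
  D.mem _ (fun e => D.ne g hg (by simpa using e)) (by rw [orderOf_conj']; exact D.ord hg)

theorem cent {g c : G} (hg : g ∈ P) (hc : c ∈ Cz g) (h1 : c ≠ 1) : c ∈ P :=
  D.mem _ h1 ((D.cop g hg).coprime_dvd_right (Subgroup.orderOf_dvd_natCard _ hc))

theorem dvdP : 1920 * b ∣ P.card :=
  dvd_card_of_orbits ⊤ P _ (fun _ hs h _ => D.conj hs h) fun s hs =>
    dvd_class_card ⟨n, D.cG⟩ (D.cop s hs)

theorem dvdn {g : G} (hg : g ∈ P) : Nat.card (Cz g) ∣ n :=
  (D.cop g hg).symm.dvd_of_dvd_mul_left (D.cG ▸ Subgroup.card_subgroup_dvd_card _)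

theorem npos : 0 < n := by
  have := D.cP
  rcases n with _ | n
  · simp at this
  · omega

theorem odd {g : G} (hg : g ∈ P) : Odd (Nat.card (Cz g)) :=
  Nat.coprime_two_left.1 ((D.cop g hg).coprime_dvd_left ((by norm_num : 2 ∣ 1920).mul_right b))

theorem bot {g s : G} (hg : g ∈ P) (hs : s ∈ Inv G) : Cz g ⊓ Cz s = ⊥ := by
  rw [← Subgroup.card_eq_one]
  exact Nat.eq_one_of_dvd_coprimes (D.cop g hg)
    ((D.cH s hs ▸ Subgroup.card_dvd_of_le inf_le_right).mul_right b) (Subgroup.card_dvd_of_le inf_le_left)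

theorem ninv_of {g s : G} (hg : g ∈ P) (hs : s ∈ Inv G) (h : s * g * s = g⁻¹) : ninv g = Nat.card (Cz g) := by
  have := ninv_mul (D.odd hg) hs h
  rwa [D.bot hg hs, Subgroup.card_bot, mul_one] at this

theorem ninv_le {g : G} (hg : g ∈ P) : ninv g ≤ n := by
  by_cases h : ninv g = 0
  · omega
  · obtain ⟨s, hs, e⟩ := ninv_pos h
    rw [D.ninv_of hg hs e]; exact Nat.le_of_dvd D.npos (D.dvdn hg)

theorem one_lt {g : G} (hg : g ∈ P) : Nat.card (Cz g) ≠ 1 := fun h => by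
  rw [Subgroup.card_eq_one] at h
  exact D.ne g hg (h.le (self_mem_Cz g))

theorem into {A : Subgroup G} (hA : ∀ c ∈ A, c ≠ 1 → Cz c = A) {g : G} (hg : g ∈ P)
    (h : Nat.card (Cz g) ∣ Nat.card A) : ∃ k : G, k * g * k⁻¹ ∈ A :=
  conj_into_of_not_coprime hA fun e => D.one_lt hg (Nat.eq_one_of_dvd_coprimes e h dvd_rfl)

theorem b_eq : b = 81 := by
  obtain ⟨e, rfl⟩ := D.b81
  have h1 := D.b8
  by_contra hne
  have he : 9 ≤ e := by omega
  obtain ⟨k, hk⟩ := D.dvdP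
  have h2 := D.cP
  have h3 := D.sP
  have h4 : ∑ y ∈ P, ninv y ≤ P.card * n := by
    rw [← smul_eq_mul]; exact sum_le_card_nsmul _ _ _ fun g hg => D.ninv_le hg
  have hn : 323 ≤ n := by
    obtain ⟨f, rfl⟩ : ∃ f, e = 8 * f + 1 := ⟨e / 8, by omega⟩
    rw [hk, show 1920 * (81 * (8 * f + 1)) * k = 648 * (240 * (8 * f + 1) * k) by ring,
      show (427 * (81 * (8 * f + 1)) + 80) * n = 648 * (427 * f * n) + 34667 * n by ring] at h2
    omega
  have h5 : 81 * e * n * (81 * e) ≤ 81 * e * (15843 + 80 * (81 * e)) + (427 * (81 * e) + 80) * n := by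
    refine Nat.le_of_mul_le_mul_right ?_ D.npos
    rw [← h2]; nlinarith
  obtain ⟨c, rfl⟩ := Nat.exists_eq_add_of_le he
  obtain ⟨m, rfl⟩ := Nat.exists_eq_add_of_le hn
  nlinarith [Nat.zero_le (c * m), Nat.zero_le (c * c * m), Nat.zero_le (c * c)]

theorem n_eq : n = 323 := by
  obtain rfl := D.b_eq
  obtain ⟨k, hk⟩ := D.dvdP
  have h2 := D.cP
  have h3 := D.sP
  have h4 : ((155520 : ℕ) : ℤ) ∣ (n : ℤ) - 323 := by
    refine IsCoprime.dvd_of_dvd_mul_left (y := ((34667 : ℕ) : ℤ)) (Nat.isCoprime_iff_coprime.2 (by norm_num))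
      ⟨k - 72, ?_⟩
    rw [hk] at h2
    zify at h2 ⊢
    linarith
  by_contra hne
  have hn : 155843 ≤ n := by omega
  obtain ⟨g, hg, h7⟩ : ∃ g ∈ P, n < ninv g * 7 := by
    by_contra h
    push Not at h
    have h5 : (∑ y ∈ P, ninv y) * 7 ≤ P.card * n := by
      rw [sum_mul, ← smul_eq_mul]; exact sum_le_card_nsmul _ _ _ h
    have h6 : 45927 * n ≤ 12657141 + P.card := by
      refine Nat.le_of_mul_le_mul_right ?_ D.npos
      nlinarith
    omega
  obtain ⟨s, hs, e⟩ := ninv_pos (y := g) (by omega)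
  rw [D.ninv_of hg hs e] at h7
  obtain ⟨j, hj⟩ := D.dvdn hg
  have hj7 : j < 7 := by
    rw [hj] at h7; exact Nat.lt_of_mul_lt_mul_left h7
  have hj1 : Nat.card (Cz g) = n := by
    interval_cases j <;> omega
  obtain ⟨r1, r2⟩ := real_cent hs e (fun c hc h1 => ⟨D.odd (D.cent hg hc h1), D.bot (D.cent hg hc h1) hs⟩) (D.ne g hg)
  have h5 : ∑ y ∈ P, ninv y = P.card * n := by
    rw [← smul_eq_mul, ← sum_const]
    refine sum_congr rfl fun y hy => ?_
    obtain ⟨l, hl⟩ := D.into r2 hy (hj1 ▸ D.dvdn hy)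
    rw [← ninv_conj l, D.ninv_of (D.conj hy l) hs (r1 _ hl), r2 _ hl (D.ne _ (D.conj hy l)), hj1]
  have h6 : 6561 * n = 1808163 + P.card := by
    refine Nat.eq_of_mul_eq_mul_right D.npos ?_
    nlinarith
  omega

theorem cG' : Nat.card G = 50232960 := by rw [D.cG, D.b_eq, D.n_eq]

theorem cP' : P.card = 11197440 := by
  have := D.cP
  rw [D.b_eq, D.n_eq] at this; omega

theorem cls_eq {A : Subgroup G} (hA : ∀ c ∈ A, c ≠ 1 → Cz c = A ∧ c ∈ P) {y : G} :
    y ∈ cls ⊤ ((fs A).erase 1) ↔ y ∈ P ∧ Nat.card (Cz y) = Nat.card A := by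
  constructor
  · intro hy
    obtain ⟨g, hg, h, -, rfl⟩ := mem_cls.1 hy
    obtain ⟨h1, h2⟩ := hA g (mem_fs.1 (mem_erase.1 hg).2) (mem_erase.1 hg).1
    exact ⟨D.conj h2 h, by rw [card_Cz_conj, h1]⟩
  · rintro ⟨h1, h2⟩
    obtain ⟨l, hl⟩ := D.into (fun c hc e => (hA c hc e).1) h1 h2.dvd
    exact mem_cls.2 ⟨_, mem_erase.2 ⟨D.ne _ (D.conj h1 l), mem_fs.2 hl⟩, l⁻¹, trivial, by group⟩

theorem cls_card {A : Subgroup G} (hA : ∀ c ∈ A, c ≠ 1 → Cz c = A ∧ c ∈ P) :
    (P.filter fun y => Nat.card (Cz y) = Nat.card A).card * Nat.card (Subgroup.normalizer (A : Set G)) =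
      50232960 * (Nat.card A - 1) := by
  have := ti_card ⊤ _ le_top _ (ti_of_selfcent fun c hc e => (hA c hc e).1)
  rw [Subgroup.card_top, D.cG', card_erase_of_mem (mem_fs.2 A.one_mem), card_fs] at this
  rw [← this]; congr 2; ext y; rw [mem_filter, D.cls_eq hA]

theorem cent_cases {g : G} (hg : g ∈ P) : Nat.card (Cz g) = 17 ∨ Nat.card (Cz g) = 19 := by
  have dv : ∀ m, m ∣ 323 → m = 1 ∨ m = 17 ∨ m = 19 ∨ m = 323 := fun m hm => by
    have : m ∈ Nat.divisors 323 := Nat.mem_divisors.2 ⟨hm, by norm_num⟩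
    have e : Nat.divisors 323 = {1, 17, 19, 323} := by decide +kernel
    simpa [e] using this
  have hn := D.n_eq
  rcases dv _ (hn ▸ D.dvdn hg) with h | h | h | h
  · exact absurd h (D.one_lt hg)
  · exact Or.inl h
  · exact Or.inr h
  exfalso
  obtain ⟨c, hc, ho⟩ : ∃ c ∈ Cz g, orderOf c = 323 := by
    obtain ⟨y, hy, hyo⟩ := exists_order_of_dvd (D := Cz g) (p := 17) (by norm_num) (by rw [h]; norm_num)
    obtain ⟨x, hx, hxo⟩ := exists_order_of_dvd (D := Cz g) (p := 19) (by norm_num) (by rw [h]; norm_num)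
    rcases dv _ (h ▸ Subgroup.orderOf_dvd_natCard _ (self_mem_Cz g)) with e | e | e | e
    · exact absurd (orderOf_eq_one_iff.1 e) (D.ne g hg)
    · refine ⟨x * g, Subgroup.mul_mem _ hx (self_mem_Cz g), ?_⟩
      rw [Commute.orderOf_mul_eq_mul_orderOf_of_coprime (mem_Cz.1 hx) (by rw [hxo, e]; norm_num), hxo, e]
    · refine ⟨y * g, Subgroup.mul_mem _ hy (self_mem_Cz g), ?_⟩
      rw [Commute.orderOf_mul_eq_mul_orderOf_of_coprime (mem_Cz.1 hy) (by rw [hyo, e]; norm_num), hyo, e]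
    · exact ⟨g, self_mem_Cz g, e⟩
  have hcP := D.cent hg hc (fun e => by simp [e] at ho)
  have hA : ∀ a ∈ Subgroup.zpowers c, a ≠ 1 → Cz a = Subgroup.zpowers c ∧ a ∈ P := fun a ha h1 => by
    have h2 := D.cent hcP (zpowers_le_Cz c ha) h1
    refine ⟨(Subgroup.eq_of_le_of_card_ge ((zpowers_le_Cz c).trans (Cz_le_of_mem_zpowers ha)) ?_).symm, h2⟩
    rw [Nat.card_zpowers, ho, ← hn]; exact Nat.le_of_dvd D.npos (D.dvdn h2)
  have h2 := D.cls_card hA
  rw [filter_true_of_mem (fun y hy => by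
    obtain ⟨l, hl⟩ := D.into (fun a ha e => (hA a ha e).1) hy (by rw [Nat.card_zpowers, ho, ← hn]; exact D.dvdn hy)
    rw [← card_Cz_conj l, (hA _ hl (D.ne _ (D.conj hy l))).1]), D.cP', Nat.card_zpowers, ho] at h2
  omega

theorem syl {p : ℕ} (hp : p = 17 ∨ p = 19) {X : Subgroup G} (hX : Nat.card X = p) :
    (∀ c ∈ X, c ≠ 1 → Cz c = X ∧ c ∈ P) ∧ Subgroup.centralizer (X : Set G) = X := by
  have hpp : p.Prime := by rcases hp with rfl | rfl <;> norm_num
  haveI : Fact p.Prime := ⟨hpp⟩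
  haveI : IsCyclic X := isCyclic_of_prime_card hX
  have hc : ∀ a ∈ X, ∀ b ∈ X, a * b = b * a := fun a ha b hb =>
    congrArg Subtype.val (IsCyclic.isMulCommutative.is_comm.comm (⟨a, ha⟩ : X) ⟨b, hb⟩)
  have h1 : ∀ c ∈ X, c ≠ 1 → Cz c = X ∧ c ∈ P := fun c hcX h1 => by
    have ho : orderOf c = p := ((Nat.dvd_prime hpp).1 (hX ▸ Subgroup.orderOf_dvd_natCard _ hcX)).resolve_left
      fun e => h1 (orderOf_eq_one_iff.1 e)
    have hP : c ∈ P := D.mem c h1 (by rw [ho, D.b_eq]; rcases hp with rfl | rfl <;> norm_num)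
    have hle : X ≤ Cz c := fun a ha => mem_Cz.2 (hc a ha c hcX)
    refine ⟨(Subgroup.eq_of_le_of_card_ge hle ?_).symm, hP⟩
    have h2 := Subgroup.card_dvd_of_le hle
    rw [hX] at h2 ⊢
    rcases D.cent_cases hP with h3 | h3 <;> rw [h3] at h2 ⊢ <;> rcases hp with rfl | rfl <;> omega
  refine ⟨h1, le_antisymm (fun g hg => ?_) fun a ha b hb => hc b hb a ha⟩
  obtain ⟨c, hcX, ho⟩ := exists_order_of_dvd hpp hX.symm.dvd
  rw [← (h1 c hcX fun e => hpp.one_lt.ne (by rw [← ho, e, orderOf_one])).1]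
  exact mem_Cz.2 (hg c hcX).symm

theorem final {X Y : Subgroup G} (hX : Nat.card X = 19) (hY : Nat.card Y = 17) :
    (Subgroup.centralizer (X : Set G) = X ∧ ∃ _ : (X.subgroupOf (Subgroup.normalizer (X : Set G))).Normal,
      IsCyclic (↥(Subgroup.normalizer (X : Set G)) ⧸ X.subgroupOf _) ∧
      Nat.card (↥(Subgroup.normalizer (X : Set G)) ⧸ X.subgroupOf _) = 9) ∧
    (Subgroup.centralizer (Y : Set G) = Y ∧ ∃ _ : (Y.subgroupOf (Subgroup.normalizer (Y : Set G))).Normal,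
      IsCyclic (↥(Subgroup.normalizer (Y : Set G)) ⧸ Y.subgroupOf _) ∧
      Nat.card (↥(Subgroup.normalizer (Y : Set G)) ⧸ Y.subgroupOf _) = 8) := by
  obtain ⟨x1, x2⟩ := D.syl (Or.inr rfl) hX
  obtain ⟨y1, y2⟩ := D.syl (Or.inl rfl) hY
  obtain ⟨x3, x4, x5, x6⟩ := cyc_quot (by norm_num) hX x2
  obtain ⟨y3, y4, y5, y6⟩ := cyc_quot (by norm_num) hY y2
  have x7 := D.cls_card x1
  have y7 := D.cls_card y1
  have h := card_filter_add_card_filter_not (s := P) (fun y => Nat.card (Cz y) = 19)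
  rw [filter_congr (p := fun y => ¬ Nat.card (Cz y) = 19) (q := fun y => Nat.card (Cz y) = 17)
    (fun y hy => by have := D.cent_cases hy; omega), D.cP'] at h
  rw [← x6, hX] at x7
  rw [← y6, hY] at y7
  have x8 := Nat.le_of_dvd (by norm_num) x5
  have y8 := Nat.le_of_dvd (by norm_num) y5
  suffices e : Nat.card (↥(Subgroup.normalizer (X : Set G)) ⧸ X.subgroupOf _) = 9 ∧
      Nat.card (↥(Subgroup.normalizer (Y : Set G)) ⧸ Y.subgroupOf _) = 8 from
    ⟨⟨x2, x3, x4, e.1⟩, y2, y3, y4, e.2⟩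
  generalize Nat.card (↥(Subgroup.normalizer (X : Set G)) ⧸ X.subgroupOf _) = e at x5 x7 x8
  generalize Nat.card (↥(Subgroup.normalizer (Y : Set G)) ⧸ Y.subgroupOf _) = f at y5 y7 y8
  have a1 : e = 1 ∨ e = 2 ∨ e = 3 ∨ e = 6 ∨ e = 9 ∨ e = 18 := by
    clear x7 y7 h; interval_cases e <;> omega
  have a2 : f = 1 ∨ f = 2 ∨ f = 4 ∨ f = 8 ∨ f = 16 := by
    clear x7 y7 h; interval_cases f <;> omega
  rcases a1 with rfl | rfl | rfl | rfl | rfl | rfl <;> rcases a2 with rfl | rfl | rfl | rfl | rfl <;> omega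

theorem card_syl {p : ℕ} [Fact p.Prime] (hp : p = 17 ∨ p = 19) (X : Sylow p G) : Nat.card (X : Subgroup G) = p := by
  rw [Sylow.card_eq_multiplicity, D.cG']
  rcases hp with rfl | rfl
  · rw [show 50232960 = 17 ^ 1 * 2954880 by norm_num, Nat.factorization_mul (by norm_num) (by norm_num),
      Nat.Prime.factorization_pow (by norm_num), Finsupp.add_apply, Finsupp.single_eq_same,
      Nat.factorization_eq_zero_of_not_dvd (by norm_num)]; norm_num
  · rw [show 50232960 = 19 ^ 1 * 2643840 by norm_num, Nat.factorization_mul (by norm_num) (by norm_num),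
      Nat.Prime.factorization_pow (by norm_num), Finsupp.add_apply, Finsupp.single_eq_same,
      Nat.factorization_eq_zero_of_not_dvd (by norm_num)]; norm_num

end PD
end
end Cfsg.Agent.J3T
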