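import Cfsg.Agent.Lib.J3T.Iso

/-! From an extraspecial group of order 32 with `A5` acting to the relations of the model. -/

set_option autoImplicit false
set_option linter.unusedSectionVars false
open Finset Classical

namespace Cfsg.Agent.J3T
noncomputable section
variable {Y : Type*} [Group Y] [Fintype Y]

theorem a5_ord : ∀ π : Equiv.Perm (Fin 5), Equiv.Perm.sign π = 1 → π ^ 2 = 1 ∨ π ^ 3 = 1 ∨ π ^ 5 = 1 := by
  decide +kernel

theorem mem_zpowers_of_prime {u h : Y} {p : ℕ} (hp : p.Prime) (hu : orderOf u = p)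
    (hh : h ∈ Subgroup.zpowers u) (h1 : h ≠ 1) : u ∈ Subgroup.zpowers h := by
  obtain ⟨k, _, rfl⟩ := exists_pow_of_mem_zpowers hh
  rw [mem_zpowers_pow_iff, hu, Nat.gcd_comm]
  refine (Nat.Prime.coprime_iff_not_dvd hp).2 fun hd => h1 ?_
  rw [← hu] at hd; exact orderOf_dvd_iff_pow_eq_one.1 hd

theorem conj_pow_mem {u : Y} {S : Finset Y} (hS : ∀ s ∈ S, u * s * u⁻¹ ∈ S) {h : Y}
    (hh : h ∈ Subgroup.zpowers u) : ∀ s ∈ S, h * s * h⁻¹ ∈ S := by
  obtain ⟨k, hk, rfl⟩ := exists_pow_of_mem_zpowers hh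
  clear hk hh
  induction k with
  | zero => simp
  | succ k ih =>
    intro s hs
    have := ih _ (hS s hs)
    rwa [show u ^ k * (u * s * u⁻¹) * (u ^ k)⁻¹ = u ^ (k + 1) * s * (u ^ (k + 1))⁻¹ by group] at this

theorem free_zpowers (u w : Y) (S : Finset Y) (hS : ∀ s ∈ S, u * s * u⁻¹ ∈ S)
    (hw : ∀ h ∈ Subgroup.zpowers u, h ≠ 1 → w ∈ Subgroup.zpowers h)
    (hf : ∀ s ∈ S, w * s ≠ s * w) : orderOf u ∣ S.card := by
  rw [← Nat.card_zpowers]
  refine free_dvd _ S (fun s hs h hh => conj_pow_mem hS hh s hs) fun s hs h hh e => ?_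
  by_contra h1
  have : h ∈ Cz s := mem_Cz.2 e
  exact hf s hs (mem_Cz.1 ((Subgroup.zpowers_le.2 this) (hw h hh h1)))

theorem free_prime {u : Y} {p : ℕ} (hp : p.Prime) (hu : orderOf u = p) (S : Finset Y)
    (hS : ∀ s ∈ S, u * s * u⁻¹ ∈ S) (hf : ∀ s ∈ S, u * s ≠ s * u) : p ∣ S.card :=
  hu ▸ free_zpowers u u S hS (fun _ hh h1 => mem_zpowers_of_prime hp hu hh h1) hf

/-- the number of fixed points of an element of prime order on an invariant subgroup -/
theorem fix_mod {u : Y} {p : ℕ} (hp : p.Prime) (hu : orderOf u = p) (E : Subgroup Y)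
    (hE : ∀ x ∈ E, u * x * u⁻¹ ∈ E) : ∃ k, Nat.card E = Nat.card ↥(E ⊓ Cz u) + p * k := by
  have hle : fs (E ⊓ Cz u) ⊆ fs E := fun g hg => mem_fs.2 (mem_fs.1 hg).1
  obtain ⟨k, hk⟩ := free_prime hp hu (fs E \ fs (E ⊓ Cz u)) (by
    intro s hs
    obtain ⟨h1, h2⟩ := mem_sdiff.1 hs
    refine mem_sdiff.2 ⟨mem_fs.2 (hE _ (mem_fs.1 h1)), fun h3 => h2 (mem_fs.2 ⟨mem_fs.1 h1, ?_⟩)⟩
    have h5 : u * s * u⁻¹ ∈ Cz u := (mem_fs.1 h3).2
    have h4 : u * u * u⁻¹ = u := by group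
    rw [← h4] at h5
    have := (mem_Cz_conj (y := u) (a := s) u).1 (by simpa using h5)
    exact this) (by
    intro s hs e
    obtain ⟨h1, h2⟩ := mem_sdiff.1 hs
    exact h2 (mem_fs.2 ⟨mem_fs.1 h1, mem_Cz.2 e.symm⟩))
  have := card_sdiff_add_card_eq_card hle
  rw [card_fs, card_fs] at this
  exact ⟨k, by omega⟩

theorem eq_of_card_two {S : Subgroup Y} (h : Nat.card S = 2) {z x : Y} (hz : z ∈ S) (hz1 : z ≠ 1)
    (hx : x ∈ S) : x = 1 ∨ x = z := by
  have : ({1, z} : Finset Y) = fs S := eq_of_subset_of_card_le (by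
    intro g hg
    rcases mem_insert.1 hg with rfl | hg
    · exact mem_fs.2 S.one_mem
    · rw [mem_singleton.1 hg]; exact mem_fs.2 hz) (by rw [card_fs, h, card_pair hz1.symm])
  have h2 := mem_fs.2 hx
  rw [← this] at h2
  simpa using h2

structure Pre (z : Y) (E A : Subgroup Y) : Prop where
  zz : z * z = 1
  z1 : z ≠ 1
  zc : ∀ g, g * z = z * g
  zE : z ∈ E
  nE : ∀ g, ∀ x ∈ E, g * x * g⁻¹ ∈ E
  comm : ∀ a ∈ E, ∀ b ∈ E, a * b = b * a ∨ a * b = z * (b * a)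
  cen : ∀ c ∈ E, (∀ a ∈ E, c * a = a * c) → c = 1 ∨ c = z
  simp : ∀ N : Subgroup Y, N ≤ A → (∀ a ∈ A, ∀ n ∈ N, a * n * a⁻¹ ∈ N) → N = ⊥ ∨ N = A
  ord : ∀ a ∈ A, a ^ 2 = 1 ∨ a ^ 3 = 1 ∨ a ^ 5 = 1
  cE : Nat.card E = 32
  cA : Nat.card A = 60
  cY : Nat.card Y = 1920
  sur : ∀ g, ∃ x ∈ E, ∃ a ∈ A, x * a = g
  dis : ∀ g ∈ E, g ∈ A → g = 1

theorem no6 {A : Subgroup Y} (ord : ∀ a ∈ A, a ^ 2 = 1 ∨ a ^ 3 = 1 ∨ a ^ 5 = 1) {B : Subgroup Y}
    (hB : B ≤ A) (h6 : 6 ∣ Nat.card B) (hc : ∀ a ∈ B, ∀ b ∈ B, a * b = b * a) : False := by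
  obtain ⟨a, ha, hao⟩ := exists_order_of_dvd Nat.prime_two (Dvd.dvd.trans (by norm_num) h6)
  obtain ⟨b, hb, hbo⟩ := exists_order_of_dvd Nat.prime_three (Dvd.dvd.trans (by norm_num) h6)
  have h : orderOf (a * b) = 6 := by
    rw [Commute.orderOf_mul_eq_mul_orderOf_of_coprime (hc a ha b hb) (by rw [hao, hbo]; norm_num), hao, hbo]
  rcases ord _ (hB (B.mul_mem ha hb)) with h2 | h2 | h2 <;>
    have := orderOf_dvd_of_pow_eq_one h2 <;> rw [h] at this <;> omega

namespace Pre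
variable {z : Y} {E A : Subgroup Y} (P : Pre z E A)
include P

theorem sq {x : Y} (hx : x ∈ E) : x * x = 1 ∨ x * x = z := by
  refine P.cen _ (E.mul_mem hx hx) fun a ha => ?_
  rcases P.comm x hx a ha with h | h
  · rw [mul_assoc, h, ← mul_assoc, h, mul_assoc]
  · calc x * x * a = x * (z * (a * x)) := by rw [mul_assoc, h]
      _ = z * (x * a) * x := by rw [← mul_assoc x z, P.zc x]; group
      _ = z * z * (a * (x * x)) := by rw [h]; group
      _ = _ := by rw [P.zz, one_mul]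

theorem ne_mul_z (x : Y) : x ≠ z * x := fun h => P.z1 (by simpa using h)

omit P in
def qq (x : Y) : ℤ := if x * x = 1 then 1 else -1
omit P in
def bb (x y : Y) : ℤ := if x * y = y * x then 1 else -1

theorem qq_mul {x y : Y} (hx : x ∈ E) (hy : y ∈ E) : qq (x * y) = qq x * qq y * bb x y := by
  have hz1 := P.z1
  have hzz := P.zz
  have e : x * y * (x * y) = x * (y * x) * y := by group
  rcases P.comm x hx y hy with h | h
  · have e2 : x * y * (x * y) = x * x * (y * y) := by rw [e, ← h]; group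
    rcases P.sq hx with h1 | h1 <;> rcases P.sq hy with h2 | h2 <;>
      simp [qq, bb, e2, h1, h2, hz1, hzz, h, show y * x * (y * x) = x * x * (y * y) from h ▸ e2]
  · have hn : ¬ x * y = y * x := fun h' => P.ne_mul_z (y * x) (h' ▸ h)
    have h' : y * x = z * (x * y) := by rw [h, ← mul_assoc, hzz, one_mul]
    have e2 : x * y * (x * y) = z * (x * x * (y * y)) := by
      rw [e, h', ← mul_assoc x z, P.zc x]; group
    rcases P.sq hx with h1 | h1 <;> rcases P.sq hy with h2 | h2 <;>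
      simp [qq, bb, e2, h1, h2, hz1, hzz, hn]

omit P in
theorem sum_sign (S : Finset Y) (p : Y → Prop) :
    ∑ y ∈ S, (if p y then (1 : ℤ) else -1) = 2 * (S.filter p).card - S.card := by
  rw [sum_ite, sum_const, sum_const, ← card_filter_add_card_filter_not (s := S) p]
  simp; ring

theorem card_cent {y : Y} (hy : y ∈ E) (h1 : y ≠ 1) (hz : y ≠ z) : Nat.card ↥(E ⊓ Cz y) = 16 := by
  have h := orbit_card E y
  have : cls E {y} = {y, z * y} := by
    ext w
    rw [mem_cls1, mem_insert, mem_singleton]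
    constructor
    · rintro ⟨a, ha, rfl⟩
      rcases P.comm a ha y hy with h | h
      · left; rw [h]; group
      · right; rw [h]; group
    · rintro (rfl | rfl)
      · exact ⟨1, E.one_mem, by simp⟩
      · by_contra hn
        push Not at hn
        rcases P.cen y hy (fun a ha => by
          rcases P.comm a ha y hy with h | h
          · exact h.symm
          · exact absurd (by rw [h]; group) (hn a ha)) with h | h
        · exact h1 h
        · exact hz h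
  rw [this, card_pair (P.ne_mul_z y), P.cE] at h
  omega

theorem sum_bb {y : Y} (hy : y ∈ E) (h1 : y ≠ 1) (hz : y ≠ z) : ∑ x ∈ fs E, bb x y = 0 := by
  unfold bb
  rw [sum_sign, card_fs, P.cE]
  have : (fs E).filter (fun x => x * y = y * x) = fs (E ⊓ Cz y) := by
    ext x; simp [mem_Cz]
  rw [this, card_fs, P.card_cent hy h1 hz]; norm_num

omit P in
theorem sum_shift (E : Subgroup Y) {x : Y} (hx : x ∈ E) (f : Y → ℤ) :
    ∑ y ∈ fs E, f (x * y) = ∑ y ∈ fs E, f y := by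
  refine sum_bij (fun y _ => x * y) (fun y hy => mem_fs.2 (E.mul_mem hx (mem_fs.1 hy)))
    (fun a _ b _ h => by simpa using h) (fun b hb => ⟨x⁻¹ * b, mem_fs.2 (E.mul_mem (E.inv_mem hx)
      (mem_fs.1 hb)), by simp⟩) (fun _ _ => rfl)

omit P in
theorem qq_sq (x : Y) : qq x * qq x = 1 := by unfold qq; split_ifs <;> norm_num

theorem gauss : (∑ x ∈ fs E, qq x) * (∑ x ∈ fs E, qq x) = 64 := by
  have e1 : (∑ x ∈ fs E, qq x) * (∑ x ∈ fs E, qq x) = ∑ x ∈ fs E, ∑ y ∈ fs E, qq y * bb x y := by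
    rw [sum_mul]
    refine sum_congr rfl fun x hx => ?_
    rw [← sum_shift E (mem_fs.1 hx), mul_sum]
    refine sum_congr rfl fun y hy => ?_
    rw [P.qq_mul (mem_fs.1 hx) (mem_fs.1 hy), ← mul_assoc, ← mul_assoc, qq_sq, one_mul]
  rw [e1, sum_comm]
  simp only [← mul_sum]
  have h1 : (1 : Y) ∈ fs E := mem_fs.2 E.one_mem
  have hz : z ∈ (fs E).erase 1 := mem_erase.2 ⟨P.z1, mem_fs.2 P.zE⟩
  rw [← add_sum_erase _ _ h1, ← add_sum_erase _ _ hz, sum_eq_zero (s := ((fs E).erase 1).erase z)]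
  · have := P.cE
    rw [← card_fs] at this
    simp [qq, bb, P.zz, P.zc, this]
  · intro y hy
    obtain ⟨h2, h3⟩ := mem_erase.1 hy
    obtain ⟨h4, h5⟩ := mem_erase.1 h3
    rw [P.sum_bb (mem_fs.1 h5) h4 h2, mul_zero]

theorem fix_u (hf : ∀ a ∈ A, (∀ x ∈ E, a * x = x * a) → a = 1) {u : Y} (hu : u ∈ A) (huo : orderOf u = 5)
    {x : Y} (hx : x ∈ E) (h : u * x = x * u) : x = 1 ∨ x = z := by
  obtain ⟨k, hk⟩ := fix_mod Nat.prime_five huo E (P.nE u)
  have hd : Nat.card ↥(E ⊓ Cz u) ∣ 32 := P.cE ▸ Subgroup.card_dvd_of_le inf_le_left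
  have hne : Nat.card ↥(E ⊓ Cz u) ≠ 32 := by
    intro h
    have : E ⊓ Cz u = E := Subgroup.eq_of_le_of_card_ge inf_le_left (by rw [P.cE, h])
    have h1 := hf u hu fun x hx => (mem_Cz.1 (this.ge hx).2).symm
    rw [h1] at huo; simp at huo
  rw [P.cE] at hk
  have h2 : Nat.card ↥(E ⊓ Cz u) = 2 := by
    have h4 := Nat.le_of_dvd (by norm_num) hd
    generalize Nat.card ↥(E ⊓ Cz u) = n at *
    interval_cases n <;> omega
  exact eq_of_card_two h2 ⟨P.zE, mem_Cz.2 (P.zc u).symm⟩ P.z1 ⟨hx, mem_Cz.2 h.symm⟩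

omit P in
/-- noncentral involutions of `E` -/
def JJ (z : Y) (E : Subgroup Y) : Finset Y := (((fs E).filter fun x => x * x = 1).erase 1).erase z

omit P in
theorem mem_JJ {x : Y} : x ∈ JJ z E ↔ x ≠ z ∧ x ≠ 1 ∧ x ∈ E ∧ x * x = 1 := by simp [JJ]

theorem JJ_conj {x : Y} (hx : x ∈ JJ z E) (g : Y) : g * x * g⁻¹ ∈ JJ z E := by
  obtain ⟨h1, h2, h3, h4⟩ := mem_JJ.1 hx
  refine mem_JJ.2 ⟨fun e => h1 ?_, fun e => h2 (by simpa using e), P.nE g x h3, ?_⟩
  · have : g * z * g⁻¹ = z := by rw [P.zc]; group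
    rw [← this] at e; simpa using e
  · calc _ = g * (x * x) * g⁻¹ := by group
      _ = 1 := by rw [h4]; group

theorem JJ_z {x : Y} (hx : x ∈ JJ z E) : z * x ∈ JJ z E := by
  obtain ⟨h1, h2, h3, h4⟩ := mem_JJ.1 hx
  refine mem_JJ.2 ⟨fun e => h2 (by simpa using e), fun e => h1 ?_, E.mul_mem P.zE h3, ?_⟩
  · rw [← mul_left_cancel_iff (a := z), e, P.zz]
  · calc z * x * (z * x) = z * (x * z) * x := by group
      _ = z * z * (x * x) := by rw [P.zc x]; group
      _ = 1 := by rw [P.zz, h4, one_mul]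

theorem card_JJ (hf : ∀ a ∈ A, (∀ x ∈ E, a * x = x * a) → a = 1) {u : Y} (hu : u ∈ A)
    (huo : orderOf u = 5) : (JJ z E).card = 10 ∧ ∑ x ∈ fs E, qq x = -8 := by
  have h5 := free_prime Nat.prime_five huo (JJ z E) (fun s hs => P.JJ_conj hs u) fun s hs e => by
    obtain ⟨h1, h2, h3, _⟩ := mem_JJ.1 hs
    rcases P.fix_u hf hu huo h3 e with h | h
    · exact h2 h
    · exact h1 h
  have hg := P.gauss
  have hs : ∑ x ∈ fs E, qq x = 2 * (((fs E).filter fun x => x * x = 1).card : ℤ) - 32 := by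
    unfold qq; rw [sum_sign, card_fs, P.cE]; norm_num
  have h1 : (1 : Y) ∈ (fs E).filter fun x => x * x = 1 := by simp
  have hz : z ∈ ((fs E).filter fun x => x * x = 1).erase 1 := by simp [P.z1, P.zE, P.zz]
  have hc : (JJ z E).card + 2 = ((fs E).filter fun x => x * x = 1).card := by
    rw [JJ, ← card_erase_add_one h1, ← card_erase_add_one hz]
  rw [← hc] at hs
  rw [hs] at hg ⊢
  have : (2 * (((JJ z E).card + 2 : ℕ) : ℤ) - 32 - 8) * (2 * (((JJ z E).card + 2 : ℕ) : ℤ) - 32 + 8) = 0 := by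
    linarith
  push_cast at this ⊢
  rcases mul_eq_zero.1 this with h | h <;> omega

theorem comm_JJ (hS : ∑ x ∈ fs E, qq x = -8) {x y : Y} (hx : x ∈ JJ z E) (hy : y ∈ JJ z E)
    (h : y * x = x * y) : y = x ∨ y = z * x := by
  obtain ⟨h1, h2, h3, h4⟩ := mem_JJ.1 hx
  have e1 : ∑ y ∈ fs E, qq y * bb x y = -8 := by
    rw [← hS, ← sum_shift E h3 qq]
    refine sum_congr rfl fun y hy => ?_
    rw [P.qq_mul h3 (mem_fs.1 hy)]; simp [qq, h4]
  have e2 : ∑ y ∈ fs E, (qq y + qq y * bb x y) = 2 * ∑ y ∈ fs (E ⊓ Cz x), qq y := by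
    have : fs (E ⊓ Cz x) = (fs E).filter (fun y => x * y = y * x) := by
      ext y; simp [mem_Cz, eq_comm]
    rw [this, sum_filter, mul_sum]
    refine sum_congr rfl fun y _ => ?_
    unfold bb; split_ifs <;> ring
  rw [sum_add_distrib, hS, e1] at e2
  have e3 : ∑ y ∈ fs (E ⊓ Cz x), qq y =
      2 * (((fs (E ⊓ Cz x)).filter fun y => y * y = 1).card : ℤ) - 16 := by
    unfold qq; rw [sum_sign, card_fs, P.card_cent h3 h2 h1]; norm_num
  have e4 : ((fs (E ⊓ Cz x)).filter fun y => y * y = 1).card = 4 := by omega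
  obtain ⟨k1, k2, k3, k4⟩ := mem_JJ.1 (P.JJ_z hx)
  have hsub : ({1, z, x, z * x} : Finset Y) ⊆ (fs (E ⊓ Cz x)).filter fun y => y * y = 1 := by
    intro g hg
    simp only [mem_insert, mem_singleton] at hg
    rcases hg with rfl | rfl | rfl | rfl
    · simp
    · simp [P.zE, P.zz, mem_Cz, P.zc]
    · simp [h3, h4, mem_Cz]
    · refine mem_filter.2 ⟨mem_fs.2 ⟨k3, mem_Cz.2 ?_⟩, k4⟩
      rw [← mul_assoc, P.zc x]
  have hc : ({1, z, x, z * x} : Finset Y).card = 4 := by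
    rw [card_insert_of_notMem, card_insert_of_notMem, card_pair (P.ne_mul_z x)]
    · simp [h1.symm, k1.symm, h2]
    · simp [P.z1.symm, h2.symm, k2.symm]
  have := eq_of_subset_of_card_le hsub (by rw [hc, e4])
  obtain ⟨l1, l2, l3, l4⟩ := mem_JJ.1 hy
  have h6 : y ∈ (fs (E ⊓ Cz x)).filter fun y => y * y = 1 := mem_filter.2 ⟨mem_fs.2 ⟨l3, mem_Cz.2 h⟩, l4⟩
  rw [← this] at h6
  simpa [l1, l2] using h6

theorem odd_not_flip {b x : Y} (hb : b ^ 3 = 1 ∨ b ^ 5 = 1) (h : b * x * b⁻¹ = z * x) : False := by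
  have h2 : b * b ∈ Cz x := by
    rw [mem_Cz']
    calc b * b * x * (b * b)⁻¹ = b * (b * x * b⁻¹) * b⁻¹ := by group
      _ = (b * z) * x * b⁻¹ := by rw [h]; group
      _ = z * (b * x * b⁻¹) := by rw [P.zc b]; group
      _ = x := by rw [h, ← mul_assoc, P.zz, one_mul]
  have h3 : b ∈ Cz x := by
    rcases hb with hb | hb
    · have : b = (b * b)⁻¹ := by
        rw [eq_inv_iff_mul_eq_one, ← hb]; simp [pow_succ, mul_assoc]
      rw [this]; exact (Cz x).inv_mem h2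
    · have : b = (b * b * (b * b))⁻¹ := by
        rw [eq_inv_iff_mul_eq_one, ← hb]; simp [pow_succ, mul_assoc]
      rw [this]; exact (Cz x).inv_mem ((Cz x).mul_mem h2 h2)
  rw [mem_Cz'.1 h3] at h
  exact P.ne_mul_z x h

theorem not_flip (hf : ∀ a ∈ A, (∀ x ∈ E, a * x = x * a) → a = 1) {u : Y} (hu : u ∈ A)
    (huo : orderOf u = 5) {x : Y} (hx : x ∈ JJ z E) {b : Y} (hb : b ∈ A) : b * x * b⁻¹ ≠ z * x := by
  intro h
  have hsq : ∀ c ∈ A, c * x * c⁻¹ = z * x → c * c = 1 := fun c hc h => by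
    rcases P.ord c hc with h2 | h2
    · rwa [pow_two] at h2
    · exact (P.odd_not_flip h2 h).elim
  have hbb := hsq b hb h
  have hsub : cls A {x} ⊆ JJ z E := fun y hy => by
    obtain ⟨g, _, rfl⟩ := mem_cls1.1 hy; exact P.JJ_conj hx g
  have h10 := card_le_card hsub
  rw [(P.card_JJ hf hu huo).1] at h10
  have h5 := free_prime Nat.prime_five huo (cls A {x}) (fun s hs => by
    obtain ⟨g, hg, rfl⟩ := mem_cls1.1 hs
    exact mem_cls1.2 ⟨u * g, A.mul_mem hu hg, by group⟩) fun s hs e => by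
    obtain ⟨h1, h2, h3, _⟩ := mem_JJ.1 (hsub hs)
    rcases P.fix_u hf hu huo h3 e with h | h
    · exact h2 h
    · exact h1 h
  have ho := orbit_card A x
  rw [P.cA] at ho
  refine no6 P.ord (B := A ⊓ Cz x) inf_le_left ?_ fun a ha c hc => ?_
  · generalize (cls A {x}).card = n at *
    interval_cases n <;> omega
  · refine comm_of_inverts (D := A ⊓ Cz x) hbb (fun d hd => ?_) ha hc
    have := hsq (b * d) (A.mul_mem hb hd.1) (by
      calc b * d * x * (b * d)⁻¹ = b * (d * x * d⁻¹) * b⁻¹ := by group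
        _ = _ := by rw [mem_Cz'.1 hd.2, h])
    rw [eq_inv_iff_mul_eq_one, ← this]; group

theorem exists_rel (hf : ∀ a ∈ A, (∀ x ∈ E, a * x = x * a) → a = 1) : ∃ e : ℕ → Y, Rel z e E A := by
  obtain ⟨u, hu, huo⟩ := exists_order_of_dvd (D := A) Nat.prime_five (by rw [P.cA]; norm_num)
  obtain ⟨hJ, hS⟩ := P.card_JJ hf hu huo
  have hu5 : u ^ 5 = 1 := by rw [← huo, pow_orderOf_eq_one]
  have main : ∀ x ∈ JJ z E, (∀ i < 5, ∀ j < 5, i ≠ j →
      u ^ i * x * (u ^ i)⁻¹ ≠ u ^ j * x * (u ^ j)⁻¹ ∧ u ^ i * x * (u ^ i)⁻¹ ≠ z * (u ^ j * x * (u ^ j)⁻¹)) := by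
    intro x hx i hi j hj hij
    have hb : (u ^ j)⁻¹ * u ^ i ∈ A := A.mul_mem (A.inv_mem (A.pow_mem hu _)) (A.pow_mem hu _)
    refine ⟨fun h => ?_, fun h => P.not_flip hf hu huo hx hb ?_⟩
    · obtain ⟨h1, h2, h3, _⟩ := mem_JJ.1 hx
      have h4 : (u ^ j)⁻¹ * u ^ i ∈ Cz x := by
        rw [mem_Cz']
        calc _ = (u ^ j)⁻¹ * (u ^ i * x * (u ^ i)⁻¹) * u ^ j := by group
          _ = x := by rw [h]; group
      have h5 : u ∈ Subgroup.zpowers ((u ^ j)⁻¹ * u ^ i) :=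
        mem_zpowers_of_prime Nat.prime_five huo (Subgroup.mul_mem _ (Subgroup.inv_mem _
          (Subgroup.npow_mem_zpowers _ _)) (Subgroup.npow_mem_zpowers _ _)) (fun e => hij (by
            rw [inv_mul_eq_one] at e
            exact (pow_injOn_Iio_orderOf (by simpa [huo] using hj) (by simpa [huo] using hi) e).symm))
      rcases P.fix_u hf hu huo h3 (mem_Cz.1 ((Subgroup.zpowers_le.2 h4) h5)) with h | h
      · exact h2 h
      · exact h1 h
    · calc _ = (u ^ j)⁻¹ * (u ^ i * x * (u ^ i)⁻¹) * u ^ j := by group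
        _ = ((u ^ j)⁻¹ * z) * (u ^ j * x) := by rw [h]; group
        _ = z * x := by rw [P.zc]; group
  have anti : ∀ x ∈ JJ z E, ∀ i < 5, ∀ j < 5, i ≠ j → (u ^ i * x * (u ^ i)⁻¹) * (u ^ j * x * (u ^ j)⁻¹) =
      z * ((u ^ j * x * (u ^ j)⁻¹) * (u ^ i * x * (u ^ i)⁻¹)) := by
    intro x hx i hi j hj hij
    have h1 := P.JJ_conj hx (u ^ i)
    have h2 := P.JJ_conj hx (u ^ j)
    rcases P.comm _ (mem_JJ.1 h1).2.2.1 _ (mem_JJ.1 h2).2.2.1 with h | h
    · rcases P.comm_JJ hS h2 h1 h with h | h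
      · exact absurd h (main x hx i hi j hj hij).1
      · exact absurd h (main x hx i hi j hj hij).2
    · exact h
  have key : ∀ x ∈ JJ z E, (fun i : ℕ => u ^ i * x * (u ^ i)⁻¹) 0 * (fun i : ℕ => u ^ i * x * (u ^ i)⁻¹) 1 *
      (fun i : ℕ => u ^ i * x * (u ^ i)⁻¹) 2 * (fun i : ℕ => u ^ i * x * (u ^ i)⁻¹) 3 *
      (fun i : ℕ => u ^ i * x * (u ^ i)⁻¹) 4 = 1 → ∃ e : ℕ → Y, Rel z e E A := by
    intro x hx hp
    refine ⟨fun i => u ^ i * x * (u ^ i)⁻¹, P.zz, P.z1, P.zc, P.zE,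
      fun i _ => (mem_JJ.1 (P.JJ_conj hx _)).2.2.1, fun i _ => (mem_JJ.1 (P.JJ_conj hx _)).2.2.2,
      anti x hx, hp, fun a ha i hi => ?_, hf, P.cE, P.cA, P.cY, P.sur⟩
    have hT : ((range 5).image fun i => u ^ i * x * (u ^ i)⁻¹) ∪
        ((range 5).image fun i => z * (u ^ i * x * (u ^ i)⁻¹)) = JJ z E := by
      refine eq_of_subset_of_card_le (fun y hy => ?_) ?_
      · rcases mem_union.1 hy with h | h <;> obtain ⟨i, _, rfl⟩ := mem_image.1 h
        · exact P.JJ_conj hx _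
        · exact P.JJ_z (P.JJ_conj hx _)
      · rw [hJ, card_union_of_disjoint, card_image_of_injOn, card_image_of_injOn, card_range]
        · intro i hi j hj h
          by_contra hij
          exact (main x hx i (by simpa using hi) j (by simpa using hj) hij).1 (mul_left_cancel h)
        · intro i hi j hj h
          by_contra hij
          exact (main x hx i (by simpa using hi) j (by simpa using hj) hij).1 h
        · rw [disjoint_left]
          intro y h1 h2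
          obtain ⟨i, hi, rfl⟩ := mem_image.1 h1
          obtain ⟨j, hj, h⟩ := mem_image.1 h2
          by_cases hij : i = j
          · subst hij; exact P.ne_mul_z _ h.symm
          · exact (main x hx i (by simpa using hi) j (by simpa using hj) hij).2 h.symm
    have h1 := P.JJ_conj (P.JJ_conj hx (u ^ i)) a
    rw [← hT] at h1
    rcases mem_union.1 h1 with h | h <;> obtain ⟨j, hj, h⟩ := mem_image.1 h
    · exact ⟨j, by simpa using hj, h.symm⟩
    · exfalso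
      refine P.not_flip hf hu huo hx (b := (u ^ j)⁻¹ * a * u ^ i)
        (A.mul_mem (A.mul_mem (A.inv_mem (A.pow_mem hu _)) ha) (A.pow_mem hu _)) ?_
      calc _ = (u ^ j)⁻¹ * (a * (u ^ i * x * (u ^ i)⁻¹) * a⁻¹) * u ^ j := by group
        _ = ((u ^ j)⁻¹ * z) * (u ^ j * x) := by rw [← h]; group
        _ = z * x := by rw [P.zc]; group
  obtain ⟨x, hx⟩ : (JJ z E).Nonempty := card_pos.1 (by rw [hJ]; norm_num)
  set e : ℕ → Y := fun i : ℕ => u ^ i * x * (u ^ i)⁻¹ with he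
  have hE : ∀ i, e i ∈ E := fun i => (mem_JJ.1 (P.JJ_conj hx _)).2.2.1
  have hs : ∀ i, u * e i * u⁻¹ = e (i + 1) := fun i => by simp only [he]; group
  have h50 : e 5 = e 0 := by simp [he, hu5]
  have an : ∀ j < 5, j ≠ 0 → ∀ w, e j * (e 0 * w) = z * (e 0 * (e j * w)) := fun j hj h0 w => by
    have := anti x hx j hj 0 (by norm_num) h0
    change e j * e 0 = z * (e 0 * e j) at this
    rw [← mul_assoc, this]; group
  have zc' : ∀ g w : Y, g * (z * w) = z * (g * w) := fun g w => by rw [← mul_assoc, P.zc g, mul_assoc]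
  have hfix : u * (e 0 * e 1 * e 2 * e 3 * e 4) = (e 0 * e 1 * e 2 * e 3 * e 4) * u := by
    rw [← mul_inv_eq_iff_eq_mul]
    calc _ = (u * e 0 * u⁻¹) * ((u * e 1 * u⁻¹) * ((u * e 2 * u⁻¹) * ((u * e 3 * u⁻¹) *
          ((u * e 4 * u⁻¹) * 1)))) := by group
      _ = e 1 * (e 2 * (e 3 * (e 4 * (e 0 * 1)))) := by rw [hs, hs, hs, hs, hs, h50, mul_one]
      _ = _ := by
        rw [an 4 (by norm_num) (by norm_num), zc' (e 3), zc' (e 2), zc' (e 1), an 3 (by norm_num) (by norm_num),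
          zc' (e 2), zc' (e 1), an 2 (by norm_num) (by norm_num), zc' (e 1), an 1 (by norm_num) (by norm_num),
          ← mul_assoc z z, P.zz, ← mul_assoc z z, P.zz]
        group
  rcases P.fix_u hf hu huo (E.mul_mem (E.mul_mem (E.mul_mem (E.mul_mem (hE 0) (hE 1)) (hE 2)) (hE 3))
    (hE 4)) hfix with h | h
  · exact key x hx h
  · refine key (z * x) (P.JJ_z hx) ?_
    have : ∀ i : ℕ, u ^ i * (z * x) * (u ^ i)⁻¹ = z * e i := fun i => by
      rw [zc', mul_assoc]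
    simp only [this, mul_assoc] at h ⊢
    rw [zc' (e 3), zc' (e 2), zc' (e 2), zc' (e 1), zc' (e 1), zc' (e 1), zc' (e 0), zc' (e 0), zc' (e 0),
      zc' (e 0), h, P.zz, mul_one, P.zz, mul_one, P.zz]

theorem faith_or : (∀ a ∈ A, (∀ x ∈ E, a * x = x * a) → a = 1) ∨ ∀ a ∈ A, ∀ x ∈ E, a * x = x * a := by
  rcases P.simp (A ⊓ Subgroup.centralizer (E : Set Y)) inf_le_left (fun a ha n hn =>
    ⟨A.mul_mem (A.mul_mem ha hn.1) (A.inv_mem ha), fun x hx => by
      have := hn.2 _ (P.nE a⁻¹ x hx)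
      calc x * (a * n * a⁻¹) = a * (a⁻¹ * x * a⁻¹⁻¹ * n) * a⁻¹ := by group
        _ = _ := by rw [this]; group⟩) with h | h
  · left
    intro a ha h2
    have : a ∈ A ⊓ Subgroup.centralizer (E : Set Y) := ⟨ha, fun x hx => (h2 x hx).symm⟩
    rw [h] at this; exact this
  · right
    intro a ha x hx
    exact ((h.ge ha).2 x hx).symm

end Pre
end
end Cfsg.Agent.J3T
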