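import Cfsg.Agent.Lib.J3T.TI

/-! The global counting. -/

set_option autoImplicit false
set_option linter.unusedSectionVars false
open Finset Classical

namespace Cfsg.Agent.J3T
noncomputable section
variable {G : Type*} [Group G] [Fintype G]

/-- the data on the remaining elements of odd order -/
structure PD (P : Finset G) (b n : ℕ) : Prop where
  cG : Nat.card G = 1920 * b * n
  b81 : 81 ∣ b
  b8 : b % 8 = 1
  cP : P.card + 1 = (427 * b + 80) * n
  sP : b * n * (b * n) = b * n * (15843 + 80 * b) + ∑ y ∈ P, ninv y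
  ne : ∀ g ∈ P, g ≠ 1
  cop : ∀ g ∈ P, Nat.Coprime (1920 * b) (Nat.card (Cz g))
  mem : ∀ g, g ≠ 1 → Nat.Coprime (1920 * b) (orderOf g) → g ∈ P
  cH : ∀ s ∈ Inv G, Nat.card (Cz s) = 1920

theorem sum_part5 {α : Type*} {S A B C D P : Finset α} (F : α → ℕ)
    (h : ∀ g, g ∈ S ↔ g ∈ A ∨ g ∈ B ∨ g ∈ C ∨ g ∈ D ∨ g ∈ P)
    (hA : ∀ g ∈ A, g ∉ B ∧ g ∉ C ∧ g ∉ D ∧ g ∉ P) (hB : ∀ g ∈ B, g ∉ C ∧ g ∉ D ∧ g ∉ P)
    (hC : ∀ g ∈ C, g ∉ D ∧ g ∉ P) (hD : ∀ g ∈ D, g ∉ P) :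
    ∑ g ∈ S, F g = ∑ g ∈ A, F g + (∑ g ∈ B, F g + (∑ g ∈ C, F g + (∑ g ∈ D, F g + ∑ g ∈ P, F g))) := by
  have e : S = A ∪ (B ∪ (C ∪ (D ∪ P))) := by ext g; simp only [h, mem_union]
  rw [e, sum_union, sum_union, sum_union, sum_union]
  · exact disjoint_left.2 hD
  · exact disjoint_left.2 fun g hg => by have := hC g hg; simp only [mem_union]; tauto
  · exact disjoint_left.2 fun g hg => by have := hB g hg; simp only [mem_union]; tauto
  · exact disjoint_left.2 fun g hg => by have := hA g hg; simp only [mem_union]; tauto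

theorem J3.pd {z x u s su τ : G} (J : J3 z x u s su τ) : ∃ (P : Finset G) (b n : ℕ), PD P b n := by
  obtain ⟨σ, T, W, E⟩ := J.wd
  obtain ⟨Θ, t1, t2, t3, t4, t5⟩ := J.five E.toTD
  have h5 : H5 x := fun g c h1 h2 h3 => (t5 g c h1 h2 h3).imp_left fun h => (t3 g h).2
  obtain ⟨w0, hw⟩ : ((fs W).erase 1).Nonempty := card_pos.1 (by rw [E.card_W1]; norm_num)
  have h01 := (mem_erase.1 hw).1
  have hw0 := mem_fs.1 (mem_erase.1 hw).2
  have hzz := (mem_Inv.1 J.zI).1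
  have hDo : Odd (Nat.card (Cz w0)) := J.gd_odd (J.gd_W E hw0 h01)
  have hD5 : ¬ 5 ∣ Nat.card (Cz w0) := J3.gd_five h5 (J.gd_W E hw0 h01)
  have d1 := inverted_card hDo J.zI (fun d hd => norm_Cz_of_inverts hzz (E.Wz hw0) hd)
  have d2 := sigma_free E.σ4 E.σo J.zI E.σz hDo (fun d hd => J.σD E h5 hw0 h01 hd)
  rw [J.cz_cw E h5 hw0 h01, Nat.card_zpowers, J.xo] at d1
  generalize ((fs (Cz w0)).filter fun d => z * d * z = d⁻¹).card = b at d1 d2
  have d3 := J.dvd_D E hw0 h01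
  have g1 := card_Inv J.zI J.one
  rw [J.cH] at g1
  have d4 : b ∣ (Inv G).card := by
    have h1 : Nat.card (Cz w0) ∣ Nat.card G := Subgroup.card_subgroup_dvd_card _
    rw [← d1, ← g1, show (Inv G).card * 1920 = (2 ^ 7 * 5 * (Inv G).card) * 3 by ring] at h1
    refine Nat.Coprime.dvd_of_dvd_mul_left (Nat.Coprime.mul_right (Nat.Coprime.pow_right 7
      (Nat.coprime_two_right.2 (Nat.odd_iff.2 (by omega)))) ((Nat.Prime.coprime_iff_not_dvd Nat.prime_five).2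
      fun h => hD5 (d1 ▸ h.mul_right 3)).symm) (Nat.dvd_of_mul_dvd_mul_right (by norm_num) h1)
  obtain ⟨n, hn⟩ := d4
  set Δ := (fs (Cz w0)).filter (fun g => g ≠ 1 ∧ ¬ Cj x g) with hΔ
  set P := (Od G).filter (fun g => g ≠ 1 ∧ ¬ Cj x g ∧ g ∉ Θ ∧ g ∉ cls ⊤ Δ) with hP
  have hA : ∀ g, g ∈ cls ⊤ {x} ↔ Cj x g := fun g => by
    rw [mem_cls1]; exact ⟨fun ⟨h, _, e⟩ => ⟨h, e⟩, fun ⟨h, e⟩ => ⟨h, trivial, e⟩⟩
  have hC : ∀ g ∈ cls ⊤ Δ, Gd x g := fun g hg => by
    obtain ⟨d, hd, h, -, rfl⟩ := mem_cls.1 hg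
    obtain ⟨k1, k2, k3⟩ := mem_filter.1 hd
    exact (J.gd_D E h5 hw0 h01 (mem_fs.1 k1) k2 k3).conj h
  have hPg : ∀ g ∈ P, Gd x g := fun g hg => by
    obtain ⟨k0, k1, k2, k3, k4⟩ := mem_filter.1 hg
    refine ⟨k1, k2, mem_Od.1 k0, fun h => ?_⟩
    obtain ⟨c, hc, ho⟩ := exists_order_of_dvd (D := Subgroup.zpowers g) Nat.prime_five (by rwa [Nat.card_zpowers])
    rcases t5 g c ho (mem_Cz_comm.1 (zpowers_le_Cz g hc)) (mem_Od.1 k0) with e | e | e
    · exact k3 e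
    · exact k1 e
    · exact k2 e
  have hcj : ∀ g, Cj x g → orderOf g = 3 := fun g h => h.order.trans J.xo
  have part := fun F : G → ℕ => sum_part5 (S := Od G) (A := {1}) (B := cls ⊤ {x}) (C := Θ) (D := cls ⊤ Δ)
    (P := P) F (fun g => by
      rw [hA, mem_singleton, hP, mem_filter]
      constructor
      · tauto
      · rintro (rfl | h | h | h | h)
        · simp
        · rw [mem_Od, hcj g h]; decide
        · exact mem_Od.2 (t3 g h).1
        · exact mem_Od.2 (hC g h).2.2.1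
        · exact h.1)
    (fun g hg => by
      rw [mem_singleton] at hg; subst hg
      exact ⟨fun h => by simpa using hcj _ ((hA _).1 h), fun h => by simpa using (t3 _ h).2,
        fun h => (hC _ h).1 rfl, fun h => (hPg _ h).1 rfl⟩)
    (fun g hg => ⟨fun h => by have := (t3 _ h).2; rw [hcj g ((hA g).1 hg)] at this; omega,
      fun h => (hC _ h).2.1 ((hA g).1 hg), fun h => (hPg _ h).2.1 ((hA g).1 hg)⟩)
    (fun g hg => ⟨fun h => (hC _ h).2.2.2 (t3 _ hg).2, fun h => (hPg _ h).2.2.2 (t3 _ hg).2⟩)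
    (fun g hg h => (mem_filter.1 h).2.2.2.2 hg)
  have p1 := part fun _ => 1
  have p2 := part ninv
  simp only [← card_eq_sum_ones, card_singleton] at p1
  rw [sum_singleton, ninv_one] at p2
  have c1 := class_eq J.one
  have c2 := pair_eq J.one
  rw [J.n1, p1] at c1
  rw [J.n2, p2] at c2
  have a1 := class_card x
  rw [E.cL] at a1
  have a2 : ∑ g ∈ cls ⊤ {x}, ninv g = (cls ⊤ {x}).card * 108 := by
    rw [← smul_eq_mul, ← sum_const]
    refine sum_congr rfl fun g hg => ?_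
    obtain ⟨h, rfl⟩ := (hA g).1 hg
    rw [ninv_conj, (J.outer_count E.cL).1]
  have e1 := ti_card ⊤ _ le_top Δ (J.tiD E h5 hw0 h01)
  have e2 := ti_sum ⊤ _ le_top Δ (J.tiD E h5 hw0 h01) ninv (fun g _ h _ => ninv_conj h g)
  have e3 := J.sum_ninv E h5 hw0 h01
  have e4 := J.card_cj_D E hw0 h01
  have e5 : Δ.card + (1 + ((fs (Cz w0)).filter (Cj x)).card) = Nat.card (Cz w0) := by
    rw [← card_fs, ← card_filter_add_card_filter_not (s := fs (Cz w0)) (fun g => g ≠ 1 ∧ ¬ Cj x g)]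
    congr 1
    rw [add_comm, ← card_insert_of_notMem (a := (1 : G)) (fun h => by simpa using hcj _ (mem_filter.1 h).2)]
    congr 1; ext g
    simp only [mem_insert, mem_filter, mem_fs]
    constructor
    · rintro (rfl | h)
      · simp
      · tauto
    · tauto
  rw [J.card_NW E h5 hw0 h01, Subgroup.card_top] at e1 e2
  rw [← hΔ] at e3
  rw [← d1] at e1 e2 e3 e4 e5 d3
  have hb : 0 < b := by omega
  obtain ⟨e, rfl⟩ : 81 ∣ b := by omega
  rw [← g1] at e1 e2 a1 c1 t1 t2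
  rw [hn] at e1 e2 a1 c1 c2 t1 t2
  have e6 : Δ.card + 1 = 225 * e := by omega
  have e7 : (cls ⊤ Δ).card + 80 * n = 18000 * (e * n) := by
    refine Nat.eq_of_mul_eq_mul_right (show 0 < 8 * (81 * e * 3) by omega) ?_
    rw [add_mul, e1]
    calc _ = 81 * e * n * 1920 * (Δ.card + 1) := by ring
      _ = _ := by rw [e6]; ring
  have e8 : ∑ g ∈ cls ⊤ Δ, ninv g + 80 * (81 * e * n) = 80 * (81 * e) * (81 * e * n) := by
    refine Nat.eq_of_mul_eq_mul_right (show 0 < 8 * (81 * e * 3) * 9 by omega) ?_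
    rw [add_mul, ← mul_assoc _ _ 9, e2]
    calc _ = 81 * e * n * 1920 * ((∑ g ∈ Δ, ninv g) * 9 + 81 * e * 3 * 3) := by ring
      _ = _ := by rw [e3]; ring
  refine ⟨P, 81 * e, n, by rw [← g1, hn]; ring, dvd_mul_right _ _, d2, ?_, ?_, fun g hg => (hPg g hg).1,
    fun g hg => ?_, fun g k1 k2 => ?_, fun s hs => J.cardI hs⟩
  · have : 81 * e * n = 81 * (e * n) := by ring
    rw [this] at c1 a1 t1
    rw [show (427 * (81 * e) + 80) * n = 427 * 81 * (e * n) + 80 * n by ring]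
    omega
  · rw [a2] at c2
    generalize 81 * e * n = i at c2 a1 t2 e8 ⊢
    rw [show i * (15843 + 80 * (81 * e)) = 15843 * i + 80 * (81 * e) * i by ring]
    omega
  · have hg' := hPg g hg
    have hgC := (mem_filter.1 hg).2.2.2.2
    have hin : ∀ k : G, k * g * k⁻¹ ∉ Cz w0 := fun k hk => hgC (mem_cls.2 ⟨_, mem_filter.2
      ⟨mem_fs.2 hk, (hg'.conj k).1, (hg'.conj k).2.1⟩, k⁻¹, trivial, by group⟩)
    rw [Nat.coprime_iff_gcd_eq_one, Nat.eq_one_iff_not_exists_prime_dvd]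
    intro q hq hd
    have q1 := hd.trans (Nat.gcd_dvd_left _ _)
    have q2 := hd.trans (Nat.gcd_dvd_right _ _)
    have q3 : q ∣ Nat.card (Cz w0) := by
      rw [show 1920 * (81 * e) = 2 ^ 7 * (5 * (81 * e * 3)) by ring, d1] at q1
      rcases (Nat.Prime.dvd_mul hq).1 q1 with h | h
      · rw [(Nat.prime_dvd_prime_iff_eq hq Nat.prime_two).1 (hq.dvd_of_dvd_pow h)] at q2
        exact absurd (J.gd_odd hg') (Nat.not_odd_iff_even.2 (even_iff_two_dvd.2 q2))
      · rcases (Nat.Prime.dvd_mul hq).1 h with h | h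
        · rw [(Nat.prime_dvd_prime_iff_eq hq Nat.prime_five).1 h] at q2
          exact absurd q2 (J3.gd_five h5 hg')
        · exact h
    obtain ⟨c, hc, hco⟩ := exists_order_of_dvd hq q2
    obtain ⟨k, hk⟩ := conj_into hq (J.hallD E h5 hw0 h01 hq q3) (c := c) (k := 1)
      (by rw [pow_one, ← hco, pow_orderOf_eq_one])
    by_cases hx : Cj x c
    · obtain ⟨l, hl⟩ := J.gd_cj E hg' hc hx
      exact hin l (J3.WD' E hw0 hl)
    · refine hin k (J.CD E h5 hw0 h01 hk (fun h => hq.one_lt.ne ?_) (fun h => hx h.of_conj)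
        ((mem_Cz_conj k).2 (mem_Cz_comm.1 hc)))
      rw [← hco, ← orderOf_conj' k, h, orderOf_one]
  · have k3 : ∀ m, m ∣ 1920 * (81 * e) → m ∣ orderOf g → m = 1 := fun m h1 h2 =>
      Nat.eq_one_of_dvd_coprimes k2 h1 h2
    refine mem_filter.2 ⟨mem_Od.2 ?_, k1, fun h => ?_, fun h => ?_, fun h => ?_⟩
    · by_contra h
      have := k3 2 (by omega) (even_iff_two_dvd.1 (Nat.not_odd_iff_even.1 h))
      omega
    · have := k3 3 (by omega) (hcj g h ▸ dvd_rfl)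
      omega
    · have := k3 5 (by omega) (t3 g h).2
      omega
    · obtain ⟨d, hd, h, -, rfl⟩ := mem_cls.1 h
      refine k1 (orderOf_eq_one_iff.1 (k3 _ ?_ dvd_rfl))
      rw [orderOf_conj', show 1920 * (81 * e) = (81 * e * 3) * 640 by ring, d1]
      exact (Subgroup.orderOf_dvd_natCard _ (mem_fs.1 (mem_filter.1 hd).1)).mul_right _

end
end Cfsg.Agent.J3T
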