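import Cfsg.Agent.Lib.J3T.Ext

/-! The facts about the involution centralizer used in the sequel. -/

set_option autoImplicit false
set_option linter.unusedSectionVars false
set_option linter.constructorNameAsVariable false
set_option maxRecDepth 10000
open Finset Classical

namespace Cfsg.Agent.J3T
noncomputable section
open Mod
variable {G : Type*} [Group G] [Fintype G]

structure HF (z x u s su τ : G) : Prop where
  zI : z ∈ Inv G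
  cH : Nat.card (Cz z) = 1920
  n1 : n1 z = 885
  n2 : n2 z = 9330
  xo : orderOf x = 3
  xz : x ∈ Cz z
  uo : orderOf u = 5
  uz : u ∈ Cz z
  odd : ∀ g ∈ Cz z, Odd (orderOf g) → g ^ 3 = 1 ∨ g ^ 5 = 1
  c3 : ∀ g ∈ Cz z, orderOf g = 3 → ∃ h ∈ Cz z, h * g * h⁻¹ = x
  c5 : ∀ g ∈ Cz z, orderOf g = 5 → ∃ h ∈ Cz z, h * g * h⁻¹ = u ∨ h * g * h⁻¹ = u * u
  c24 : Nat.card ↥(Cz z ⊓ Cz x) = 24
  c9 : (univ.filter fun g => g ∈ Cz x ∧ z ∈ Subgroup.zpowers g).card = 9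
  c12 : ((Inv G ×ˢ Inv G).filter fun p : G × G =>
    p.1 ∈ Cz x ∧ p.2 ∈ Cz x ∧ z ∈ Subgroup.zpowers (p.1 * p.2)).card = 12
  c48 : ((Inv G ×ˢ Inv G).filter fun p : G × G =>
    p.1 ∈ Cz x ∧ p.2 * x * p.2⁻¹ = x⁻¹ ∧ z ∈ Subgroup.zpowers (p.1 * p.2)).card = 48
  cxI : ∃ c ∈ Inv G, c ≠ z ∧ c ∈ Cz z ∧ c ∈ Cz x
  V16 : Nat.card ↥(Cz z ⊓ Cz s) = 16
  V2 : ∀ v ∈ Cz z ⊓ Cz s, v * v = 1
  sz : s ∈ Cz z
  Vc : ∀ V : Subgroup G, V ≤ Cz z → Nat.card V = 16 → (∀ v ∈ V, v * v = 1) →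
    ∃ h ∈ Cz z, ∀ v ∈ V, h * v * h⁻¹ ∈ Cz z ⊓ Cz s
  NV : Nat.card ↥(Cz z ⊓ Subgroup.normalizer ((Cz z ⊓ Cz s : Subgroup G) : Set G)) = 192
  cu : ∀ g ∈ Cz z, g ∈ Cz u → ∃ k : ℕ, g = u ^ k ∨ g = u ^ k * z
  nu : ∀ g ∈ Cz z, g * u * g⁻¹ ≠ u * u
  suI : su ∈ Inv G
  suz : su ∈ Cz z
  suu : su * u * su = u⁻¹
  ox : ∀ g ∈ Cz z, g * x * g⁻¹ = x⁻¹ → g * g = 1 ∨ g ^ 4 = z
  τI : τ ∈ Inv G
  τz : τ ∈ Cz z
  τx : τ * x * τ⁻¹ = x⁻¹
  oc : ∀ g ∈ Cz z, g * x * g⁻¹ = x⁻¹ → g * g = 1 → (∃ h ∈ Cz z, h ∈ Cz x ∧ h * g * h⁻¹ = τ) ∧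
    ∀ d ∈ Cz z, d ∈ Cz x → d ∈ Cz g → d = 1 ∨ d = z
  h7 : ∀ Y : Subgroup G, Y ≤ Cz z → x ∈ Y → ∀ σ ∈ Y, σ * x * σ⁻¹ = x⁻¹ → σ * σ ≠ 1 →
    ∀ y ∈ Y, y ^ 3 = 1 → y ∈ Subgroup.zpowers x ∨ ∃ s ∈ Y, s ∈ Inv G ∧ s ≠ z

structure Phi (φ : ℕ → G) (z : G) : Prop where
  one : φ 1 = z
  mul : ∀ a < 1920, ∀ b < 1920, φ (mul a b) = φ a * φ b
  inj : ∀ a < 1920, ∀ b < 1920, φ a = φ b → a = b
  mem : ∀ g, g ∈ Cz z ↔ ∃ a < 1920, φ a = g

theorem mem_Cz_of_zpowers {z g : G} (h : z ∈ Subgroup.zpowers g) : g ∈ Cz z :=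
  mem_Cz_comm.1 ((Subgroup.zpowers_le.2 (self_mem_Cz g)) h)

theorem pair_mem_Cz {z s t : G} (hz : z ∈ Inv G) (hs : s ∈ Inv G) (ht : t ∈ Inv G)
    (h : z ∈ Subgroup.zpowers (s * t)) : s ∈ Cz z ∧ t ∈ Cz z := by
  have h1 : s ∈ Cz z := by
    obtain ⟨k, rfl⟩ := h
    have e : s * (s * t) * s⁻¹ = (s * t)⁻¹ := by
      rw [← mul_assoc, (mem_Inv.1 hs).1, one_mul, mul_inv_rev, Inv.inv ht]
    rw [mem_Cz']
    simp only at hz ⊢
    rw [← conj_zpow, e, inv_zpow, Inv.inv hz]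
  refine ⟨h1, ?_⟩
  have := (Cz z).mul_mem ((Cz z).inv_mem h1) (mem_Cz_of_zpowers h)
  simpa using this

namespace Phi
variable {φ : ℕ → G} {z : G} (F : Phi φ z)
include F

theorem zero : φ 0 = 1 := by
  have := F.mul 0 (by norm_num) 0 (by norm_num)
  rw [show Mod.mul 0 0 = 0 by decide +kernel] at this
  simpa using this

theorem pow {a : ℕ} (ha : a < 1920) : ∀ k, φ (pw a k) = φ a ^ k
  | 0 => by simp [pw, F.zero]
  | k + 1 => by rw [pw, F.mul _ (pw_lt ha k) _ ha, pow ha k, pow_succ]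

theorem eq_iff {a b : ℕ} (ha : a < 1920) (hb : b < 1920) : φ a = φ b ↔ a = b :=
  ⟨F.inj a ha b hb, fun h => by rw [h]⟩

theorem eq_one {a : ℕ} (ha : a < 1920) : φ a = 1 ↔ a = 0 := by
  rw [← F.zero, F.eq_iff ha (by norm_num)]

theorem eq_z {a : ℕ} (ha : a < 1920) : φ a = z ↔ a = 1 := by
  rw [← F.one, F.eq_iff ha (by norm_num)]

theorem mul_eq {a b c d : ℕ} (ha : a < 1920) (hb : b < 1920) (hc : c < 1920) (hd : d < 1920) :
    φ a * φ b = φ c * φ d ↔ Mod.mul a b = Mod.mul c d := by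
  rw [← F.mul a ha b hb, ← F.mul c hc d hd, F.eq_iff (mul_lt ha hb) (mul_lt hc hd)]

theorem conj_eq {a b c : ℕ} (ha : a < 1920) (hb : b < 1920) (hc : c < 1920) :
    φ a * φ b * (φ a)⁻¹ = φ c ↔ Mod.mul a b = Mod.mul c a := by
  rw [mul_inv_eq_iff_eq_mul, F.mul_eq ha hb hc ha]

theorem pow_eq_one {a : ℕ} (ha : a < 1920) (k : ℕ) : φ a ^ k = 1 ↔ pw a k = 0 := by
  rw [← F.pow ha, F.eq_one (pw_lt ha k)]

theorem sq_eq_one {a : ℕ} (ha : a < 1920) : φ a * φ a = 1 ↔ Mod.mul a a = 0 := by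
  rw [← F.mul a ha a ha, F.eq_one (mul_lt ha ha)]

theorem memC {a : ℕ} (ha : a < 1920) : φ a ∈ Cz z := (F.mem _).2 ⟨a, ha, rfl⟩

theorem inv_iff {a : ℕ} (ha : a < 1920) : φ a ∈ Inv G ↔ a ∈ li := by
  rw [mem_Inv, f_li a ha, F.sq_eq_one ha, Ne, F.eq_one ha]

theorem zI : z ∈ Inv G := by
  rw [← F.one, F.inv_iff (by norm_num)]; decide +kernel

theorem hz_iff {a : ℕ} (ha : a < 1920) : z ∈ Subgroup.zpowers (φ a) ↔ hz a = true := by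
  rw [f_hz a ha]
  constructor
  · intro h
    obtain ⟨_, h2⟩ := inv_mem_zpowers F.zI h
    refine ⟨orderOf (φ a) / 2, ?_, by rw [← F.eq_z (pw_lt ha _), F.pow ha, ← h2]⟩
    rcases f_ord a ha with h | h | h <;>
      have := Nat.le_of_dvd (by norm_num) (orderOf_dvd_of_pow_eq_one ((F.pow_eq_one ha _).2 h)) <;> omega
  · rintro ⟨k, _, hk⟩
    rw [← F.eq_z (pw_lt ha _), F.pow ha] at hk
    rw [← hk]; exact Subgroup.npow_mem_zpowers _ _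

theorem card1 (P : G → Prop) [DecidablePred P] (q : ℕ → Prop) [DecidablePred q] (h1 : ∀ g, P g → g ∈ Cz z)
    (h2 : ∀ a < 1920, (q a ↔ P (φ a))) : (univ.filter P).card = ((range 1920).filter q).card := by
  refine (card_bij (fun a _ => φ a) ?_ ?_ ?_).symm
  · intro a ha
    obtain ⟨h3, h4⟩ := mem_filter.1 ha
    exact mem_filter.2 ⟨mem_univ _, (h2 a (mem_range.1 h3)).1 h4⟩
  · intro a ha b hb h
    exact F.inj a (mem_range.1 (mem_filter.1 ha).1) b (mem_range.1 (mem_filter.1 hb).1) h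
  · intro g hg
    have h3 := (mem_filter.1 hg).2
    obtain ⟨a, ha, rfl⟩ := (F.mem g).1 (h1 g h3)
    exact ⟨a, mem_filter.2 ⟨mem_range.2 ha, (h2 a ha).2 h3⟩, rfl⟩

theorem card2 (P : G × G → Prop) [DecidablePred P] (q : ℕ → ℕ → Bool)
    (h1 : ∀ p, P p → z ∈ Subgroup.zpowers (p.1 * p.2))
    (h2 : ∀ a < 1920, ∀ b < 1920, (q a b = true ↔ P (φ a, φ b))) :
    ((Inv G ×ˢ Inv G).filter P).card = (li.map fun a => li.countP fun b => q a b).sum := by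
  have e : (li.map fun a => li.countP fun b => q a b).sum =
      ((li.toFinset ×ˢ li.toFinset).filter fun p : ℕ × ℕ => q p.1 p.2 = true).card := by
    rw [← List.sum_toFinset _ li_nd, card_filter, sum_product]
    refine sum_congr rfl fun a _ => ?_
    rw [← card_filter, List.countP_eq_length_filter, ← List.toFinset_card_of_nodup (li_nd.filter _),
      List.toFinset_filter]
  rw [e]
  refine (card_bij (fun a _ => (φ a.1, φ a.2)) ?_ ?_ ?_).symm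
  · rintro ⟨a, b⟩ hp
    simp only [mem_filter, mem_product, List.mem_toFinset] at hp ⊢
    obtain ⟨⟨ha, hb⟩, h⟩ := hp
    exact ⟨⟨(F.inv_iff (li_lt a ha)).2 ha, (F.inv_iff (li_lt b hb)).2 hb⟩,
      (h2 a (li_lt a ha) b (li_lt b hb)).1 h⟩
  · rintro ⟨a, b⟩ hp ⟨c, d⟩ hq h
    simp only [mem_filter, mem_product, List.mem_toFinset, Prod.mk.injEq] at hp hq h ⊢
    exact ⟨F.inj _ (li_lt _ hp.1.1) _ (li_lt _ hq.1.1) h.1, F.inj _ (li_lt _ hp.1.2) _ (li_lt _ hq.1.2) h.2⟩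
  · rintro ⟨s, t⟩ hp
    simp only [mem_filter, mem_product] at hp
    obtain ⟨⟨hs, ht⟩, h⟩ := hp
    obtain ⟨k1, k2⟩ := pair_mem_Cz F.zI hs ht (h1 _ h)
    obtain ⟨a, ha, rfl⟩ := (F.mem s).1 k1
    obtain ⟨b, hb, rfl⟩ := (F.mem t).1 k2
    refine ⟨(a, b), ?_, rfl⟩
    simp only [mem_filter, mem_product, List.mem_toFinset]
    exact ⟨⟨(F.inv_iff ha).1 hs, (F.inv_iff hb).1 ht⟩, (h2 a ha b hb).2 h⟩

theorem hf : HF z (φ xc) (φ uc) (φ sc) (φ suc) (φ tc) := by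
  obtain ⟨m1, m2, m3, m4, m5, m6, m7, m8, m9, m10, m11, m12, m13, m14, m15, m16, m17, m18, m19, m20, m21⟩ :=
    f_misc
  have xi_eq : (φ xc)⁻¹ = φ xi := by
    rw [inv_eq_iff_mul_eq_one, mul_eq_one_comm, ← F.mul _ m2 _ m1, m10, F.zero]
  have lcx_iff : ∀ a < 1920, (a ∈ lcx ↔ φ a ∈ Cz (φ xc)) := fun a ha => by
    rw [f_lcx a ha, mem_Cz, F.mul_eq ha m1 m1 ha]
  have lox_iff : ∀ a < 1920, (a ∈ lox ↔ φ a * φ xc * (φ a)⁻¹ = (φ xc)⁻¹) := fun a ha => by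
    rw [f_lox a ha, xi_eq, F.conj_eq ha m1 m2]
  have lv_iff : ∀ a < 1920, (a ∈ lv ↔ φ a ∈ Cz z ⊓ Cz (φ sc)) := fun a ha => by
    rw [f_lv a ha, Subgroup.mem_inf, mem_Cz (y := φ sc), F.mul_eq ha m5 m5 ha]
    simp [F.memC ha]
  have u2_eq : φ uc * φ uc = φ u2 := by rw [m13, F.mul _ m3 _ m3]
  haveI : Fact (Nat.Prime 3) := ⟨Nat.prime_three⟩
  haveI : Fact (Nat.Prime 5) := ⟨Nat.prime_five⟩
  have V2 : ∀ v ∈ Cz z ⊓ Cz (φ sc), v * v = 1 := by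
    intro v hv
    obtain ⟨a, ha, rfl⟩ := (F.mem v).1 hv.1
    exact (F.sq_eq_one ha).2 (f_v2 a ((lv_iff a ha).2 hv))
  refine ⟨F.zI, ?_, ?_, ?_, orderOf_eq_prime ((F.pow_eq_one m1 _).2 m8) (fun h => m9 ((F.eq_one m1).1 h)),
    F.memC m1, orderOf_eq_prime ((F.pow_eq_one m3 _).2 m11) (fun h => m12 ((F.eq_one m3).1 h)), F.memC m3,
    ?_, ?_, ?_, ?_, ?_, ?_, ?_, ?_, ?_, V2, F.memC m5, ?_, ?_, ?_, ?_,
    mem_Inv.2 ⟨(F.sq_eq_one m6).2 m14, fun h => m15 ((F.eq_one m6).1 h)⟩, F.memC m6, ?_, ?_,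
    mem_Inv.2 ⟨(F.sq_eq_one m7).2 m17, fun h => m18 ((F.eq_one m7).1 h)⟩, F.memC m7,
    (lox_iff _ m7).1 m19, ?_, ?_⟩
  · rw [← card_fs, fs, F.card1 _ (fun _ => True) (fun _ h => h) (fun a ha => by simp [F.memC ha])]
    simp
  · rw [J3T.n1, F.card1 _ (fun c => hz c = true) (fun _ h => mem_Cz_of_zpowers h)
      (fun a ha => (F.hz_iff ha).symm), f_n1]
  · rw [J3T.n2, F.card2 _ (fun a b => hz (Mod.mul a b)) (fun _ h => h) (fun a ha b hb => by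
      simp only; rw [← F.mul a ha b hb, F.hz_iff (mul_lt ha hb)]), f_n2]
  · intro g hg ho
    obtain ⟨a, ha, rfl⟩ := (F.mem g).1 hg
    have key : ∀ m n : ℕ, φ a ^ (2 ^ m * n) = 1 → φ a ^ n = 1 := fun m n h => by
      rw [← orderOf_dvd_iff_pow_eq_one] at h ⊢
      exact (Nat.Coprime.pow_right m (Nat.coprime_two_right.2 ho)).dvd_of_dvd_mul_left h
    rcases f_ord a ha with h | h | h <;> rw [← F.pow_eq_one ha] at h
    · left
      have := key 3 1 h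
      rw [pow_one] at this; rw [this, one_pow]
    · exact Or.inr (key 1 5 h)
    · exact Or.inl (key 2 3 h)
  · intro g hg ho
    obtain ⟨a, ha, rfl⟩ := (F.mem g).1 hg
    obtain ⟨w1, w2, -, -⟩ := f_wt a ha
    rcases w2 ((F.pow_eq_one ha _).1 (by rw [← ho, pow_orderOf_eq_one])) with rfl | h
    · rw [F.zero] at ho; simp at ho
    · exact ⟨_, F.memC w1, (F.conj_eq w1 ha m1).2 h⟩
  · intro g hg ho
    obtain ⟨a, ha, rfl⟩ := (F.mem g).1 hg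
    obtain ⟨w1, -, w2, -⟩ := f_wt a ha
    rcases w2 ((F.pow_eq_one ha _).1 (by rw [← ho, pow_orderOf_eq_one])) with rfl | h | h
    · rw [F.zero] at ho; simp at ho
    · exact ⟨_, F.memC w1, Or.inl ((F.conj_eq w1 ha m3).2 h)⟩
    · exact ⟨_, F.memC w1, Or.inr (u2_eq ▸ (F.conj_eq w1 ha m4).2 h)⟩
  · rw [← card_fs, fs, F.card1 _ (fun c => c ∈ lcx) (fun _ h => h.1) (fun a ha => by
      rw [lcx_iff a ha]; simp [F.memC ha]), f_c24]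
  · rw [F.card1 _ (fun c => c ∈ lcx ∧ hz c = true) (fun _ h => mem_Cz_of_zpowers h.2) (fun a ha => by
      rw [lcx_iff a ha, F.hz_iff ha]), f_c9]
  · rw [F.card2 _ (fun a b => a ∈ lcx ∧ b ∈ lcx ∧ hz (Mod.mul a b)) (fun _ h => h.2.2) (fun a ha b hb => by
      simp only [decide_eq_true_eq]
      rw [← F.mul a ha b hb, F.hz_iff (mul_lt ha hb), lcx_iff a ha, lcx_iff b hb]), f_c12]
  · rw [F.card2 _ (fun a b => a ∈ lcx ∧ b ∈ lox ∧ hz (Mod.mul a b)) (fun _ h => h.2.2) (fun a ha b hb => by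
      simp only [decide_eq_true_eq]
      rw [← F.mul a ha b hb, F.hz_iff (mul_lt ha hb), lcx_iff a ha, lox_iff b hb]), f_c48]
  · obtain ⟨c, h1, h2, h3, h4, h5⟩ := m20
    exact ⟨φ c, mem_Inv.2 ⟨(F.sq_eq_one h2).2 h3, fun h => h4 ((F.eq_one h2).1 h)⟩,
      fun h => h5 ((F.eq_z h2).1 h), F.memC h2, (lcx_iff c h2).1 h1⟩
  · rw [← card_fs, fs, F.card1 _ (fun c => c ∈ lv) (fun _ h => h.1) lv_iff, f_v16]
  · intro V hV h16 h2
    have : ∃ a < 1920, φ a ∈ V ∧ 32 ≤ a := by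
      by_contra hn
      push Not at hn
      have hsub : fs V ⊆ ((range 32).filter fun c => Mod.mul c c = 0).image φ := by
        intro v hv
        have hv' := mem_fs.1 hv
        obtain ⟨a, ha, rfl⟩ := (F.mem v).1 (hV hv')
        exact mem_image.2 ⟨a, mem_filter.2 ⟨mem_range.2 (hn a ha hv'), (F.sq_eq_one ha).1 (h2 _ hv')⟩, rfl⟩
      have := (card_le_card hsub).trans card_image_le
      rw [card_fs, h16, f_e12] at this
      omega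
    obtain ⟨a, ha, haV, h32⟩ := this
    obtain ⟨w1, -, -, w2⟩ := f_wt a ha
    rcases w2 ((F.sq_eq_one ha).1 (h2 _ haV)) with h | h
    · omega
    · refine ⟨_, F.memC w1, fun v hv => ⟨(Cz z).mul_mem ((Cz z).mul_mem (F.memC w1) (hV hv))
        ((Cz z).inv_mem (F.memC w1)), ?_⟩⟩
      rw [← (F.conj_eq w1 ha m5).2 h]
      exact (mem_Cz_conj _).2 (mem_Cz.2 (comm_of_inverts (D := V) (t := 1) (by simp)
        (fun d hd => by simpa using eq_inv_of_mul_eq_one_left (h2 d hd)) hv haV))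
  · rw [← card_fs, fs, F.card1 _ (fun c => ∀ v ∈ lv, ∃ w ∈ lv, Mod.mul c v = Mod.mul w c) (fun _ h => h.1)
      (fun a ha => ?_), f_nv]
    rw [Subgroup.mem_inf, mem_normalizer_iff']
    simp only [F.memC ha, true_and]
    constructor
    · intro h v hv
      obtain ⟨b, hb, rfl⟩ := (F.mem v).1 hv.1
      obtain ⟨w, hw, e⟩ := h b ((lv_iff b hb).2 hv)
      rw [(F.conj_eq ha hb (lv_lt w hw)).2 e]
      exact (lv_iff w (lv_lt w hw)).1 hw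
    · intro h v hv
      have h3 := h _ ((lv_iff v (lv_lt v hv)).1 hv)
      obtain ⟨w, hw, e⟩ := (F.mem _).1 h3.1
      exact ⟨w, (lv_iff w hw).2 (e ▸ h3), (F.conj_eq ha (lv_lt v hv) hw).1 e.symm⟩
  · intro g hg hu
    obtain ⟨a, ha, rfl⟩ := (F.mem g).1 hg
    obtain ⟨k, _, h | h⟩ := (f_u a ha).1 ((F.mul_eq ha m3 m3 ha).1 (mem_Cz.1 hu))
    · exact ⟨k, Or.inl (by rw [h, F.pow m3])⟩
    · exact ⟨k, Or.inr (by rw [h, F.mul _ (pw_lt m3 _) _ (by norm_num), F.pow m3, F.one])⟩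
  · intro g hg hu
    obtain ⟨a, ha, rfl⟩ := (F.mem g).1 hg
    rw [u2_eq, F.conj_eq ha m3 m4] at hu
    exact (f_u a ha).2 hu
  · rw [eq_inv_iff_mul_eq_one, ← F.mul _ m6 _ m3, ← F.mul _ (mul_lt m6 m3) _ m6,
      ← F.mul _ (mul_lt (mul_lt m6 m3) m6) _ m3, m16, F.zero]
  · intro g hg h
    obtain ⟨a, ha, rfl⟩ := (F.mem g).1 hg
    rcases f_ox a ((lox_iff a ha).2 h) with h | h
    · exact Or.inl ((F.sq_eq_one ha).2 h)
    · exact Or.inr (by rw [← F.pow ha, h, F.one])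
  · intro g hg h h2
    obtain ⟨a, ha, rfl⟩ := (F.mem g).1 hg
    obtain ⟨⟨p, hp, rfl⟩, k2⟩ := f_ot a ((lox_iff a ha).2 h) ((F.sq_eq_one ha).1 h2)
    obtain ⟨k3, k4, k5⟩ := f_wo p hp
    refine ⟨⟨_, F.memC k3, (lcx_iff _ k3).1 k4, (F.conj_eq k3 ha m7).2 k5⟩, fun d hd h3 h4 => ?_⟩
    obtain ⟨b, hb, rfl⟩ := (F.mem d).1 hd
    rcases k2 b ((lcx_iff b hb).2 h3) ((F.mul_eq hb ha ha hb).1 (mem_Cz.1 h4)) with rfl | rfl
    · exact Or.inl F.zero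
    · exact Or.inr F.one
  · intro Y hY hx σ hσ h1 h2 y hy h3
    obtain ⟨a, ha, rfl⟩ := (F.mem σ).1 (hY hσ)
    obtain ⟨b, hb, rfl⟩ := (F.mem y).1 (hY hy)
    have fin : ∀ c < 1920, isI c = true → φ c ∈ Y → ∃ s ∈ Y, s ∈ Inv G ∧ s ≠ z := by
      intro c hc hi hY
      simp only [isI, Bool.and_eq_true, beq_iff_eq, bne_iff_ne] at hi
      exact ⟨_, hY, mem_Inv.2 ⟨(F.sq_eq_one hc).2 hi.1.1, fun h => hi.1.2 ((F.eq_one hc).1 h)⟩,
        fun h => hi.2 ((F.eq_z hc).1 h)⟩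
    rcases f_h7 a ((lox_iff a ha).2 h1) with h | h
    · exact absurd ((F.sq_eq_one ha).2 h) h2
    rcases f_l3 b hb ((F.pow_eq_one hb _).1 h3) with rfl | h4
    · left; rw [F.zero]; exact Subgroup.one_mem _
    rcases h b h4 with rfl | rfl | h | h | h | h
    · left; exact Subgroup.mem_zpowers _
    · left; rw [← xi_eq]; exact Subgroup.inv_mem _ (Subgroup.mem_zpowers _)
    · refine Or.inr (fin _ (pw_lt (mul_lt (mul_lt hb ha) ha) _) h ?_)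
      rw [F.pow (mul_lt (mul_lt hb ha) ha), F.mul _ (mul_lt hb ha) _ ha, F.mul _ hb _ ha]
      exact Y.pow_mem (Y.mul_mem (Y.mul_mem hy hσ) hσ) _
    · refine Or.inr (fin _ (mul_lt (mul_lt (mul_lt (mul_lt m1 m1) hb) m1) hb) h ?_)
      rw [F.mul _ (mul_lt (mul_lt (mul_lt m1 m1) hb) m1) _ hb, F.mul _ (mul_lt (mul_lt m1 m1) hb) _ m1,
        F.mul _ (mul_lt m1 m1) _ hb, F.mul _ m1 _ m1]
      exact Y.mul_mem (Y.mul_mem (Y.mul_mem (Y.mul_mem hx hx) hy) hx) hy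
    · refine Or.inr (fin _ (pw_lt (mul_lt hb ha) _) h ?_)
      rw [F.pow (mul_lt hb ha), F.mul _ hb _ ha]
      exact Y.pow_mem (Y.mul_mem hy hσ) _
    · refine Or.inr (fin _ (pw_lt (mul_lt (mul_lt m1 hb) ha) _) h ?_)
      rw [F.pow (mul_lt (mul_lt m1 hb) ha), F.mul _ (mul_lt m1 hb) _ ha, F.mul _ m1 _ hb]
      exact Y.pow_mem (Y.mul_mem (Y.mul_mem hx hy) hσ) _

end Phi
end
end Cfsg.Agent.J3T
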