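import Cfsg.Agent.Lib.J3T.Cnt
import Cfsg.Agent.Lib.J3T.Model

/-! Identification of the involution centralizer with the computable model. -/

set_option autoImplicit false
set_option linter.unusedSectionVars false
open Finset Classical

namespace Cfsg.Agent.J3T
noncomputable section
open Mod
variable {Y : Type*} [Group Y] [Fintype Y]

structure Rel (z : Y) (e : ℕ → Y) (E A : Subgroup Y) : Prop where
  zz : z * z = 1
  z1 : z ≠ 1
  zc : ∀ g, g * z = z * g
  zE : z ∈ E
  eE : ∀ i < 5, e i ∈ E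
  ee : ∀ i < 5, e i * e i = 1
  anti : ∀ i < 5, ∀ j < 5, i ≠ j → e i * e j = z * (e j * e i)
  prod : e 0 * e 1 * e 2 * e 3 * e 4 = 1
  act : ∀ a ∈ A, ∀ i < 5, ∃ j < 5, a * e i * a⁻¹ = e j
  faith : ∀ a ∈ A, (∀ x ∈ E, a * x = x * a) → a = 1
  cE : Nat.card E = 32
  cA : Nat.card A = 60
  cY : Nat.card Y = 1920
  sur : ∀ g, ∃ x ∈ E, ∃ a ∈ A, x * a = g

def ww (z : Y) (e : ℕ → Y) (s a b c d : ℕ) : Y := z ^ s * (e 0 ^ a * (e 1 ^ b * (e 2 ^ c * e 3 ^ d)))
def eps (z : Y) (e : ℕ → Y) (c : ℕ) : Y := ww z e (c % 2) (c / 2 % 2) (c / 4 % 2) (c / 8 % 2) (c / 16 % 2)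

theorem te_lt (a b : ℕ) : te a b < 32 := Nat.mod_lt _ (by norm_num)
theorem ta_lt (a b : ℕ) : ta a b < 32 := Nat.mod_lt _ (by norm_num)
theorem mul_lt {a b : ℕ} (ha : a < 1920) (hb : b < 1920) : mul a b < 1920 := by
  have h1 := te_lt (a % 32) (ta (a / 32) (b % 32))
  have h2 := tp_lt (a / 32) (by omega) (b / 32) (by omega)
  unfold mul; omega
theorem pw_lt {a : ℕ} (ha : a < 1920) : ∀ k, pw a k < 1920
  | 0 => by simp [pw]
  | k + 1 => mul_lt (pw_lt ha k) ha

theorem pow_mod_two {g : Y} (h : g * g = 1) (n : ℕ) : g ^ (n % 2) = g ^ n := by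
  conv_rhs => rw [← Nat.mod_add_div n 2, pow_add, pow_mul, pow_two, h, one_pow, mul_one]

namespace Rel
variable {z : Y} {e : ℕ → Y} {E A : Subgroup Y} (R : Rel z e E A)
include R

theorem zc' (g : Y) (k : ℕ) (x : Y) : g * (z ^ k * x) = z ^ k * (g * x) := by
  rw [← mul_assoc, ← mul_assoc, ((Commute.pow_right (R.zc g) k)).eq]

theorem sw {i j : ℕ} (hi : i < 5) (hj : j < 5) (hij : i ≠ j) (m n : ℕ) (x : Y) :
    e i ^ m * (e j ^ n * x) = z ^ (m * n) * (e j ^ n * (e i ^ m * x)) := by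
  have h1 : ∀ n : ℕ, ∀ x, e i * (e j ^ n * x) = z ^ n * (e j ^ n * (e i * x)) := by
    intro n
    induction n with
    | zero => simp
    | succ n ih =>
      intro x
      rw [pow_succ (e j), mul_assoc, ih, ← mul_assoc (e i), R.anti i hi j hj hij]
      have := R.zc' (e j ^ n) 1 (e j * e i * x)
      simp only [pow_one, mul_assoc] at this
      simp only [mul_assoc, this, pow_succ]
  induction m generalizing x with
  | zero => simp
  | succ m ih =>
    rw [pow_succ (e i), mul_assoc, h1, R.zc', ih, ← mul_assoc, ← pow_add, ← mul_assoc (e i ^ m), ← pow_succ]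
    congr 2; ring

theorem ww_mul (s a b c d s' a' b' c' d' : ℕ) :
    ww z e s a b c d * ww z e s' a' b' c' d' =
      ww z e (s + s' + (b * a' + c * (a' + b') + d * (a' + b' + c'))) (a + a') (b + b') (c + c') (d + d') := by
  have pa : ∀ (g : Y) (m n : ℕ) (x : Y), g ^ m * (g ^ n * x) = g ^ (m + n) * x := fun g m n x => by
    rw [← mul_assoc, pow_add]
  have h10 := R.sw (i := 1) (j := 0) (by norm_num) (by norm_num) (by norm_num)
  have h20 := R.sw (i := 2) (j := 0) (by norm_num) (by norm_num) (by norm_num)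
  have h30 := R.sw (i := 3) (j := 0) (by norm_num) (by norm_num) (by norm_num)
  have h21 := R.sw (i := 2) (j := 1) (by norm_num) (by norm_num) (by norm_num)
  have h31 := R.sw (i := 3) (j := 1) (by norm_num) (by norm_num) (by norm_num)
  have h32 := R.sw (i := 3) (j := 2) (by norm_num) (by norm_num) (by norm_num)
  have z0 := fun k => R.zc' (e 0 ^ k)
  have z1 := fun k => R.zc' (e 1 ^ k)
  have z2 := fun k => R.zc' (e 2 ^ k)
  have z3 := fun k => R.zc' (e 3 ^ k)
  unfold ww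
  simp only [mul_assoc]
  rw [z3, z2, z1, z0, h30, z2, z1, z0, h20, z1, z0, h10, z0, h31, z2, z1, z0, z0, h21, z1, z0, z0, h32,
    z2, z1, z1, z0, z0]
  simp only [pa, ← pow_add]
  congr 2; ring

theorem ww_mod (s a b c d : ℕ) : ww z e (s % 2) (a % 2) (b % 2) (c % 2) (d % 2) = ww z e s a b c d := by
  unfold ww
  rw [pow_mod_two R.zz, pow_mod_two (R.ee 0 (by norm_num)), pow_mod_two (R.ee 1 (by norm_num)),
    pow_mod_two (R.ee 2 (by norm_num)), pow_mod_two (R.ee 3 (by norm_num))]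

theorem eps_te {a b : ℕ} (ha : a < 32) (hb : b < 32) : eps z e (te a b) = eps z e a * eps z e b := by
  rw [te_eq a ha b hb]
  have key : ∀ s p q r t : ℕ, eps z e (s % 2 + 2 * (p % 2) + 4 * (q % 2) + 8 * (r % 2) + 16 * (t % 2)) =
      ww z e s p q r t := by
    intro s p q r t
    rw [← R.ww_mod s]
    unfold eps
    generalize hn : s % 2 + 2 * (p % 2) + 4 * (q % 2) + 8 * (r % 2) + 16 * (t % 2) = n
    rw [show n % 2 = s % 2 by omega, show n / 2 % 2 = p % 2 by omega, show n / 4 % 2 = q % 2 by omega,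
      show n / 8 % 2 = r % 2 by omega, show n / 16 % 2 = t % 2 by omega]
  rw [mulE, key, eps, eps, R.ww_mul]

omit R in
theorem eps_zero : eps z e 0 = 1 := by simp [eps, ww]
omit R in
theorem eps_one : eps z e 1 = z := by simp [eps, ww]

theorem eps_gen {i : ℕ} (hi : i < 5) : eps z e (gen i) = e i := by
  interval_cases i
  · simp [eps, ww, gen]
  · simp [eps, ww, gen]
  · simp [eps, ww, gen]
  · simp [eps, ww, gen]
  · have h := R.prod
    have h4 := R.ee 4 (by norm_num)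
    have : e 4 = e 0 * e 1 * e 2 * e 3 := by
      calc e 4 = e 0 * e 1 * e 2 * e 3 * e 4 * e 4 := by rw [h, one_mul]
        _ = _ := by rw [mul_assoc, h4, mul_one]
    simp [eps, ww, gen, this, mul_assoc]

omit R in
theorem gen_lt {i : ℕ} (hi : i < 5) : gen i < 32 := by interval_cases i <;> decide

theorem eps_ker {c : ℕ} (hc : c < 32) (h : eps z e c = 1) : c = 0 := by
  rcases e_cent c hc with h0 | rfl | ⟨i, hi, h2⟩
  · exact h0
  · exact absurd (eps_one.symm.trans h) R.z1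
  · exfalso
    have hg := gen_lt (i := i) (by omega)
    have := congrArg (eps z e) h2
    rw [R.eps_te hg hc, R.eps_te (by norm_num) (te_lt _ _), R.eps_te hc hg, h, eps_one] at this
    apply R.z1; simpa using this

theorem eps_inj {a b : ℕ} (ha : a < 32) (hb : b < 32) (h : eps z e a = eps z e b) : a = b := by
  have k1 : ∀ a < 32, te (te a (te a a)) a = 0 := by decide +kernel
  have k2 : ∀ a < 32, ∀ b < 32, te (te a (te a a)) b = 0 → a = b := by decide +kernel
  refine k2 a ha b hb (R.eps_ker (te_lt _ _) ?_)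
  rw [R.eps_te (te_lt _ _) hb, ← h, ← R.eps_te (te_lt _ _) ha, k1 a ha, eps_zero]

theorem eps_mem (c : ℕ) : eps z e c ∈ E :=
  E.mul_mem (E.pow_mem R.zE _) (E.mul_mem (E.pow_mem (R.eE 0 (by norm_num)) _)
    (E.mul_mem (E.pow_mem (R.eE 1 (by norm_num)) _) (E.mul_mem (E.pow_mem (R.eE 2 (by norm_num)) _)
      (E.pow_mem (R.eE 3 (by norm_num)) _))))

theorem eps_sur {x : Y} (hx : x ∈ E) : ∃ c < 32, eps z e c = x := by
  obtain ⟨c, hc, h⟩ := surj_on_of_inj_on_of_card_le (s := range 32) (t := fs E) (fun c _ => eps z e c)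
    (fun c _ => mem_fs.2 (R.eps_mem c))
    (fun a b ha hb h => R.eps_inj (mem_range.1 ha) (mem_range.1 hb) h)
    (by rw [card_fs, R.cE, card_range]) x (mem_fs.2 hx)
  exact ⟨c, mem_range.1 hc, h.symm⟩

theorem faith' {a : Y} (ha : a ∈ A) (h : ∀ i < 5, a * e i * a⁻¹ = e i) : a = 1 := by
  refine R.faith a ha fun x hx => ?_
  obtain ⟨c, _, rfl⟩ := R.eps_sur hx
  have hc : ∀ i < 5, Commute a (e i) := fun i hi => mem_Cz.1 (mem_Cz'.2 (h i hi))
  exact ((Commute.pow_right (R.zc a) _).mul_right (((hc 0 (by norm_num)).pow_right _).mul_right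
    (((hc 1 (by norm_num)).pow_right _).mul_right (((hc 2 (by norm_num)).pow_right _).mul_right
      ((hc 3 (by norm_num)).pow_right _))))).eq

theorem uniq {a b : Y} (ha : a ∈ A) (hb : b ∈ A) (h : ∀ i < 5, a * e i * a⁻¹ = b * e i * b⁻¹) : a = b := by
  have := R.faith' (A.mul_mem (A.inv_mem hb) ha) fun i hi => by
    calc b⁻¹ * a * e i * (b⁻¹ * a)⁻¹ = b⁻¹ * (a * e i * a⁻¹) * b := by group
      _ = e i := by rw [h i hi]; group
  exact (inv_mul_eq_one.1 this).symm

theorem e_ne {i j : ℕ} (hi : i < 5) (hj : j < 5) (hij : i ≠ j) : e i ≠ e j := by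
  intro h
  have := R.anti i hi j hj hij
  rw [h] at this
  exact R.z1 (by simpa using this)

theorem ex_k {a : Y} (ha : a ∈ A) : ∃ k < 60, ∀ i < 5, a * e i * a⁻¹ = e (perm k i) := by
  obtain ⟨j0, h0, e0⟩ := R.act a ha 0 (by norm_num)
  obtain ⟨j1, h1, e1⟩ := R.act a ha 1 (by norm_num)
  obtain ⟨j2, h2, e2⟩ := R.act a ha 2 (by norm_num)
  obtain ⟨j3, h3, e3⟩ := R.act a ha 3 (by norm_num)
  obtain ⟨j4, h4, e4⟩ := R.act a ha 4 (by norm_num)
  have ne : ∀ {i i' j j' : ℕ}, i < 5 → i' < 5 → i ≠ i' → a * e i * a⁻¹ = e j → a * e i' * a⁻¹ = e j' →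
      j ≠ j' := by
    rintro i i' j j' hi hi' hii h h' rfl
    exact R.e_ne hi hi' hii (by simpa using h.trans h'.symm)
  obtain ⟨k, hk, p0, p1, p2, p3, p4⟩ := perm_ex j0 h0 j1 h1 j2 h2 j3 h3 j4 h4
    ⟨ne (by norm_num) (by norm_num) (by norm_num) e0 e1, ne (by norm_num) (by norm_num) (by norm_num) e0 e2,
      ne (by norm_num) (by norm_num) (by norm_num) e0 e3, ne (by norm_num) (by norm_num) (by norm_num) e0 e4,
      ne (by norm_num) (by norm_num) (by norm_num) e1 e2, ne (by norm_num) (by norm_num) (by norm_num) e1 e3,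
      ne (by norm_num) (by norm_num) (by norm_num) e1 e4, ne (by norm_num) (by norm_num) (by norm_num) e2 e3,
      ne (by norm_num) (by norm_num) (by norm_num) e2 e4, ne (by norm_num) (by norm_num) (by norm_num) e3 e4⟩
    (R.eps_ker (te_lt _ _) (by
      rw [R.eps_te (te_lt _ _) (gen_lt h4), R.eps_te (te_lt _ _) (gen_lt h3),
        R.eps_te (te_lt _ _) (gen_lt h2), R.eps_te (gen_lt h0) (gen_lt h1), R.eps_gen h0, R.eps_gen h1,
        R.eps_gen h2, R.eps_gen h3, R.eps_gen h4, ← e0, ← e1, ← e2, ← e3, ← e4]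
      calc _ = a * (e 0 * e 1 * e 2 * e 3 * e 4) * a⁻¹ := by group
        _ = 1 := by rw [R.prod]; simp))
  refine ⟨k, hk, fun i hi => ?_⟩
  interval_cases i
  · rw [p0, e0]
  · rw [p1, e1]
  · rw [p2, e2]
  · rw [p3, e3]
  · rw [p4, e4]

theorem ex_a : ∀ k < 60, ∃ a ∈ A, ∀ i < 5, a * e i * a⁻¹ = e (perm k i) := by
  intro k hk
  obtain ⟨a, ha, h⟩ := surj_on_of_inj_on_of_card_le (s := fs A) (t := range 60)
    (fun a ha => (R.ex_k (mem_fs.1 ha)).choose)
    (fun a ha => mem_range.2 (R.ex_k (mem_fs.1 ha)).choose_spec.1)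
    (fun a b ha hb h => R.uniq (mem_fs.1 ha) (mem_fs.1 hb) fun i hi => by
      rw [(R.ex_k (mem_fs.1 ha)).choose_spec.2 i hi, (R.ex_k (mem_fs.1 hb)).choose_spec.2 i hi]
      rw [h])
    (by rw [card_fs, R.cA, card_range]) k (mem_range.2 hk)
  refine ⟨a, mem_fs.1 ha, ?_⟩
  rw [h]; exact (R.ex_k (mem_fs.1 ha)).choose_spec.2

theorem conj_eps {a : Y} {k : ℕ} (hk : k < 60) (h : ∀ i < 5, a * e i * a⁻¹ = e (perm k i)) {c : ℕ}
    (hc : c < 32) : a * eps z e c * a⁻¹ = eps z e (ta k c) := by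
  have hg : ∀ j < 5, ∀ b, gp j (b % 2) < 32 ∧ eps z e (gp j (b % 2)) = e j ^ (b % 2) := by
    intro j hj b
    unfold gp
    rcases Nat.mod_two_eq_zero_or_one b with h | h <;> rw [h]
    · simp [eps_zero]
    · simp [gen_lt hj, R.eps_gen hj]
  have p := perm_lt k hk
  have hz : eps z e (c % 2) = z ^ (c % 2) := by
    rcases Nat.mod_two_eq_zero_or_one c with h | h <;> rw [h]
    · simp [eps_zero]
    · simp [eps_one]
  rw [ta_eq k hk c hc, Mod.act, R.eps_te (te_lt _ _) (hg _ (p 3 (by norm_num)) _).1,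
    R.eps_te (te_lt _ _) (hg _ (p 2 (by norm_num)) _).1, R.eps_te (te_lt _ _) (hg _ (p 1 (by norm_num)) _).1,
    R.eps_te (by omega) (hg _ (p 0 (by norm_num)) _).1, (hg _ (p 0 (by norm_num)) _).2,
    (hg _ (p 1 (by norm_num)) _).2, (hg _ (p 2 (by norm_num)) _).2, (hg _ (p 3 (by norm_num)) _).2, hz,
    ← h 0 (by norm_num), ← h 1 (by norm_num), ← h 2 (by norm_num), ← h 3 (by norm_num)]
  simp only [conj_pow, eps, ww]
  rw [R.zc']; group

theorem exists_phi : ∃ φ : ℕ → Y, φ 1 = z ∧ (∀ a < 1920, ∀ b < 1920, φ (mul a b) = φ a * φ b) ∧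
    (∀ a < 1920, ∀ b < 1920, φ a = φ b → a = b) ∧ ∀ g, ∃ a < 1920, φ a = g := by
  choose! α hα1 hα2 using R.ex_a
  have hmul : ∀ k < 60, ∀ l < 60, α (tp k l) = α k * α l := by
    intro k hk l hl
    refine R.uniq (hα1 _ (tp_lt k hk l hl)) (A.mul_mem (hα1 k hk) (hα1 l hl)) fun i hi => ?_
    rw [hα2 _ (tp_lt k hk l hl) i hi, tp_perm k hk l hl i hi, ← hα2 k hk _ (perm_lt l hl i hi),
      ← hα2 l hl i hi]
    group
  have h0 : α 0 = 1 := by
    have := hmul 0 (by norm_num) 0 (by norm_num)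
    rw [show tp 0 0 = 0 by decide +kernel] at this
    simpa using this
  have hs : ∀ g, ∃ a < 1920, eps z e (a % 32) * α (a / 32) = g := by
    intro g
    obtain ⟨x, hx, a, ha, rfl⟩ := R.sur g
    obtain ⟨c, hc, rfl⟩ := R.eps_sur hx
    obtain ⟨k, hk, h⟩ := R.ex_k ha
    have : α k = a := R.uniq (hα1 k hk) ha fun i hi => by rw [h i hi, hα2 k hk i hi]
    refine ⟨c + 32 * k, by omega, ?_⟩
    rw [show (c + 32 * k) % 32 = c by omega, show (c + 32 * k) / 32 = k by omega, this]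
  refine ⟨fun a => eps z e (a % 32) * α (a / 32), by simp [eps_one, h0], ?_, ?_, hs⟩
  · intro a ha b hb
    have h1 := te_lt (a % 32) (ta (a / 32) (b % 32))
    have h2 : mul a b % 32 = te (a % 32) (ta (a / 32) (b % 32)) := by unfold mul; omega
    have h3 : mul a b / 32 = tp (a / 32) (b / 32) := by unfold mul; omega
    simp only
    rw [h2, h3, hmul _ (by omega) _ (by omega), R.eps_te (by omega) (ta_lt _ _),
      ← R.conj_eps (by omega) (hα2 (a / 32) (by omega)) (by omega)]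
    group
  · intro a ha b hb h
    refine inj_on_of_surj_on_of_card_le (s := range 1920) (t := univ)
      (fun a _ => eps z e (a % 32) * α (a / 32)) (fun _ _ => mem_univ _) (fun g _ => ?_) ?_
      (mem_range.2 ha) (mem_range.2 hb) h
    · obtain ⟨a, ha, h⟩ := hs g
      exact ⟨a, mem_range.2 ha, h⟩
    · rw [card_univ, ← Nat.card_eq_fintype_card, R.cY, card_range]

end Rel
end
end Cfsg.Agent.J3T
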