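import Cfsg.Agent.Lib.J3T.Cnt

/-! Groups whose involution centralizers are dihedral of order 8, of order divisible by 15. -/

set_option autoImplicit false
set_option linter.unusedSectionVars false
open Finset Classical

namespace Cfsg.Agent.J3T
noncomputable section
variable {X : Type*} [Group X] [Fintype X]

theorem real_cent {y s : X} (hs : s ∈ Inv X) (h : s * y * s = y⁻¹)
    (hc : ∀ c ∈ Cz y, c ≠ 1 → Odd (Nat.card (Cz c)) ∧ Cz c ⊓ Cz s = ⊥) (hy : y ≠ 1) :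
    (∀ c ∈ Cz y, s * c * s = c⁻¹) ∧ ∀ c ∈ Cz y, c ≠ 1 → Cz c = Cz y := by
  have hss := (mem_Inv.1 hs).1
  have key : ∀ c ∈ Cz y, c ≠ 1 → s * c * s = c⁻¹ → ∀ d ∈ Cz c, s * d * s = d⁻¹ := fun c h1 h2 h3 =>
    fpf_inverts (hc c h1 h2).1 hs (fun d hd => norm_Cz_of_inverts hss h3 hd) (hc c h1 h2).2
  have k1 := key y (self_mem_Cz y) hy h
  refine ⟨k1, fun c h1 h2 => le_antisymm (fun d hd => ?_) (fun d hd => ?_)⟩
  · exact mem_Cz.2 (comm_of_inverts hss (key c h1 h2 (k1 c h1)) hd (mem_Cz_comm.1 h1))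
  · exact mem_Cz.2 (comm_of_inverts hss k1 hd h1)

theorem card_normalizer_inverted {A : Subgroup X} (hA : Odd (Nat.card A)) {s : X} (hs : s ∈ Inv X)
    (hi : ∀ a ∈ A, s * a * s = a⁻¹) (hC : ∀ g : X, (∀ a ∈ A, g * a = a * g) → g ∈ A) :
    Nat.card A * Nat.card ↥(Subgroup.normalizer (A : Set X) ⊓ Cz s) =
      Nat.card (Subgroup.normalizer (A : Set X)) := by
  rw [← orbit_card (Subgroup.normalizer (A : Set X)) s, ← card_fs]; congr 1
  have hss := (mem_Inv.1 hs).1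
  refine card_bij (fun d _ => d * s) ?_ (fun a _ b _ e => by simpa using e) ?_
  · intro d hd
    have hd1 := mem_fs.1 hd
    have e : d * s * s = d := by rw [mul_assoc, hss, mul_one]
    have h2 : d * s * (d * s) = 1 := by
      calc d * s * (d * s) = d * (s * d * s) := by group
        _ = 1 := by rw [hi d hd1, mul_inv_cancel]
    obtain ⟨k, hk⟩ := odd_conj h2 hss (by rw [e]; exact odd_order_of_mem hA hd1)
    rw [e] at hk
    exact mem_cls1.2 ⟨_, Subgroup.le_normalizer (A.pow_mem hd1 k), hk⟩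
  · intro v hv
    obtain ⟨n, hn, rfl⟩ := mem_cls1.1 hv
    refine ⟨n * s * n⁻¹ * s, mem_fs.2 (hC _ fun a ha => ?_), by rw [mul_assoc, hss, mul_one]⟩
    have h3 : n⁻¹ * a⁻¹ * n⁻¹⁻¹ ∈ A :=
      mem_normalizer_iff'.1 ((Subgroup.normalizer (A : Set X)).inv_mem hn) _ (A.inv_mem ha)
    have h4 := hi _ h3
    have h5 : s * a = a⁻¹ * s := by rw [← hi a ha, mul_assoc, hss, mul_one]
    calc n * s * n⁻¹ * s * a = n * s * n⁻¹ * a⁻¹ * s := by rw [mul_assoc _ s a, h5]; group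
      _ = n * (s * (n⁻¹ * a⁻¹ * n⁻¹⁻¹) * s) * (s * s)⁻¹ * s * n⁻¹ * s := by group
      _ = _ := by rw [h4, hss]; group

theorem dvd_class_card {y : X} {N : ℕ} (hN : N ∣ Nat.card X) (hc : Nat.Coprime N (Nat.card (Cz y))) :
    N ∣ (cls ⊤ {y}).card := by
  rw [← class_card y] at hN
  exact hc.dvd_of_dvd_mul_right hN

/-- if the centralizer order of `y` is not prime to `|A|` then `y` is conjugate into `A` -/
theorem conj_into_of_not_coprime {A : Subgroup X} (hA : ∀ c ∈ A, c ≠ 1 → Cz c = A) {y : X}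
    (h : ¬ Nat.Coprime (Nat.card A) (Nat.card (Cz y))) : ∃ g : X, g * y * g⁻¹ ∈ A := by
  rw [Nat.coprime_iff_gcd_eq_one, Nat.eq_one_iff_not_exists_prime_dvd] at h
  push Not at h
  obtain ⟨q, hq, hd⟩ := h
  obtain ⟨c, hc, hco⟩ := exists_order_of_dvd hq (hd.trans (Nat.gcd_dvd_right _ _))
  have hi : ¬ q ∣ A.index := fun h2 =>
    hq.one_lt.ne' (Nat.eq_one_of_dvd_coprimes (hall_of_selfcent hA) (hd.trans (Nat.gcd_dvd_left _ _)) h2)
  obtain ⟨g, hg⟩ := conj_into hq hi (c := c) (k := 1) (by rw [pow_one, ← hco, pow_orderOf_eq_one])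
  refine ⟨g, ?_⟩
  have hc1 : g * c * g⁻¹ ≠ 1 := by
    intro e
    have : c = 1 := by simpa using e
    rw [this, orderOf_one] at hco; exact hq.one_lt.ne hco
  rw [← hA _ hg hc1, mem_Cz_conj, mem_Cz_comm]; exact hc

theorem lk_arith (a m e c k : ℕ) (ha : 3 ≤ a) (he : e = 2 ∨ e = 4) (h15 : 15 ∣ a * m)
    (h1 : c * (a * e) = 8 * (a * m) * (a - 1)) (h2 : 5 * (a * m) = 1 + c + 8 * a * k)
    (h3 : a * m * (a * m) ≤ a * m * 13 + a * (5 * (a * m) - 1)) :
    a = 9 ∧ m = 5 ∧ e = 4 := by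
  obtain ⟨b, rfl⟩ : ∃ b, a = b + 1 := ⟨a - 1, by omega⟩
  simp only [Nat.add_sub_cancel] at h1
  have hm0 : 0 < m := by
    rcases Nat.eq_zero_or_pos m with rfl | h
    · omega
    · exact h
  have h4 : c * e = 8 * m * b := by
    apply Nat.eq_of_mul_eq_mul_left (show 0 < b + 1 by omega); linarith
  have h5 : (b + 1) * m < 13 + 5 * (b + 1) := by
    have hp : 0 < (b + 1) * m := by positivity
    have : (b + 1) * m * ((b + 1) * m) < (b + 1) * m * (13 + 5 * (b + 1)) := by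
      have : (b + 1) * (5 * ((b + 1) * m) - 1) < (b + 1) * (5 * ((b + 1) * m)) :=
        Nat.mul_lt_mul_of_pos_left (by omega) (by omega)
      nlinarith
    exact Nat.lt_of_mul_lt_mul_left this
  have hm : m ≤ 9 := by nlinarith
  rcases he with rfl | rfl
  · have hc : c = 4 * m * b := by linarith
    subst hc
    have hd : (b + 1) ∣ 4 * m - 1 := by
      have : 4 * m - 1 + (b + 1) * m = (b + 1) * (8 * k) := by
        have : 1 ≤ 4 * m := by omega
        zify [this] at h2 ⊢; linarith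
      exact (Nat.dvd_add_left (Dvd.intro _ rfl)).1 (this ▸ Dvd.intro _ rfl)
    have hb : b + 1 ≤ 35 := (Nat.le_of_dvd (by omega) hd).trans (by omega)
    have hb' : b ≤ 34 := by omega
    interval_cases m <;> interval_cases b <;> omega
  · have hc : c = 2 * m * b := by linarith
    subst hc
    have hd : (b + 1) ∣ 2 * m - 1 := by
      have : 2 * m - 1 + (b + 1) * (3 * m) = (b + 1) * (8 * k) := by
        have : 1 ≤ 2 * m := by omega
        zify [this] at h2 ⊢; linarith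
      exact (Nat.dvd_add_left (Dvd.intro _ rfl)).1 (this ▸ Dvd.intro _ rfl)
    have hb : b + 1 ≤ 35 := (Nat.le_of_dvd (by omega) hd).trans (by omega)
    have hb' : b ≤ 34 := by omega
    interval_cases m <;> interval_cases b <;> omega

theorem lemmaK {z : X} (hz : z ∈ Inv X) (h1 : ∀ s ∈ Inv X, ∃ g : X, g * s * g⁻¹ = z)
    (h8 : Nat.card (Cz z) = 8) (hn1 : n1 z = 3) (hn2 : n2 z = 12)
    (hs : ∃ s ∈ Inv X, s ≠ z ∧ s ∈ Cz z) (h15 : 15 ∣ Nat.card X) :
    Nat.card X = 360 ∧ ∃ A : Subgroup X, Nat.card A = 9 ∧ (∀ c ∈ A, z * c * z = c⁻¹) ∧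
      (∀ c ∈ A, c ≠ 1 → Cz c = A) ∧ Nat.card (Subgroup.normalizer (A : Set X)) = 36 ∧
      ∀ y : X, Odd (orderOf y) → (∃ g : X, g * y * g⁻¹ ∈ A) ∨ Nat.card (Cz y) = 5 := by
  have hodd : ∀ y : X, Odd (orderOf y) → ∀ s ∈ Inv X, y ∈ Cz s → y = 1 := by
    intro y hy s hs hys
    obtain ⟨g, rfl⟩ := h1 s hs
    have h2 := Subgroup.orderOf_dvd_natCard _ ((mem_Cz_conj g).2 hys)
    rw [h8, orderOf_conj'] at h2
    rw [← orderOf_eq_one_iff]
    exact Nat.eq_one_of_dvd_coprimes (Nat.Coprime.pow_right 3 (Nat.coprime_two_right.2 hy)) dvd_rfl h2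
  have hCo : ∀ y : X, Odd (orderOf y) → y ≠ 1 → Odd (Nat.card (Cz y)) := fun y hy hy1 =>
    odd_card_of_no_inv fun s hs h => hy1 (hodd y hy s hs (mem_Cz_comm.1 h))
  have hbot : ∀ y : X, Odd (orderOf y) → y ≠ 1 → ∀ s ∈ Inv X, Cz y ⊓ Cz s = ⊥ := by
    intro y hy hy1 s hs
    rw [eq_bot_iff]; intro c hc
    exact hodd c (odd_order_of_mem (hCo y hy hy1) hc.1) s hs hc.2
  have e1 := card_Inv hz h1
  have e2 := class_eq h1
  have e3 := pair_eq h1
  rw [h8] at e1; rw [hn1] at e2; rw [hn2] at e3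
  set j := (Inv X).card with hj
  have hO1 : (1 : X) ∈ Od X := by simp
  rw [← add_sum_erase _ _ hO1, ninv_one, ← hj] at e3
  have hOc : ((Od X).erase 1).card = 5 * j - 1 := by rw [card_erase_of_mem hO1]; omega
  have hXp : 0 < Nat.card X := Nat.card_pos
  have hj15 : 15 ∣ j := by
    rw [← e1] at h15; exact (by norm_num : Nat.Coprime 15 8).dvd_of_dvd_mul_right h15
  have hj0 : 15 ≤ j := Nat.le_of_dvd (by omega) hj15
  have hR : (((Od X).erase 1).filter fun y => ninv y ≠ 0).Nonempty := by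
    by_contra h
    rw [not_nonempty_iff_eq_empty, filter_eq_empty_iff] at h
    rw [sum_eq_zero (fun y hy => by simpa using h hy)] at e3
    nlinarith
  obtain ⟨y1, hy1, hmax⟩ := exists_max_image _ (fun y : X => Nat.card (Cz y)) hR
  obtain ⟨hy1a, hy1b⟩ := mem_filter.1 hy1
  obtain ⟨s1, hs1, hs1y⟩ := ninv_pos hy1b
  obtain ⟨g, hg⟩ := h1 s1 hs1
  set y0 := g * y1 * g⁻¹ with hy0
  have hy0o : Odd (orderOf y0) := by rw [hy0, orderOf_conj']; exact mem_Od.1 (mem_erase.1 hy1a).2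
  have hy01 : y0 ≠ 1 := fun e => (mem_erase.1 hy1a).1 (by simpa [hy0] using e)
  have hzy : z * y0 * z = y0⁻¹ := by
    rw [← hg, hy0]
    calc g * s1 * g⁻¹ * (g * y1 * g⁻¹) * (g * s1 * g⁻¹) = g * (s1 * y1 * s1) * g⁻¹ := by group
      _ = _ := by rw [hs1y]; group
  obtain ⟨hA1, hA2⟩ := real_cent hz hzy (fun c hc hc1 =>
    ⟨hCo c (odd_order_of_mem (hCo y0 hy0o hy01) hc) hc1,
      hbot c (odd_order_of_mem (hCo y0 hy0o hy01) hc) hc1 z hz⟩) hy01
  set A := Cz y0 with hAdef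
  have hAo : Odd (Nat.card A) := hCo y0 hy0o hy01
  set a := Nat.card A with ha
  have hbound : ∑ y ∈ (Od X).erase 1, ninv y ≤ a * (5 * j - 1) := by
    rw [← hOc, mul_comm, ← smul_eq_mul]
    refine sum_le_card_nsmul _ _ _ fun y hy => ?_
    by_cases h0 : ninv y = 0
    · omega
    · obtain ⟨s, hs, hsy⟩ := ninv_pos h0
      have ho := mem_Od.1 (mem_erase.1 hy).2
      have := ninv_mul (hCo y ho (mem_erase.1 hy).1) hs hsy
      rw [hbot y ho (mem_erase.1 hy).1 s hs, Subgroup.card_bot, mul_one] at this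
      rw [this, ha, hAdef, hy0, card_Cz_conj]
      exact hmax y (mem_filter.2 ⟨hy, h0⟩)
  have haj : a ∣ j := by
    have : a ∣ j * 8 := e1 ▸ Subgroup.card_subgroup_dvd_card A
    exact (Nat.Coprime.pow_right 3 (Nat.coprime_two_right.2 hAo)).dvd_of_dvd_mul_right this
  obtain ⟨m, hm⟩ := haj
  have ha3 : 3 ≤ a := by
    have : 1 < a := by
      rw [ha, Finite.one_lt_card_iff_nontrivial]
      exact ⟨⟨⟨y0, self_mem_Cz y0⟩, 1, fun h => hy01 (congrArg Subtype.val h)⟩⟩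
    obtain ⟨k, hk⟩ := hAo; omega
  have hzz := (mem_Inv.1 hz).1
  have hN := card_normalizer_inverted hAo hz hA1 (fun g hg => mem_Cz.2 (hg y0 (self_mem_Cz y0)))
  set e := Nat.card ↥(Subgroup.normalizer (A : Set X) ⊓ Cz z) with he
  have hzN : z ∈ Subgroup.normalizer (A : Set X) := mem_normalizer_iff'.2 fun c hc => by
    rw [Inv.inv hz, hA1 c hc]; exact A.inv_mem hc
  have he24 : e = 2 ∨ e = 4 := by
    have hd : e ∣ 8 := h8 ▸ Subgroup.card_dvd_of_le inf_le_right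
    have h2 : 2 ∣ e := by
      rw [← Inv.order hz]; exact Subgroup.orderOf_dvd_natCard _ ⟨hzN, self_mem_Cz z⟩
    have h3 : e ≠ 8 := by
      intro h
      have : Subgroup.normalizer (A : Set X) ⊓ Cz z = Cz z :=
        Subgroup.eq_of_le_of_card_ge inf_le_right (by rw [h8]; omega)
      obtain ⟨s, hs, hsz, hsc⟩ := hs
      have hsN : s ∈ Subgroup.normalizer (A : Set X) := (this.ge hsc).1
      have hss := (mem_Inv.1 hs).1
      have hsA : ∀ c ∈ A, s * c * s ∈ A := fun c hc => by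
        have := mem_normalizer_iff'.1 hsN c hc
        rwa [Inv.inv hs] at this
      have h5 := fpf_inverts hAo hs hsA (hbot y0 hy0o hy01 s hs) y0 (self_mem_Cz y0)
      have hszI : s * z ∈ Inv X := by
        refine mem_Inv.2 ⟨?_, fun h => hsz ?_⟩
        · calc s * z * (s * z) = s * (z * s) * z := by group
            _ = s * s * (z * z) := by rw [← mem_Cz.1 hsc]; group
            _ = 1 := by rw [hss, hzz, one_mul]
        · rw [eq_inv_of_mul_eq_one_left h, Inv.inv hz]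
      refine hy01 (hodd y0 hy0o _ hszI (mem_Cz.2 ?_))
      have f1 : z * y0 = y0⁻¹ * z := by rw [← hzy, mul_assoc, hzz, mul_one]
      have f2 : s * y0⁻¹ = y0 * s := by rw [← h5, ← mul_assoc, ← mul_assoc, hss, one_mul]
      rw [mul_assoc s, f1, ← mul_assoc, ← mul_assoc, f2]
    have h4 : e ≤ 8 := Nat.le_of_dvd (by norm_num) hd
    interval_cases e <;> omega
  have hti := ti_card ⊤ _ le_top _ (ti_of_selfcent hA2)
  rw [← hN, Subgroup.card_top, card_erase_of_mem (mem_fs.2 A.one_mem), card_fs, ← ha, ← e1, hm] at hti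
  set Ψ := ((Od X).erase 1) \ cls ⊤ ((fs A).erase 1) with hΨ
  have hsub : cls ⊤ ((fs A).erase 1) ⊆ (Od X).erase 1 := by
    intro y hy
    obtain ⟨c, hc, h, _, rfl⟩ := mem_cls.1 hy
    refine mem_erase.2 ⟨fun e => (mem_erase.1 hc).1 (by simpa using e), mem_Od.2 ?_⟩
    rw [orderOf_conj']; exact odd_order_of_mem hAo (mem_fs.1 (mem_erase.1 hc).2)
  have hΨc := card_sdiff_add_card_eq_card hsub
  rw [← hΨ, hOc] at hΨc
  have hΨcop : ∀ y ∈ Ψ, Nat.Coprime (8 * a) (Nat.card (Cz y)) := by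
    intro y hy
    obtain ⟨h2, h3⟩ := mem_sdiff.1 hy
    obtain ⟨h4, h5⟩ := mem_erase.1 h2
    refine Nat.Coprime.mul_left
      (Nat.Coprime.pow_left 3 (Nat.coprime_two_left.2 (hCo y (mem_Od.1 h5) h4))) ?_
    by_contra h6
    obtain ⟨g, hg⟩ := conj_into_of_not_coprime hA2 h6
    exact h3 (mem_cls.2 ⟨_, mem_erase.2 ⟨fun e => h4 (by simpa using e), mem_fs.2 hg⟩, g⁻¹, trivial,
      by group⟩)
  have hΨd : 8 * a ∣ Ψ.card := by
    refine dvd_card_of_orbits ⊤ Ψ _ ?_ fun y hy => dvd_class_card ?_ (hΨcop y hy)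
    · intro y hy h _
      obtain ⟨h2, h3⟩ := mem_sdiff.1 hy
      obtain ⟨h4, h5⟩ := mem_erase.1 h2
      refine mem_sdiff.2 ⟨mem_erase.2 ⟨fun e => h4 (by simpa using e), mem_Od.2 ?_⟩, fun h6 => h3 ?_⟩
      · rw [orderOf_conj']; exact mem_Od.1 h5
      · obtain ⟨c, hc, k, _, hk⟩ := mem_cls.1 h6
        exact mem_cls.2 ⟨c, hc, h⁻¹ * k, trivial, by
          calc h⁻¹ * k * c * (h⁻¹ * k)⁻¹ = h⁻¹ * (k * c * k⁻¹) * h := by group
            _ = y := by rw [hk]; group⟩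
    · rw [← e1, hm]; exact ⟨m, by ring⟩
  obtain ⟨k, hk⟩ := hΨd
  obtain ⟨r1, r2, r3⟩ := lk_arith a m e (cls ⊤ ((fs A).erase 1)).card k ha3 he24 (hm ▸ hj15)
    (by rw [hti]; ring) (by rw [← hm]; omega) (by rw [← hm]; omega)
  refine ⟨by rw [← e1, hm, r1, r2], A, r1, hA1, hA2, by rw [← hN, ← ha, r1, r3], fun y hy => ?_⟩
  by_cases hy1 : y = 1
  · exact Or.inl ⟨1, by simp [hy1]⟩
  by_cases hyc : y ∈ cls ⊤ ((fs A).erase 1)
  · obtain ⟨c, hc, h, _, rfl⟩ := mem_cls.1 hyc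
    exact Or.inl ⟨h⁻¹, by simpa [mul_assoc] using (mem_erase.1 hc).2⟩
  right
  have h2 := hΨcop y (mem_sdiff.2 ⟨mem_erase.2 ⟨hy1, mem_Od.2 hy⟩, hyc⟩)
  have h3 : Nat.card (Cz y) ∣ 8 * a * 5 := by
    have := Subgroup.card_subgroup_dvd_card (Cz y)
    rw [← e1, hm, r2] at this
    convert this using 1; ring
  have h4 := h2.symm.dvd_of_dvd_mul_left h3
  rcases (Nat.dvd_prime Nat.prime_five).1 h4 with h | h
  · exfalso
    have := Subgroup.orderOf_dvd_natCard _ (self_mem_Cz y)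
    rw [h, Nat.dvd_one, orderOf_eq_one_iff] at this
    exact hy1 this
  · exact h

end
end Cfsg.Agent.J3T
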