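import Cfsg.Agent.Lib.J3T.TW

/-! The normalizer of `T` and the centralizers of the elements of `W`. -/

set_option autoImplicit false
set_option linter.unusedSectionVars false
open Finset Classical

namespace Cfsg.Agent.J3T
noncomputable section
variable {G : Type*} [Group G] [Fintype G]

theorem card_mul_le {A B S : Subgroup G} (hA : A ≤ S) (hB : B ≤ S) :
    Nat.card A * Nat.card B ≤ Nat.card ↥(A ⊓ B) * Nat.card S := by
  rw [← card_fs, ← card_fs, ← card_fs, ← card_fs, ← card_product]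
  refine card_le_mul_card_image_of_maps_to (f := fun p : G × G => p.1 * p.2) ?_ _ fun y _ => ?_
  · rintro ⟨a, b⟩ hp
    obtain ⟨ha, hb⟩ := mem_product.1 hp
    exact mem_fs.2 (S.mul_mem (hA (mem_fs.1 ha)) (hB (mem_fs.1 hb)))
  · by_cases h0 : ((fs A ×ˢ fs B).filter fun p : G × G => p.1 * p.2 = y).Nonempty
    · obtain ⟨⟨a0, b0⟩, hp⟩ := h0
      obtain ⟨hp1, hp2⟩ := mem_filter.1 hp
      obtain ⟨ha0, hb0⟩ := mem_product.1 hp1
      refine card_le_card_of_injOn (fun p => a0⁻¹ * p.1) ?_ ?_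
      · rintro ⟨a, b⟩ hq
        obtain ⟨hq1, hq2⟩ := mem_filter.1 hq
        obtain ⟨ha, hb⟩ := mem_product.1 hq1
        refine mem_fs.2 ⟨A.mul_mem (A.inv_mem (mem_fs.1 ha0)) (mem_fs.1 ha), ?_⟩
        have : a0⁻¹ * a = b0 * b⁻¹ := by
          simp only at hp2 hq2
          calc a0⁻¹ * a = a0⁻¹ * (a * b) * b⁻¹ := by group
            _ = _ := by rw [hq2, ← hp2]; group
        simp only
        rw [this]; exact B.mul_mem (mem_fs.1 hb0) (B.inv_mem (mem_fs.1 hb))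
      · rintro ⟨a, b⟩ hq ⟨c, d⟩ hr e
        simp only [mul_right_inj] at e
        subst e
        have := (mem_filter.1 hq).2.trans (mem_filter.1 hr).2.symm
        simp only [mul_right_inj] at this
        rw [this]
    · rw [not_nonempty_iff_eq_empty.1 h0]; simp

theorem psub_conj_into {p : ℕ} [Fact p.Prime] {D B P : Subgroup G} (hB : B ≤ D) (hP : P ≤ D)
    (hp : IsPGroup p P) {k : ℕ} (hk : Nat.card B * k = Nat.card D) (hpk : ¬ p ∣ k) :
    ∃ g ∈ D, ∀ a ∈ P, g * a * g⁻¹ ∈ B := by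
  have hi : Nat.card (D ⧸ B.subgroupOf D) = k := by
    have := Subgroup.card_eq_card_quotient_mul_card_subgroup (B.subgroupOf D)
    rw [card_subgroupOf hB, ← hk, mul_comm] at this
    exact (Nat.eq_of_mul_eq_mul_right Nat.card_pos this).symm
  obtain ⟨w, hw⟩ := (hp.comap_of_injective D.subtype D.subtype_injective).nonempty_fixed_point_of_prime_not_dvd_card
    (D ⧸ B.subgroupOf D) (hi ▸ hpk)
  obtain ⟨g, rfl⟩ := QuotientGroup.mk_surjective w
  refine ⟨g⁻¹, D.inv_mem g.2, fun a ha => ?_⟩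
  have := hw ⟨⟨a, hP ha⟩, ha⟩
  change (((⟨a, hP ha⟩ * g : D)) : D ⧸ B.subgroupOf D) = g at this
  rw [QuotientGroup.eq] at this
  have h2 := B.inv_mem this
  simpa [mul_assoc] using h2

theorem eq_of_index_three {B S D : Subgroup G} (h1 : B < S) (h2 : S ≤ D) (h : Nat.card B * 3 = Nat.card D) :
    S = D := by
  obtain ⟨j, hj⟩ := Subgroup.card_dvd_of_le h1.le
  obtain ⟨k, hk⟩ := Subgroup.card_dvd_of_le h2
  have hlt := sub_card_lt h1
  have hp : 0 < Nat.card B := Nat.card_pos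
  refine Subgroup.eq_of_le_of_card_ge h2 ?_
  have e : j * k = 3 := Nat.eq_of_mul_eq_mul_left hp (by rw [h, hk, hj, mul_assoc])
  have : j ∣ 3 := ⟨k, e.symm⟩
  rcases (Nat.dvd_prime Nat.prime_three).1 this with rfl | rfl
  · omega
  · omega

theorem sigma_free {σ z : G} (h4 : σ ^ 4 = z) (ho : orderOf σ = 8) (hz : z ∈ Inv G) (hσz : σ ∈ Cz z)
    {D : Subgroup G} (hD : Odd (Nat.card D)) (hn : ∀ d ∈ D, σ * d * σ⁻¹ ∈ D) :
    ((fs D).filter fun d => z * d * z = d⁻¹).card % 8 = 1 := by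
  have h1 : (1 : G) ∈ (fs D).filter fun d => z * d * z = d⁻¹ := by simp [(mem_Inv.1 hz).1]
  have := free_zpowers σ z (((fs D).filter fun d => z * d * z = d⁻¹).erase 1) (fun a ha => by
    obtain ⟨k1, k2⟩ := mem_erase.1 ha
    obtain ⟨k3, k4⟩ := mem_filter.1 k2
    refine mem_erase.2 ⟨fun e => k1 (by simpa using e), mem_filter.2 ⟨mem_fs.2 (hn a (mem_fs.1 k3)), ?_⟩⟩
    have e : z * σ = σ * z := (mem_Cz.1 hσz).symm
    have e' : σ⁻¹ * z = z * σ⁻¹ := mem_Cz.1 ((Cz z).inv_mem hσz)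
    calc z * (σ * a * σ⁻¹) * z = (z * σ) * a * (σ⁻¹ * z) := by group
      _ = σ * (z * a * z) * σ⁻¹ := by rw [e, e']; group
      _ = _ := by rw [k4]; group) (z_mem_of_order8 h4 ho) (fun a ha e => by
    obtain ⟨k1, k2⟩ := mem_erase.1 ha
    obtain ⟨k3, k4⟩ := mem_filter.1 k2
    rw [e, mul_assoc, (mem_Inv.1 hz).1, mul_one] at k4
    exact not_mem_of_odd hD (mem_Inv.2 ⟨by nth_rewrite 1 [k4]; simp, k1⟩) (mem_fs.1 k3))
  rw [← card_erase_add_one h1]
  rw [ho] at this; omega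

namespace WD
variable {z x σ : G} {T W : Subgroup G} (E : WD z x σ T W)
include E

theorem WT : W ≤ T := fun w hw => ((E.memW w).1 hw).1

theorem Wz {w : G} (hw : w ∈ W) : z * w * z = w⁻¹ := ((E.memW w).1 hw).2

theorem W_order {w : G} (hw : w ∈ W) (h1 : w ≠ 1) : orderOf w = 3 :=
  order_of_pow_prime Nat.prime_three (E.exp3 w hw) h1

theorem σW {w : G} (hw : w ∈ W) : σ * w * σ⁻¹ ∈ W := (E.memW _).2 ⟨E.σT w (E.WT hw), by
  have e : z * σ = σ * z := (mem_Cz.1 E.σz).symm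
  have e' : σ⁻¹ * z = z * σ⁻¹ := mem_Cz.1 ((Cz z).inv_mem E.σz)
  calc z * (σ * w * σ⁻¹) * z = (z * σ) * w * (σ⁻¹ * z) := by group
    _ = σ * (z * w * z) * σ⁻¹ := by rw [e, e']; group
    _ = _ := by rw [E.Wz hw]; group⟩

theorem card_W1 : ((fs W).erase 1).card = 8 := by
  rw [card_erase_of_mem (mem_fs.2 W.one_mem), card_fs, E.cW]

end WD

namespace J3
variable {z x u s su τ : G} (J : J3 z x u s su τ) {σ : G} {T W : Subgroup G} (E : WD z x σ T W)
include J E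

theorem cj_of_T {c : G} (hc : c ∈ T) (hW : c ∉ W) : Cj x c := by
  obtain ⟨η, hη, w, hw, rfl⟩ := E.dec c hc
  rcases eq_of_order_three J.xo hη with rfl | rfl | rfl
  · exact absurd (by simpa using hw) hW
  · by_cases h1 : w = 1
    · rw [h1, mul_one]; exact Cj.refl _
    · exact (E.mixed w hw h1).1
  · by_cases h1 : w = 1
    · rw [h1, mul_one]; exact J.cjx_inv (Cj.refl _)
    · exact (E.mixed w hw h1).2

theorem W_not_x {w : G} (hw : w ∈ W) (h1 : w ≠ 1) : w ∉ Subgroup.zpowers x := fun h => by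
  have h2 := E.Wz hw
  rw [← mem_Cz.1 ((Subgroup.zpowers_le.2 J.xz) h), mul_assoc, (mem_Inv.1 J.zI).1, mul_one] at h2
  have := orderOf_dvd_of_pow_eq_one (show w ^ 2 = 1 by rw [pow_two]; nth_rewrite 1 [h2]; simp)
  rw [E.W_order hw h1] at this; omega

theorem card_M : ((fs T).filter (Cj x)).card * 108 = Nat.card (Subgroup.normalizer (T : Set G)) := by
  have h := orbit_card (Subgroup.normalizer (T : Set G)) x
  rw [inf_comm, E.cN] at h
  rw [← h]; congr 2; ext a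
  rw [mem_cls1, mem_filter, mem_fs]
  constructor
  · rintro ⟨ha, g, rfl⟩
    obtain ⟨c, hc, hc1⟩ : ∃ c ∈ T, c ∉ Subgroup.zpowers (g * x * g⁻¹) := by
      by_contra hh
      push Not at hh
      have := Subgroup.card_le_of_le (show T ≤ _ from hh)
      rw [E.cT, Nat.card_zpowers, orderOf_conj', J.xo] at this; omega
    have tr : ∀ t ∈ T, g⁻¹ * t * g⁻¹⁻¹ ∈ Cz x := fun t ht => by
      have := (mem_Cz_conj g⁻¹).2 (mem_Cz.2 (E.comm t ht _ ha))
      rwa [show g⁻¹ * (g * x * g⁻¹) * g⁻¹⁻¹ = x by group] at this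
    obtain ⟨l, hl, h2⟩ := E.into (tr c hc)
      ⟨3, by rw [orderOf_conj', show 3 ^ 3 = 27 by norm_num, ← E.cT]; exact Subgroup.orderOf_dvd_natCard T hc⟩
    have h3 : l * (g⁻¹ * c * g⁻¹⁻¹) * l⁻¹ ∉ Subgroup.zpowers x := fun h => hc1 (by
      simpa [mul_assoc] using
        conj_mem_zpowers g (conj_zpowers_pm (Or.inl (mem_Cz'.1 ((Cz x).inv_mem hl))) h))
    have hn : l * g⁻¹ ∈ Subgroup.normalizer (T : Set G) := mem_normalizer_iff'.2 fun t ht => by
      rw [← E.centT _ h2 h3, show l * g⁻¹ * t * (l * g⁻¹)⁻¹ = l * (g⁻¹ * t * g⁻¹⁻¹) * l⁻¹ by group]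
      exact ⟨(Cz x).mul_mem ((Cz x).mul_mem hl (tr t ht)) ((Cz x).inv_mem hl),
        (mem_Cz_conj l).2 ((mem_Cz_conj g⁻¹).2 (mem_Cz.2 (E.comm t ht c hc)))⟩
    refine ⟨(l * g⁻¹)⁻¹, Subgroup.inv_mem _ hn, ?_⟩
    calc _ = g * (l⁻¹ * x * l⁻¹⁻¹) * g⁻¹ := by group
      _ = _ := by rw [mem_Cz'.1 ((Cz x).inv_mem hl)]
  · rintro ⟨n, hn, rfl⟩
    exact ⟨mem_normalizer_iff'.1 hn x E.xT, n, rfl⟩

theorem W_not_cj {w : G} (hw : w ∈ W) : ¬ Cj x w := by
  intro h
  have hw1 : w ≠ 1 := by rintro rfl; have := h.order; rw [J.xo] at this; simp at this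
  have hM := J.card_M E
  have e : (fs T).filter (Cj x) = (fs T).erase 1 := by
    ext c; rw [mem_filter, mem_erase, and_comm]
    refine and_congr_left fun hc => ⟨fun h => by
      rintro rfl; have := h.order; rw [J.xo] at this; simp at this, fun h1 => ?_⟩
    by_cases hcW : c ∈ W
    · obtain ⟨k, -, rfl⟩ := E.trans w hw hw1 c hcW h1
      exact h.conj k
    · exact J.cj_of_T E (mem_fs.1 hc) hcW
  rw [e, card_erase_of_mem (mem_fs.2 T.one_mem), card_fs, E.cT] at hM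
  have hσM : σ ∈ Subgroup.normalizer (T : Set G) := mem_normalizer_iff'.2 E.σT
  obtain ⟨Q, hQ1, hQ2, hQ3⟩ := two_comp hσM (k := 3) (m := 351) (by norm_num) E.σo (by omega) (by decide)
  have hQo : Odd (Nat.card Q) := by rw [hQ2]; decide
  have hn : ∀ n ∈ Subgroup.normalizer (T : Set G), ∀ d ∈ Q, n * d * n⁻¹ ∈ Q := fun n hn d hd =>
    hQ3 _ (Subgroup.mul_mem _ (Subgroup.mul_mem _ hn (hQ1 hd)) (Subgroup.inv_mem _ hn))
      (by rw [orderOf_conj']; exact odd_order_of_mem hQo hd)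
  have h1 := inverted_card hQo J.zI (fun d hd => by
    have := hn z (E.σ4 ▸ Subgroup.pow_mem _ hσM 4) d hd
    rwa [Inv.inv J.zI] at this)
  have h2 := sigma_free E.σ4 E.σo J.zI E.σz hQo (hn σ hσM)
  have d1 : Nat.card ↥(Q ⊓ Cz z) ∣ 351 := hQ2 ▸ Subgroup.card_dvd_of_le inf_le_left
  have d2 : Nat.card ↥(Q ⊓ Cz z) ∣ 1920 := J.cH ▸ Subgroup.card_dvd_of_le inf_le_right
  have d3 : Nat.card ↥(Q ⊓ Cz z) ∣ 3 := by simpa using Nat.dvd_gcd d1 d2
  rw [hQ2] at h1
  rcases (Nat.dvd_prime Nat.prime_three).1 d3 with h | h <;> rw [h] at h1 <;> omega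

theorem ex_P : ∃ P : Subgroup G, Nat.card P = 243 ∧ x ∈ P ∧ ∀ w ∈ W, P ≤ Cz w := by
  have hM := J.card_M E
  have e : (fs T).filter (Cj x) = fs T \ fs W := by
    ext c; rw [mem_filter, mem_sdiff, mem_fs (S := W)]
    exact and_congr_right fun hc => ⟨fun h hW => J.W_not_cj E hW h, J.cj_of_T E (mem_fs.1 hc)⟩
  rw [e, card_sdiff_of_subset (fun a ha => mem_fs.2 (E.WT (mem_fs.1 ha))), card_fs, card_fs, E.cT,
    E.cW] at hM
  have hσM : σ ∈ Subgroup.normalizer (T : Set G) := mem_normalizer_iff'.2 E.σT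
  obtain ⟨Q, hQ1, hQ2, hQ3⟩ := two_comp hσM (k := 3) (m := 243) (by norm_num) E.σo (by omega) (by decide)
  refine ⟨Q, hQ2, hQ3 x (Subgroup.le_normalizer E.xT) (by rw [J.xo]; decide), fun w hw => ?_⟩
  by_cases hw1 : w = 1
  · intro a _; rw [hw1, mem_Cz]; simp
  have h := orbit_card (Subgroup.normalizer (T : Set G)) w
  have e2 : cls (Subgroup.normalizer (T : Set G)) {w} = (fs W).erase 1 := by
    ext a; rw [mem_cls1, mem_erase, mem_fs]
    constructor
    · rintro ⟨n, hn, rfl⟩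
      refine ⟨fun e => hw1 (by simpa using e), ?_⟩
      by_contra h2
      exact J.W_not_cj E hw (J.cj_of_T E (mem_normalizer_iff'.1 hn w (E.WT hw)) h2).of_conj
    · rintro ⟨h1, h2⟩
      obtain ⟨k, hk, rfl⟩ := E.trans w hw hw1 a h2 h1
      exact ⟨k, (Subgroup.zpowers_le.2 hσM) hk, rfl⟩
  rw [e2, E.card_W1] at h
  have h3 : Nat.card ↥(Subgroup.normalizer (T : Set G) ⊓ Cz w) = 243 := by omega
  have : Subgroup.normalizer (T : Set G) ⊓ Cz w = Q := Subgroup.eq_of_le_of_card_ge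
    (fun a ha => hQ3 a ha.1 (odd_order_of_mem (by rw [h3]; decide) ha)) (by rw [h3, hQ2])
  rw [← this]; exact inf_le_right

end J3
end
end Cfsg.Agent.J3T
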