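import Cfsg.Agent.Lib.J3T.Ext
import Cfsg.Agent.Lib.J3T.LK

/-! Sylow theory and transfer, stated for subgroups of an ambient group. -/

set_option autoImplicit false
set_option linter.unusedSectionVars false
open Finset Classical
open scoped Pointwise

namespace Cfsg.Agent.J3T
noncomputable section
variable {G : Type*} [Group G] [Fintype G]

theorem card_subgroupOf {T C : Subgroup G} (h : T ≤ C) : Nat.card (T.subgroupOf C) = Nat.card T :=
  Nat.card_congr (Subgroup.subgroupOfEquivOfLe h).toEquiv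

theorem card_map_subtype {C : Subgroup G} (K : Subgroup C) : Nat.card (K.map C.subtype) = Nat.card K :=
  Subgroup.card_map_of_injective C.subtype_injective

theorem exists_psub {p : ℕ} [Fact p.Prime] {C T : Subgroup G} (hT : T ≤ C) (hp : IsPGroup p T) :
    ∃ S : Subgroup G, T ≤ S ∧ S ≤ C ∧ IsPGroup p S ∧ Nat.card S = p ^ (Nat.card C).factorization p := by
  obtain ⟨P, hP⟩ := (hp.comap_of_injective C.subtype C.subtype_injective).exists_le_sylow
  refine ⟨(P : Subgroup C).map C.subtype, fun t ht => ⟨⟨t, hT ht⟩, hP ht, rfl⟩,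
    Subgroup.map_subtype_le _, P.isPGroup'.map _, ?_⟩
  rw [card_map_subtype, P.card_eq_multiplicity]

theorem exists_norm_of_lt {p : ℕ} [Fact p.Prime] {S T : Subgroup G} (hS : IsPGroup p S) (hT : T ≤ S)
    (hne : T ≠ S) : ∃ n ∈ S, n ∉ T ∧ ∀ t ∈ T, n * t * n⁻¹ ∈ T := by
  haveI := hS.isNilpotent
  have h1 : T.subgroupOf S < ⊤ := lt_top_iff_ne_top.2 fun h =>
    hne (le_antisymm hT (Subgroup.subgroupOf_eq_top.1 h))
  obtain ⟨n, hn1, hn2⟩ := SetLike.exists_of_lt (normalizerCondition_of_isNilpotent _ h1)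
  refine ⟨n, n.2, hn2, fun t ht => ?_⟩
  exact (Subgroup.mem_normalizer_iff.1 hn1 ⟨t, hT ht⟩).1 ht

theorem pelt_of_mem {p : ℕ} {S : Subgroup G} (hS : IsPGroup p S) {n : G} (hn : n ∈ S) :
    ∃ k, n ^ p ^ k = 1 := by
  obtain ⟨k, hk⟩ := hS ⟨n, hn⟩
  exact ⟨k, congrArg Subtype.val hk⟩

theorem sylow_of_norm {p : ℕ} [Fact p.Prime] {C T : Subgroup G} (hT : T ≤ C) (hp : IsPGroup p T)
    (h : ∀ n ∈ C, (∀ t ∈ T, n * t * n⁻¹ ∈ T) → (∃ k, n ^ p ^ k = 1) → n ∈ T) :
    Nat.card T = p ^ (Nat.card C).factorization p := by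
  obtain ⟨S, h1, h2, h3, h4⟩ := exists_psub hT hp
  by_cases e : T = S
  · rw [e, h4]
  · obtain ⟨n, hn, hn1, hn2⟩ := exists_norm_of_lt h3 h1 e
    exact absurd (h n (h2 hn) hn2 (pelt_of_mem h3 hn)) hn1

theorem burnside {p : ℕ} [Fact p.Prime] {C T : Subgroup G} (hT : T ≤ C) (hp : IsPGroup p T)
    (hc : ∀ a ∈ T, ∀ b ∈ T, a * b = b * a) (h : ∀ n ∈ C, (∀ t ∈ T, n * t * n⁻¹ ∈ T) → n ∈ T) :
    ∃ Q : Subgroup G, Q ≤ C ∧ (∀ c ∈ C, ∀ q ∈ Q, c * q * c⁻¹ ∈ Q) ∧ ¬ p ∣ Nat.card Q ∧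
      Nat.card Q * Nat.card T = Nat.card C := by
  have h1 := sylow_of_norm hT hp fun n hn h2 _ => h n hn h2
  let P : Sylow p C := Sylow.ofCard (T.subgroupOf C) (by rw [card_subgroupOf hT, h1])
  have hP : Subgroup.normalizer ((P : Subgroup C) : Set C) ≤ Subgroup.centralizer ((P : Subgroup C) : Set C) := by
    intro n hn t ht
    have hn' : (n : G) ∈ T := h n n.2 fun t ht => (Subgroup.mem_normalizer_iff.1 hn ⟨t, hT ht⟩).1 ht
    exact Subtype.ext (hc _ ht _ hn')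
  refine ⟨(MonoidHom.transferSylow P hP).ker.map C.subtype, Subgroup.map_subtype_le _, ?_, ?_, ?_⟩
  · rintro c hc _ ⟨q, hq, rfl⟩
    exact ⟨_, (MonoidHom.normal_ker _).conj_mem q hq ⟨c, hc⟩, rfl⟩
  · rw [card_map_subtype]; exact MonoidHom.not_dvd_card_ker_transferSylow P hP
  · rw [card_map_subtype, ← (MonoidHom.ker_transferSylow_isComplement' P hP).card_mul_card,
      ← card_subgroupOf hT]
    rfl

theorem two_comp {M : Subgroup G} {σ : G} (hσ : σ ∈ M) {k m : ℕ} (hk : 0 < k) (ho : orderOf σ = 2 ^ k)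
    (hM : Nat.card M = 2 ^ k * m) (hm : Odd m) :
    ∃ Q : Subgroup G, Q ≤ M ∧ Nat.card Q = m ∧ ∀ g ∈ M, Odd (orderOf g) → g ∈ Q := by
  haveI : Fact (Nat.Prime 2) := ⟨Nat.prime_two⟩
  have hT : Subgroup.zpowers σ ≤ M := Subgroup.zpowers_le.2 hσ
  have hm0 : m ≠ 0 := by rintro rfl; simp at hm
  have hf : (Nat.card M).factorization 2 = k := by
    rw [hM, Nat.factorization_mul (by positivity) hm0, Nat.Prime.factorization_pow Nat.prime_two]
    simp [Nat.factorization_eq_zero_of_not_dvd (fun h => (Nat.not_even_iff_odd.2 hm) (even_iff_two_dvd.2 h))]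
  have hc : Nat.card ((Subgroup.zpowers σ).subgroupOf M) = 2 ^ k := by
    rw [card_subgroupOf hT, Nat.card_zpowers, ho]
  let P : Sylow 2 M := Sylow.ofCard ((Subgroup.zpowers σ).subgroupOf M) (by rw [hc, hf])
  have hmin : (Nat.card M).minFac = 2 := by
    rw [Nat.minFac_eq_two_iff, hM]; exact Dvd.dvd.mul_right (dvd_pow_self 2 hk.ne') _
  have hcyc : IsCyclic P := isCyclic_of_surjective (Subgroup.subgroupOfEquivOfLe hT).symm
    (Subgroup.subgroupOfEquivOfLe hT).symm.surjective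
  have h := IsCyclic.isComplement' hmin hcyc
  refine ⟨_, Subgroup.map_subtype_le (MonoidHom.transferSylow P (hcyc.normalizer_le_centralizer hmin)).ker,
    ?_, fun g hg hodd => ⟨⟨g, hg⟩, ?_, rfl⟩⟩
  · have := h.card_mul_card
    rw [card_map_subtype]
    change _ * Nat.card ((Subgroup.zpowers σ).subgroupOf M) = _ at this
    rw [hc, hM, mul_comm] at this
    exact Nat.eq_of_mul_eq_mul_left (by positivity) this
  · change MonoidHom.transferSylow P _ ⟨g, hg⟩ = 1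
    rw [← orderOf_eq_one_iff]
    have h1 := orderOf_map_dvd (MonoidHom.transferSylow P (hcyc.normalizer_le_centralizer hmin)) ⟨g, hg⟩
    rw [show orderOf (⟨g, hg⟩ : M) = orderOf g from (Subgroup.orderOf_coe (⟨g, hg⟩ : M)).symm] at h1
    have h2 := orderOf_dvd_natCard
      (MonoidHom.transferSylow P (hcyc.normalizer_le_centralizer hmin) ⟨g, hg⟩)
    change _ ∣ Nat.card ((Subgroup.zpowers σ).subgroupOf M) at h2
    rw [hc] at h2
    exact Nat.eq_one_of_dvd_coprimes (Nat.Coprime.pow_right k (Nat.coprime_two_right.2 hodd)) h1 h2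

theorem inv_sylow {p : ℕ} [Fact p.Prime] {W Q : Subgroup G} (hW : IsPGroup p W)
    (hn : ∀ w ∈ W, ∀ g ∈ Q, w * g * w⁻¹ ∈ Q) (hQ : ¬ p ∣ Nat.card Q) (q : ℕ) [Fact q.Prime] :
    ∃ S : Subgroup G, S ≤ Q ∧ IsPGroup q S ∧ Nat.card S = q ^ (Nat.card Q).factorization q ∧
      ∀ w ∈ W, ∀ g ∈ S, w * g * w⁻¹ ∈ S := by
  have hle : W ≤ Subgroup.normalizer (Q : Set G) := fun w hw => mem_normalizer_iff'.2 (hn w hw)
  let f : W →* MulAut Q := Q.normalizerMonoidHom.comp (Subgroup.inclusion hle)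
  letI : MulAction W (Sylow q Q) := MulAction.compHom _ f
  have hnd : ¬ p ∣ Nat.card (Sylow q Q) := fun h =>
    hQ (h.trans ((Sylow.card_dvd_index default).trans (Subgroup.index_dvd_card _)))
  obtain ⟨P, hP⟩ := hW.nonempty_fixed_point_of_prime_not_dvd_card (Sylow q Q) hnd
  refine ⟨(P : Subgroup Q).map Q.subtype, Subgroup.map_subtype_le _, P.isPGroup'.map _,
    by rw [card_map_subtype, P.card_eq_multiplicity], ?_⟩
  rintro w hw _ ⟨g, hg, rfl⟩
  have h1 : f ⟨w, hw⟩ • P = P := hP ⟨w, hw⟩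
  have h2 : f ⟨w, hw⟩ • g ∈ (P : Subgroup Q) := by
    rw [← h1, Sylow.pointwise_smul_def]
    exact Subgroup.smul_mem_pointwise_smul _ _ _ hg
  exact ⟨_, h2, rfl⟩

theorem lines33 {A : Type*} [CommGroup A] {a b c d e f g h i : A} (h1 : a * b * c = 1) (h2 : d * e * f = 1)
    (h3 : g * h * i = 1) (h4 : a * d * g = 1) (h5 : a * e * i = 1) (h6 : a * f * h = 1) : a ^ 3 = 1 := by
  have : a ^ 3 = (a * d * g) * (a * e * i) * (a * f * h) * ((d * e * f) * (g * h * i))⁻¹ := by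
    apply Additive.ofMul.injective
    simp only [ofMul_mul, ofMul_pow, ofMul_inv]; abel
  rw [this, h2, h3, h4, h5, h6]; simp

theorem fpf33 {W Q : Subgroup G} (hW : Nat.card W = 9) (h3 : ∀ w ∈ W, w ^ 3 = 1)
    (hn : ∀ w ∈ W, ∀ g ∈ Q, w * g * w⁻¹ ∈ Q) (hQ : ¬ 3 ∣ Nat.card Q)
    (hf : ∀ w ∈ W, w ≠ 1 → ∀ g ∈ Q, g ∈ Cz w → g = 1) : Nat.card Q = 1 := by
  haveI : Fact (Nat.Prime 3) := ⟨Nat.prime_three⟩
  by_contra hne
  obtain ⟨q, hq, hqd⟩ := Nat.exists_prime_and_dvd hne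
  haveI : Fact q.Prime := ⟨hq⟩
  obtain ⟨S, hSQ, hS, hSc, hSn⟩ := inv_sylow (p := 3) (IsPGroup.of_card (n := 2) hW) hn hQ q
  haveI : Nontrivial S := by
    rw [← Finite.one_lt_card_iff_nontrivial, hSc]
    exact Nat.one_lt_pow (hq.factorization_pos_of_dvd Nat.card_pos.ne' hqd).ne' hq.one_lt
  haveI := hS.center_nontrivial
  obtain ⟨⟨⟨a, haS⟩, ha⟩, ha1⟩ := exists_ne (1 : Subgroup.center S)
  let Z : Subgroup G := S ⊓ Subgroup.centralizer (S : Set G)
  have haZ : a ∈ Z := ⟨haS, fun g hg => congrArg Subtype.val (Subgroup.mem_center_iff.1 ha ⟨g, hg⟩)⟩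
  have hZn : ∀ w ∈ W, ∀ g ∈ Z, w * g * w⁻¹ ∈ Z := fun w hw g hg => ⟨hSn w hw g hg.1, fun s hs => by
    have := hg.2 _ (hSn w⁻¹ (W.inv_mem hw) s hs)
    calc s * (w * g * w⁻¹) = w * (w⁻¹ * s * w⁻¹⁻¹ * g) * w⁻¹ := by group
      _ = _ := by rw [this]; group⟩
  letI : CommGroup Z := { (inferInstance : Group Z) with
    mul_comm := fun x y => Subtype.ext (y.2.2 x x.2.1) }
  have hcW : ∀ a ∈ W, ∀ b ∈ W, a * b = b * a := fun a ha b hb => congrArg Subtype.val
    ((IsPGroup.isMulCommutative_of_card_eq_prime_sq (p := 3) (G := W) hW).is_comm.comm ⟨a, ha⟩ ⟨b, hb⟩)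
  obtain ⟨w1, hw1, ho1⟩ := exists_order_of_dvd (D := W) Nat.prime_three (by rw [hW]; norm_num)
  obtain ⟨w2, hw2, hw21⟩ : ∃ w2 ∈ W, w2 ∉ Subgroup.zpowers w1 := by
    by_contra hh
    push Not at hh
    have := Subgroup.card_le_of_le (show W ≤ _ from hh)
    rw [hW, Nat.card_zpowers, ho1] at this; omega
  let c : W → Z → Z := fun w g => ⟨w * g * w⁻¹, hZn w w.2 g g.2⟩
  have line : ∀ w : W, (w : G) ≠ 1 → ∀ g : Z, g * c w g * c (w * w) g = 1 := by
    intro w hw g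
    apply Subtype.ext
    refine hf w w.2 hw _ (hSQ (g * c w g * c (w * w) g).2.1) ?_
    rw [mem_Cz_comm, mem_Cz']
    have e : (g * c w g * c (w * w) g) = c w g * c (w * w) g * g := by
      rw [mul_comm _ g, mul_assoc]
    have hw3 : (w : G) * w * w = 1 := by rw [← h3 w w.2]; simp [pow_succ]
    conv_rhs => rw [e]
    simp only [c, Subgroup.coe_mul, Subgroup.coe_inv]
    calc _ = (w : G) * g * (w : G)⁻¹ * ((w : G) * w * g * ((w : G) * w)⁻¹) *
        ((w : G) * w * w * g * ((w : G) * w * w)⁻¹) := by group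
      _ = _ := by rw [hw3]; group
  have cc : ∀ (v w : W) (g : Z), c v (c w g) = c (v * w) g := fun v w g => Subtype.ext (by
    simp only [c, Subgroup.coe_mul, Subgroup.coe_inv]; group)
  have hw11 : w1 ≠ 1 := by rintro rfl; simp at ho1
  have hw22 : w2 ≠ 1 := by rintro rfl; exact hw21 (Subgroup.one_mem _)
  set x : W := ⟨w1, hw1⟩
  set y : W := ⟨w2, hw2⟩
  have xy : y * x = x * y := Subtype.ext (hcW _ hw2 _ hw1)
  have x3 : x * x * x = 1 := Subtype.ext (by
    change w1 * w1 * w1 = 1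
    rw [← h3 w1 hw1]; simp [pow_succ])
  set g : Z := ⟨a, haZ⟩
  have l1 := line x hw11 g
  have l2 := line x hw11 (c y g)
  have l3 := line x hw11 (c (y * y) g)
  have l4 := line y hw22 g
  have l5 := line (x * y) (fun h => hw21 (by
    have : w2 = w1⁻¹ := eq_inv_of_mul_eq_one_right h
    rw [this]; exact Subgroup.inv_mem _ (Subgroup.mem_zpowers _))) g
  have l6 := line (x * x * y) (fun h => hw21 (by
    have : w2 = (w1 * w1)⁻¹ := eq_inv_of_mul_eq_one_right h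
    rw [this]; exact Subgroup.inv_mem _ (Subgroup.mul_mem _ (Subgroup.mem_zpowers _) (Subgroup.mem_zpowers _)))) g
  rw [cc, cc] at l2 l3
  have e5 : x * y * (x * y) = x * x * (y * y) := by
    rw [mul_assoc x y, ← mul_assoc y x, xy]; group
  have e6 : x * x * y * (x * x * y) = x * (y * y) := by
    calc x * x * y * (x * x * y) = x * x * (y * x) * x * y := by group
      _ = x * x * (x * y) * x * y := by rw [xy]
      _ = x * x * x * (y * x) * y := by simp only [mul_assoc]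
      _ = _ := by rw [xy, x3]; group
  rw [e5] at l5
  rw [e6] at l6
  have := lines33 l1 l2 l3 l4 l5 l6
  have h4 : a ^ 3 = 1 := congrArg Subtype.val this
  have h5 := orderOf_dvd_of_pow_eq_one h4
  rcases (Nat.dvd_prime Nat.prime_three).1 h5 with h | h
  · exact ha1 (Subtype.ext (Subtype.ext (orderOf_eq_one_iff.1 h)))
  · exact hQ (h ▸ Subgroup.orderOf_dvd_natCard Q (hSQ haS))

theorem comm_of_card9 {R : Subgroup G} (h : Nat.card R = 9) {a b : G} (ha : a ∈ R) (hb : b ∈ R) :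
    a * b = b * a :=
  haveI : Fact (Nat.Prime 3) := ⟨Nat.prime_three⟩
  congrArg Subtype.val
    ((IsPGroup.isMulCommutative_of_card_eq_prime_sq (p := 3) (G := R) h).is_comm.comm ⟨a, ha⟩ ⟨b, hb⟩)

end
end Cfsg.Agent.J3T
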