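import Cfsg.Agent.Lib.J3T.HF
import Cfsg.Agent.Lib.J3T.Syl

/-! The normalizer of the elementary abelian subgroup of order 16. -/

set_option autoImplicit false
set_option linter.unusedSectionVars false
open Finset Classical

namespace Cfsg.Agent.J3T
noncomputable section
variable {G : Type*} [Group G] [Fintype G]

theorem sub_card_lt {S T : Subgroup G} (h : S < T) : Nat.card S < Nat.card T := by
  refine lt_of_le_of_ne (Subgroup.card_le_of_le h.le) fun e => h.ne ?_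
  exact Subgroup.eq_of_le_of_card_ge h.le e.ge

/-- conjugacy -/
def Cj (x g : G) : Prop := ∃ h : G, h * x * h⁻¹ = g

theorem Cj.conj {x g : G} (h : Cj x g) (k : G) : Cj x (k * g * k⁻¹) := by
  obtain ⟨h, rfl⟩ := h; exact ⟨k * h, by group⟩

theorem Cj.of_conj {x g k : G} (h : Cj x (k * g * k⁻¹)) : Cj x g := by
  simpa [mul_assoc] using h.conj k⁻¹

theorem Cj.refl (x : G) : Cj x x := ⟨1, by simp⟩

theorem Cj.order {x g : G} (h : Cj x g) : orderOf g = orderOf x := by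
  obtain ⟨h, rfl⟩ := h; exact orderOf_conj' _ _

theorem Cj.card {x g : G} (h : Cj x g) : Nat.card (Cz g) = Nat.card (Cz x) := by
  obtain ⟨h, rfl⟩ := h; exact card_Cz_conj _ _

/-- conjugate subgroup -/
def cj (g : G) (S : Subgroup G) : Subgroup G := S.map (MulAut.conj g).toMonoidHom

theorem mem_cj {g a : G} {S : Subgroup G} : a ∈ cj g S ↔ g⁻¹ * a * g ∈ S := by
  constructor
  · rintro ⟨b, hb, rfl⟩; simpa [mul_assoc] using hb
  · intro h; exact ⟨_, h, by simp [mul_assoc]⟩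

theorem conj_mem_cj {g a : G} {S : Subgroup G} : g * a * g⁻¹ ∈ cj g S ↔ a ∈ S := by
  rw [mem_cj]; simp [mul_assoc]

theorem card_cj (g : G) (S : Subgroup G) : Nat.card (cj g S) = Nat.card S :=
  (sub_card_conj g fun _ => conj_mem_cj.symm).symm

theorem cj_Cz (g y : G) : cj g (Cz y) = Cz (g * y * g⁻¹) := by
  ext a; rw [mem_cj, ← mem_Cz_conj g]; simp [mul_assoc]

theorem eq_of_order_three {x y : G} (hx : orderOf x = 3) (h : y ∈ Subgroup.zpowers x) :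
    y = 1 ∨ y = x ∨ y = x⁻¹ := by
  obtain ⟨k, hk, rfl⟩ := exists_pow_of_mem_zpowers h
  rw [hx] at hk
  interval_cases k
  · simp
  · simp
  · right; right
    have := pow_orderOf_eq_one x
    rw [hx] at this
    rw [eq_inv_iff_mul_eq_one, ← pow_succ]; exact this

theorem order_of_pow_prime {g : G} {p : ℕ} (hp : p.Prime) (h : g ^ p = 1) (h1 : g ≠ 1) : orderOf g = p :=
  haveI : Fact p.Prime := ⟨hp⟩
  orderOf_eq_prime h h1

structure J3 (z x u s su τ : G) : Prop extends HF z x u s su τ where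
  one : ∀ t ∈ Inv G, ∃ g : G, g * t * g⁻¹ = z

namespace J3
variable {z x u s su τ : G} (J : J3 z x u s su τ)
include J

theorem x1 : x ≠ 1 := fun h => by have := J.xo; rw [h] at this; simp at this
theorem x3 : x ^ 3 = 1 := by rw [← J.xo, pow_orderOf_eq_one]
theorem u1 : u ≠ 1 := fun h => by have := J.uo; rw [h] at this; simp at this
theorem u5 : u ^ 5 = 1 := by rw [← J.uo, pow_orderOf_eq_one]

theorem cjx_inv {g : G} (h : Cj x g) : Cj x g⁻¹ := by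
  obtain ⟨h, rfl⟩ := h
  exact ⟨h * τ, by
    calc h * τ * x * (h * τ)⁻¹ = h * (τ * x * τ⁻¹) * h⁻¹ := by group
      _ = _ := by rw [J.τx]; group⟩

theorem tr3 {t y : G} (ht : t ∈ Inv G) (hy : y ∈ Cz t) (ho : orderOf y = 3) :
    ∃ g : G, g * t * g⁻¹ = z ∧ g * y * g⁻¹ = x := by
  obtain ⟨g, hg⟩ := J.one t ht
  obtain ⟨h, hh, e⟩ := J.c3 (g * y * g⁻¹) (hg ▸ (mem_Cz_conj g).2 hy) (by rw [orderOf_conj', ho])
  refine ⟨h * g, ?_, by rw [← e]; group⟩
  calc h * g * t * (h * g)⁻¹ = h * (g * t * g⁻¹) * h⁻¹ := by group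
    _ = z := by rw [hg, mem_Cz'.1 hh]

theorem tr5 {t y : G} (ht : t ∈ Inv G) (hy : y ∈ Cz t) (ho : orderOf y = 5) :
    ∃ g : G, g * t * g⁻¹ = z ∧ (g * y * g⁻¹ = u ∨ g * y * g⁻¹ = u * u) := by
  obtain ⟨g, hg⟩ := J.one t ht
  obtain ⟨h, hh, e⟩ := J.c5 (g * y * g⁻¹) (hg ▸ (mem_Cz_conj g).2 hy) (by rw [orderOf_conj', ho])
  refine ⟨h * g, ?_, ?_⟩
  · calc h * g * t * (h * g)⁻¹ = h * (g * t * g⁻¹) * h⁻¹ := by group
      _ = z := by rw [hg, mem_Cz'.1 hh]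
  · rwa [show h * g * y * (h * g)⁻¹ = h * (g * y * g⁻¹) * h⁻¹ by group]

theorem oddc {t y : G} (ht : t ∈ Inv G) (hy : y ∈ Cz t) (ho : Odd (orderOf y)) :
    y = 1 ∨ orderOf y = 3 ∨ orderOf y = 5 := by
  obtain ⟨g, hg⟩ := J.one t ht
  by_cases h1 : y = 1
  · exact Or.inl h1
  right
  rcases J.odd (g * y * g⁻¹) (hg ▸ (mem_Cz_conj g).2 hy) (by rw [orderOf_conj']; exact ho) with h | h <;>
    rw [conj_pow] at h
  · exact Or.inl (order_of_pow_prime Nat.prime_three (by simpa using h) h1)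
  · exact Or.inr (order_of_pow_prime Nat.prime_five (by simpa using h) h1)

theorem cj3 {t y : G} (ht : t ∈ Inv G) (hy : y ∈ Cz t) (ho : orderOf y = 3) : Cj x y := by
  obtain ⟨g, _, h⟩ := J.tr3 ht hy ho
  exact Cj.of_conj (k := g) (h ▸ Cj.refl x)

theorem cardI {t : G} (ht : t ∈ Inv G) : Nat.card (Cz t) = 1920 := by
  obtain ⟨g, hg⟩ := J.one t ht
  rw [← card_Cz_conj g, hg, J.cH]

theorem Vcomm {a b : G} (ha : a ∈ Cz z ⊓ Cz s) (hb : b ∈ Cz z ⊓ Cz s) : a * b = b * a :=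
  comm_of_inverts (D := Cz z ⊓ Cz s) (t := 1) (by simp)
    (fun d hd => by simpa using eq_inv_of_mul_eq_one_left (J.V2 d hd)) ha hb

theorem zV : z ∈ Cz z ⊓ Cz s := ⟨self_mem_Cz z, mem_Cz_comm.1 J.sz⟩

theorem card_NV : Nat.card (Subgroup.normalizer ((Cz z ⊓ Cz s : Subgroup G) : Set G)) = 2880 := by
  set V := Cz z ⊓ Cz s with hV
  have h := orbit_card (Subgroup.normalizer (V : Set G)) z
  have e : cls (Subgroup.normalizer (V : Set G)) {z} = (fs V).erase 1 := by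
    ext t
    rw [mem_cls1, mem_erase, mem_fs]
    constructor
    · rintro ⟨n, hn, rfl⟩
      exact ⟨(mem_Inv.1 (Inv.conj J.zI n)).2, mem_normalizer_iff'.1 hn z J.zV⟩
    · rintro ⟨h1, ht⟩
      obtain ⟨g, hg⟩ := J.one t (mem_Inv.2 ⟨J.V2 t ht, h1⟩)
      obtain ⟨h, hh, h2⟩ := J.Vc (cj g V) (fun v hv => by
        rw [← hg, ← cj_Cz, mem_cj]; exact mem_Cz.2 (J.Vcomm (mem_cj.1 hv) ht))
        (by rw [card_cj, J.V16]) (fun v hv => by
          have := J.V2 _ (mem_cj.1 hv)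
          calc v * v = g * (g⁻¹ * v * g * (g⁻¹ * v * g)) * g⁻¹ := by group
            _ = 1 := by rw [this]; group)
      have hn : h * g ∈ Subgroup.normalizer (V : Set G) := mem_normalizer_iff'.2 fun v hv => by
        have := h2 _ (conj_mem_cj.2 hv)
        rwa [show h * (g * v * g⁻¹) * h⁻¹ = h * g * v * (h * g)⁻¹ by group] at this
      refine ⟨(h * g)⁻¹, Subgroup.inv_mem _ hn, ?_⟩
      rw [← mem_Cz'.1 hh, ← hg]; group
  rw [e, card_erase_of_mem (mem_fs.2 V.one_mem), card_fs, J.V16, inf_comm, J.NV] at h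
  omega

theorem selfV {g : G} (h : ∀ v ∈ Cz z ⊓ Cz s, g * v = v * g) : g ∈ Cz z ⊓ Cz s :=
  ⟨mem_Cz.2 (h z J.zV), mem_Cz.2 (h s ⟨J.sz, self_mem_Cz s⟩)⟩

theorem nv_y : ∃ y v : G, y ∈ Subgroup.normalizer ((Cz z ⊓ Cz s : Subgroup G) : Set G) ∧ Cj x y ∧
    orderOf v = 5 ∧ v ∈ Cz y ∧ ∀ w ∈ Cz z ⊓ Cz s, w ∈ Cz y → w = 1 := by
  set V := Cz z ⊓ Cz s with hV
  set N := Subgroup.normalizer (V : Set G) with hN
  have hNc : Nat.card N = 2880 := J.card_NV
  have hV16 : Nat.card V = 16 := J.V16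
  have hNV : ∀ n ∈ N, ∀ w ∈ V, n * w * n⁻¹ ∈ V := fun n hn => mem_normalizer_iff'.1 hn
  obtain ⟨v, hvN, hvo⟩ := exists_order_of_dvd (D := N) Nat.prime_five (by rw [hNc]; norm_num)
  have hv5 : v ^ 5 = 1 := by rw [← hvo, pow_orderOf_eq_one]
  have hv1 : v ≠ 1 := by rintro rfl; simp at hvo
  have top : ∀ c : G, Nat.card ↥(V ⊓ Cz c) = 16 → c ∈ V := fun c h => by
    have : V ⊓ Cz c = V := Subgroup.eq_of_le_of_card_ge inf_le_left (by rw [hV16, h])
    exact J.selfV fun w hw => (mem_Cz.1 (this.ge hw).2).symm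
  have hfv : V ⊓ Cz v = ⊥ := by
    obtain ⟨k, hk⟩ := fix_mod Nat.prime_five hvo V (hNV v hvN)
    have hd : Nat.card ↥(V ⊓ Cz v) ∣ 16 := hV16 ▸ Subgroup.card_dvd_of_le inf_le_left
    have hne : Nat.card ↥(V ⊓ Cz v) ≠ 16 := fun h => by
      have := orderOf_dvd_of_pow_eq_one (show v ^ 2 = 1 by rw [pow_two]; exact J.V2 v (top v h))
      rw [hvo] at this; omega
    rw [← Subgroup.card_eq_one]
    have h4 := Nat.le_of_dvd (by norm_num) hd
    rw [hV16] at hk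
    generalize Nat.card ↥(V ⊓ Cz v) = n at *
    interval_cases n <;> omega
  set C := N ⊓ Cz v with hC
  have hfree : ∀ c ∈ C, ∀ w ∈ V, w ≠ 1 → c * w = w * c → c = 1 := by
    intro c hc w hw hw1 e
    obtain ⟨k, hk⟩ := fix_mod Nat.prime_five hvo (V ⊓ Cz c) fun a ha => ⟨hNV v hvN a ha.1, by
      have := (mem_Cz_conj v).2 ha.2
      rwa [mem_Cz'.1 (mem_Cz_comm.1 hc.2)] at this⟩
    have h1 : Nat.card ↥(V ⊓ Cz c ⊓ Cz v) = 1 := by
      rw [Subgroup.card_eq_one, eq_bot_iff, ← hfv]; exact fun a ha => ⟨ha.1.1, ha.2⟩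
    have hd : Nat.card ↥(V ⊓ Cz c) ∣ 16 := hV16 ▸ Subgroup.card_dvd_of_le inf_le_left
    have hne : Nat.card ↥(V ⊓ Cz c) ≠ 1 := fun h => by
      rw [Subgroup.card_eq_one] at h
      have : w ∈ V ⊓ Cz c := ⟨hw, mem_Cz.2 e.symm⟩
      rw [h] at this; exact hw1 this
    have h16 : Nat.card ↥(V ⊓ Cz c) = 16 := by
      have h4 := Nat.le_of_dvd (by norm_num) hd
      rw [h1] at hk
      generalize Nat.card ↥(V ⊓ Cz c) = n at *
      interval_cases n <;> omega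
    have : c ∈ V ⊓ Cz v := ⟨top c h16, hc.2⟩
    rw [hfv] at this; exact this
  have hV15 : ((fs V).erase 1).card = 15 := by rw [card_erase_of_mem (mem_fs.2 V.one_mem), card_fs, hV16]
  have hVinv : ∀ w ∈ (fs V).erase 1, ∀ n ∈ N, n * w * n⁻¹ ∈ (fs V).erase 1 := fun w hw n hn =>
    mem_erase.2 ⟨fun e => (mem_erase.1 hw).1 (by simpa using e), mem_fs.2 (hNV n hn w (mem_fs.1 (mem_erase.1 hw).2))⟩
  have hC15 : Nat.card C ∣ 15 := hV15 ▸ free_dvd C _ (fun w hw h hh => hVinv w hw h hh.1)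
    fun w hw h hh e => hfree h hh w (mem_fs.1 (mem_erase.1 hw).2) (mem_erase.1 hw).1 e
  have hvC : v ∈ C := ⟨hvN, self_mem_Cz v⟩
  have hC5 : 5 ∣ Nat.card C := hvo ▸ Subgroup.orderOf_dvd_natCard C hvC
  have hU : Nat.card (Subgroup.zpowers v) = 5 := by rw [Nat.card_zpowers, hvo]
  have hUC : Subgroup.zpowers v ≤ C := Subgroup.zpowers_le.2 hvC
  have hKl := orbit_card N v
  rw [hNc, ← hC] at hKl
  have hvK : v ∈ cls N {v} ∩ fs (Subgroup.zpowers v) :=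
    mem_inter.2 ⟨mem_cls1.2 ⟨1, N.one_mem, by simp⟩, mem_fs.2 (Subgroup.mem_zpowers v)⟩
  have hf4 : (cls N {v} ∩ fs (Subgroup.zpowers v)).card ≤ 4 := by
    have : cls N {v} ∩ fs (Subgroup.zpowers v) ⊆ (fs (Subgroup.zpowers v)).erase 1 := fun a ha => by
      obtain ⟨h1, h2⟩ := mem_inter.1 ha
      obtain ⟨n, _, rfl⟩ := mem_cls1.1 h1
      exact mem_erase.2 ⟨fun e => hv1 (by simpa using e), h2⟩
    have h2 := card_le_card this
    rwa [card_erase_of_mem (mem_fs.2 (Subgroup.one_mem _)), card_fs, hU] at h2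
  have hcount : (∀ c ∈ C, orderOf c = 5 → c ∈ Subgroup.zpowers v) →
      ∃ k, (cls N {v}).card = (cls N {v} ∩ fs (Subgroup.zpowers v)).card + 5 * k := by
    intro h5C
    obtain ⟨k, hk⟩ := free_prime Nat.prime_five hvo (cls N {v} \ fs (Subgroup.zpowers v)) (fun a ha => by
      obtain ⟨h1, h2⟩ := mem_sdiff.1 ha
      obtain ⟨n, hn, rfl⟩ := mem_cls1.1 h1
      refine mem_sdiff.2 ⟨mem_cls1.2 ⟨v * n, N.mul_mem hvN hn, by group⟩, fun h => h2 (mem_fs.2 ?_)⟩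
      have := Subgroup.mul_mem _ (Subgroup.mul_mem _ (Subgroup.inv_mem _ (Subgroup.mem_zpowers v))
        (mem_fs.1 h)) (Subgroup.mem_zpowers v)
      simpa [mul_assoc] using this) (fun a ha e => by
      obtain ⟨h1, h2⟩ := mem_sdiff.1 ha
      obtain ⟨n, hn, rfl⟩ := mem_cls1.1 h1
      exact h2 (mem_fs.2 (h5C _ ⟨N.mul_mem (N.mul_mem hn hvN) (N.inv_mem hn), mem_Cz.2 e.symm⟩
        (by rw [orderOf_conj', hvo]))))
    exact ⟨k, by rw [← hk, add_comm, card_sdiff_add_card_inter]⟩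
  have hCc : Nat.card C = 5 ∨ Nat.card C = 15 := by
    have h4 := Nat.le_of_dvd (by norm_num) hC15
    generalize Nat.card C = n at *
    interval_cases n <;> omega
  haveI : Fact (Nat.Prime 5) := ⟨Nat.prime_five⟩
  haveI : Fact (Nat.Prime 3) := ⟨Nat.prime_three⟩
  rcases hCc with h | h
  · exfalso
    have hUC' : Subgroup.zpowers v = C := Subgroup.eq_of_le_of_card_ge hUC (by rw [h, hU])
    obtain ⟨k, hk⟩ := hcount fun c hc _ => hUC'.ge hc
    have h1 : (cls N {v} ∩ fs (Subgroup.zpowers v)).card ≤ 1 := by rw [h] at hKl; omega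
    have hp5 : IsPGroup 5 (Subgroup.zpowers v) := IsPGroup.of_card (n := 1) (by simpa using hU)
    obtain ⟨Q, hQ1, hQ2, hQ3, hQ4⟩ := burnside (C := N) (Subgroup.zpowers_le.2 hvN) hp5
      (fun a ha b hb => by
        obtain ⟨i, rfl⟩ := ha; obtain ⟨j, rfl⟩ := hb
        simp only [← zpow_add, add_comm])
      (fun n hn hh => hUC'.ge ⟨hn, mem_Cz'.2 (card_le_one.1 h1 _ (mem_inter.2 ⟨mem_cls1.2 ⟨n, hn, rfl⟩,
        mem_fs.2 (hh v (Subgroup.mem_zpowers v))⟩) v hvK)⟩)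
    rw [hU, hNc] at hQ4
    obtain ⟨S, k1, k2, k3, k4⟩ := inv_sylow hp5 (fun w hw => hQ2 w (hUC hw).1) hQ3 3
    rw [show Nat.card Q = 576 by omega, show (576 : ℕ).factorization 3 = 2 by
      rw [show (576 : ℕ) = 3 ^ 2 * 64 by norm_num, Nat.factorization_mul (by norm_num) (by norm_num),
        Nat.Prime.factorization_pow Nat.prime_three]
      simp [Nat.factorization_eq_zero_of_not_dvd (show ¬ 3 ∣ 64 by norm_num)]] at k3
    obtain ⟨l, hl⟩ := fix_mod Nat.prime_five hvo S (k4 v (Subgroup.mem_zpowers v))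
    have d1 : Nat.card ↥(S ⊓ Cz v) ∣ 3 ^ 2 := k3 ▸ Subgroup.card_dvd_of_le inf_le_left
    have d2 : Nat.card ↥(S ⊓ Cz v) ∣ 5 := h ▸ Subgroup.card_dvd_of_le (inf_le_inf_right _ (k1.trans hQ1))
    have := Nat.eq_one_of_dvd_coprimes (by norm_num) d1 d2
    omega
  obtain ⟨y, hyC, hyo⟩ := exists_order_of_dvd (D := C) Nat.prime_three (by rw [h]; norm_num)
  have hy1 : y ≠ 1 := by rintro rfl; simp at hyo
  have hvy : Commute v y := (mem_Cz.1 hyC.2).symm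
  have hgen : Subgroup.zpowers (v * y) = C :=
    Subgroup.eq_of_le_of_card_ge (Subgroup.zpowers_le.2 (C.mul_mem hvC hyC)) (by
      rw [Nat.card_zpowers, hvy.orderOf_mul_eq_mul_orderOf_of_coprime (by rw [hvo, hyo]; norm_num), hvo,
        hyo, h])
  have hdec : ∀ c ∈ C, ∃ k : ℕ, c = v ^ k * y ^ k := fun c hc => by
    obtain ⟨k, _, rfl⟩ := exists_pow_of_mem_zpowers (hgen.ge hc)
    exact ⟨k, hvy.mul_pow k⟩
  have hy3 : y ^ 3 = 1 := by rw [← hyo, pow_orderOf_eq_one]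
  obtain ⟨k, hk⟩ := hcount fun c hc ho => by
    obtain ⟨k, rfl⟩ := hdec c hc
    have e := pow_orderOf_eq_one (v ^ k * y ^ k)
    rw [ho, ((hvy.pow_pow k k)).mul_pow, ← pow_mul, mul_comm k, pow_mul, hv5, one_pow, one_mul, ← pow_mul,
      ← orderOf_dvd_iff_pow_eq_one, hyo] at e
    have : y ^ k = 1 := by rw [← orderOf_dvd_iff_pow_eq_one, hyo]; omega
    rw [this, mul_one]; exact Subgroup.npow_mem_zpowers _ _
  have h2 : (cls N {v} ∩ fs (Subgroup.zpowers v)).card = 2 := by rw [h] at hKl; omega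
  obtain ⟨v', hv'⟩ : ∃ v', cls N {v} ∩ fs (Subgroup.zpowers v) = {v, v'} ∧ v' ≠ v := by
    obtain ⟨a, b, hab, e⟩ := card_eq_two.1 h2
    rw [e] at hvK ⊢
    rcases mem_insert.1 hvK with rfl | h
    · exact ⟨b, rfl, hab.symm⟩
    · rw [mem_singleton] at h; subst h; exact ⟨a, pair_comm _ _, hab⟩
  obtain ⟨hv'K, hv'U⟩ := mem_inter.1 (hv'.1.ge (show v' ∈ ({v, v'} : Finset G) by simp))
  obtain ⟨n, hn, hnv⟩ := mem_cls1.1 hv'K
  have hv'U := mem_fs.1 hv'U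
  have hn2 : n * n ∈ C := by
    refine ⟨N.mul_mem hn hn, mem_Cz'.2 ?_⟩
    have : n * v' * n⁻¹ ∈ cls N {v} ∩ fs (Subgroup.zpowers v) := mem_inter.2
      ⟨mem_cls1.2 ⟨n * n, N.mul_mem hn hn, by rw [← hnv]; group⟩, mem_fs.2 (by
        have := conj_mem_zpowers n hv'U
        rw [hnv] at this
        exact (Subgroup.zpowers_le.2 hv'U) this)⟩
    rw [hv'.1, mem_insert, mem_singleton] at this
    rcases this with e | e
    · calc n * n * v * (n * n)⁻¹ = n * (n * v * n⁻¹) * n⁻¹ := by group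
        _ = v := by rw [hnv, e]
    · exfalso; apply hv'.2
      have := e.trans hnv.symm
      simpa using this
  obtain ⟨m, hm⟩ : ∃ m, m = n * (n * n) ^ 7 := ⟨_, rfl⟩
  have hmN : m ∈ N := hm ▸ N.mul_mem hn (N.pow_mem (N.mul_mem hn hn) _)
  have hmm : m * m = 1 := by
    have := pow_card_eq_one' (x := (⟨n * n, hn2⟩ : C))
    rw [h] at this
    have e : (n * n) ^ 15 = 1 := congrArg Subtype.val this
    rw [← e, hm, ← pow_two n, ← pow_mul, ← pow_mul, ← pow_succ', ← pow_add]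
  have hmv : m * v * m⁻¹ = v' := by
    calc m * v * m⁻¹ = n * ((n * n) ^ 7 * v * ((n * n) ^ 7)⁻¹) * n⁻¹ := by rw [hm]; group
      _ = v' := by rw [mem_Cz'.1 (C.pow_mem hn2 7).2, hnv]
  have hmI : m ∈ Inv G := mem_Inv.2 ⟨hmm, fun e => hv'.2 (by rw [← hmv, e]; simp)⟩
  have hv'1 : v' ≠ 1 := by rw [← hnv]; intro e; exact hv1 (by simpa using e)
  have hmy : m * y * m⁻¹ ∈ Subgroup.zpowers y := by
    have h3 : m * y * m⁻¹ ∈ Cz v := by
      have := (mem_Cz_conj m).2 hyC.2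
      rw [hmv, mem_Cz_comm] at this
      rw [mem_Cz_comm]
      exact (Subgroup.zpowers_le.2 this) (mem_zpowers_of_prime Nat.prime_five hvo hv'U hv'1)
    obtain ⟨k, hk⟩ := hdec _ ⟨N.mul_mem (N.mul_mem hmN hyC.1) (N.inv_mem hmN), h3⟩
    have e : (m * y * m⁻¹) ^ 3 = 1 := by rw [conj_pow, hy3]; simp
    rw [hk, ((hvy.pow_pow k k)).mul_pow, ← pow_mul y, mul_comm k, pow_mul y, hy3, one_pow, mul_one,
      ← pow_mul, ← orderOf_dvd_iff_pow_eq_one, hvo] at e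
    have : v ^ k = 1 := by rw [← orderOf_dvd_iff_pow_eq_one, hvo]; omega
    rw [hk, this, one_mul]; exact Subgroup.npow_mem_zpowers _ _
  rcases eq_of_order_three hyo hmy with e | e | e
  · exact absurd (by simpa using e) hy1
  · refine ⟨y, v, hyC.1, J.cj3 hmI (mem_Cz_comm.1 (mem_Cz'.2 e)) hyo, hvo, mem_Cz_comm.1 hyC.2,
      fun w hw h1 => ?_⟩
    by_contra h3
    exact hy1 (hfree y hyC w hw h3 (mem_Cz.1 h1).symm)
  exfalso
  have hmi := Inv.inv hmI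
  have hmv' : m * v * m⁻¹ = v⁻¹ := by
    rw [hmv, eq_inv_iff_mul_eq_one]
    by_contra hw
    have hwU : v' * v ∈ Subgroup.zpowers v := Subgroup.mul_mem _ hv'U (Subgroup.mem_zpowers v)
    have h3 : m ∈ Cz (v' * v) := by
      rw [mem_Cz']
      calc m * (v' * v) * m⁻¹ = (m * m) * v * (m * m)⁻¹ * (m * v * m⁻¹) := by rw [← hmv]; group
        _ = v * v' := by rw [hmm, hmv]; group
        _ = v' * v := (mem_Cz.1 (hUC hv'U).2).symm
    have h4 : v ∈ Cz m :=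
      (Subgroup.zpowers_le.2 (mem_Cz_comm.1 h3)) (mem_zpowers_of_prime Nat.prime_five hvo hwU hw)
    exact hv'.2 (by rw [← hmv, mem_Cz'.1 (mem_Cz_comm.1 h4)])
  have hinv : ∀ c ∈ C, m * c * m⁻¹ = c⁻¹ := fun c hc => by
    obtain ⟨k, rfl⟩ := hdec c hc
    calc m * (v ^ k * y ^ k) * m⁻¹ = (m * v * m⁻¹) ^ k * (m * y * m⁻¹) ^ k := by
          rw [conj_pow, conj_pow]; group
      _ = _ := by rw [hmv', e, (hvy.pow_pow k k).eq]; group
  have hF := orbit_card V m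
  have hF2 : (cls V {m}).card ≤ Nat.card ↥(V ⊓ Cz m) := by
    rw [← card_fs]
    refine card_le_card_of_injOn (fun a => a * m) (fun a ha => ?_) (fun a _ b _ e => by simpa using e)
    obtain ⟨w, hw, rfl⟩ := mem_cls1.1 ha
    have h1 : m * w⁻¹ * m⁻¹ ∈ V := hNV m hmN _ (V.inv_mem hw)
    have hwi : w⁻¹ = w := inv_eq_of_mul_eq_one_right (J.V2 w hw)
    rw [hmi] at h1
    refine mem_fs.2 ⟨by simpa [mul_assoc] using V.mul_mem hw h1, mem_Cz.2 ?_⟩
    have h5 := J.Vcomm hw h1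
    rw [hwi] at h5 ⊢
    calc w * m * w * m * m = w * m * w := by rw [mul_assoc, hmm, mul_one]
      _ = m * (m * w * m * w) := by rw [← mul_assoc, ← mul_assoc, ← mul_assoc, hmm, one_mul]
      _ = m * (w * m * w * m) := by rw [← h5]; group
  have hF3 : Nat.card ↥(V ⊓ Cz m) ≤ 2 := by
    rw [← card_fs]
    by_cases h0 : ((fs (V ⊓ Cz m)).erase 1).Nonempty
    · obtain ⟨w, hw⟩ := h0
      obtain ⟨hw1, hw2⟩ := mem_erase.1 hw
      have hw2 := mem_fs.1 hw2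
      have ho := orbit_card C w
      have hb : C ⊓ Cz w = ⊥ := by
        rw [eq_bot_iff]; intro c hc; exact hfree c hc.1 w hw2.1 hw1 (mem_Cz.1 hc.2)
      rw [hb, Subgroup.card_bot, mul_one, h] at ho
      have hall : cls C {w} = (fs V).erase 1 := eq_of_subset_of_card_le (fun a ha => by
        obtain ⟨c, hc, rfl⟩ := mem_cls1.1 ha
        exact hVinv w (mem_erase.2 ⟨hw1, mem_fs.2 hw2.1⟩) c hc.1) (by rw [ho, hV15])
      refine (card_le_card (t := {1, w}) fun a ha => ?_).trans card_le_two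
      by_cases ha1 : a = 1
      · simp [ha1]
      have ha2 := mem_fs.1 ha
      obtain ⟨c, hc, rfl⟩ := mem_cls1.1 (hall.ge (mem_erase.2 ⟨ha1, mem_fs.2 ha2.1⟩))
      have h6 : c * c * w = w * (c * c) := by
        have e1 := mem_Cz'.1 (mem_Cz_comm.1 ha2.2)
        have e2 : m * (c * w * c⁻¹) * m⁻¹ = (m * c * m⁻¹) * (m * w * m⁻¹) * (m * c * m⁻¹)⁻¹ := by group
        rw [e2, hinv c hc, mem_Cz'.1 (mem_Cz_comm.1 hw2.2)] at e1
        calc c * c * w = c * (c * w * c⁻¹) * c := by group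
          _ = _ := by rw [← e1]; group
      have h7 := hfree _ (C.mul_mem hc hc) w hw2.1 hw1 h6
      have h8 : c = 1 := by
        by_contra h9
        exact not_mem_of_odd (D := C) (by rw [h]; decide) (mem_Inv.2 ⟨h7, h9⟩) hc
      simp [h8]
    · rw [not_nonempty_iff_eq_empty] at h0
      have := card_erase_add_one (mem_fs.2 (V ⊓ Cz m).one_mem)
      rw [h0] at this; simp at this; omega
  rw [hV16] at hF
  nlinarith

theorem nv : (∃ v ∈ Cz x, orderOf v = 5) ∧ ∃ r1 r2 : G, Cj x r1 ∧ Cj x r2 ∧ r1 ∈ Cz x ∧ r2 ∈ Cz x ∧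
    r2 ∈ Cz r1 ∧ r1 ∉ Subgroup.zpowers x ∧ r2 ∉ Subgroup.zpowers x ∧
    ∀ S : Subgroup G, r1 ∈ S → r2 ∈ S → x ∈ S := by
  obtain ⟨y, v, hyN, hxy, hvo, hvy, hfy⟩ := J.nv_y
  have hyo : orderOf y = 3 := hxy.order.trans J.xo
  set V := Cz z ⊓ Cz s with hV
  set N := Subgroup.normalizer (V : Set G) with hN
  have hV16 : Nat.card V = 16 := J.V16
  have hNV : ∀ n ∈ N, ∀ w ∈ V, n * w * n⁻¹ ∈ V := fun n hn => mem_normalizer_iff'.1 hn
  haveI : Fact (Nat.Prime 3) := ⟨Nat.prime_three⟩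
  obtain ⟨R, hR1, hR2, -, hR⟩ := exists_psub (Subgroup.zpowers_le.2 hyN)
    (IsPGroup.of_card (p := 3) (n := 1) (by rw [Nat.card_zpowers, hyo, pow_one]))
  rw [J.card_NV, show (2880 : ℕ).factorization 3 = 2 by
      rw [show (2880 : ℕ) = 3 ^ 2 * 320 by norm_num, Nat.factorization_mul (by norm_num) (by norm_num),
        Nat.Prime.factorization_pow Nat.prime_three]
      simp [Nat.factorization_eq_zero_of_not_dvd (show ¬ 3 ∣ 320 by norm_num)]] at hR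
  have hyR : y ∈ R := hR1 (Subgroup.mem_zpowers y)
  have key : ∀ S : Finset G, (∀ w ∈ S, w ∈ V ∧ w ≠ 1) → (∀ w ∈ S, ∀ r ∈ R, r * w * r⁻¹ ∈ S) →
      ¬ 9 ∣ S.card → ∃ w ∈ S, ∃ r ∈ R, r ∈ Cz w ∧ orderOf r = 3 ∧ Cj x r ∧ r ∉ Subgroup.zpowers y := by
    intro S h1 h2 h3
    by_contra hn
    push Not at hn
    refine h3 ((show Nat.card R = 9 from hR) ▸ free_dvd R S h2 fun w hw r hr e => ?_)
    by_contra hr1
    have hwI : w ∈ Inv G := mem_Inv.2 ⟨J.V2 w (h1 w hw).1, (h1 w hw).2⟩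
    have hd := Subgroup.orderOf_dvd_natCard R hr
    rw [hR] at hd
    have hro : orderOf r = 3 := by
      rcases J.oddc hwI (mem_Cz.2 e) (Odd.of_dvd_nat (by decide) hd) with h | h | h
      · exact absurd h hr1
      · exact h
      · rw [h] at hd; norm_num at hd
    have := hn w hw r hr (mem_Cz.2 e) hro (J.cj3 hwI (mem_Cz.2 e) hro)
    exact (h1 w hw).2 (hfy w (h1 w hw).1 (mem_Cz_comm.1 ((Subgroup.zpowers_le.2 (mem_Cz.2 e))
      (mem_zpowers_of_prime Nat.prime_three hyo this hr1))))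
  obtain ⟨w1, hw1, r1, hr1, a1, a2, a3, a4⟩ := key ((fs V).erase 1)
    (fun w hw => ⟨mem_fs.1 (mem_erase.1 hw).2, (mem_erase.1 hw).1⟩)
    (fun w hw r hr => mem_erase.2 ⟨fun e => (mem_erase.1 hw).1 (by simpa using e),
      mem_fs.2 (hNV r (hR2 hr) w (mem_fs.1 (mem_erase.1 hw).2))⟩)
    (by rw [card_erase_of_mem (mem_fs.2 V.one_mem), card_fs, hV16]; norm_num)
  have hle : fs (V ⊓ Cz r1) ⊆ fs V := fun g hg => mem_fs.2 (mem_fs.1 hg).1
  obtain ⟨w2, hw2, r2, hr2, b1, b2, b3, b4⟩ := key (fs V \ fs (V ⊓ Cz r1))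
    (fun w hw => ⟨mem_fs.1 (mem_sdiff.1 hw).1, fun e => (mem_sdiff.1 hw).2 (by rw [e]; simp)⟩)
    (fun w hw r hr => mem_sdiff.2 ⟨mem_fs.2 (hNV r (hR2 hr) w (mem_fs.1 (mem_sdiff.1 hw).1)), fun h =>
      (mem_sdiff.1 hw).2 (mem_fs.2 ⟨mem_fs.1 (mem_sdiff.1 hw).1, by
        have h3 : r * w * r⁻¹ ∈ Cz r1 := (mem_fs.1 h).2
        have h4 : r * r1 * r⁻¹ = r1 := mem_Cz'.1 (mem_Cz.2 (comm_of_card9 hR hr hr1))
        rw [← h4] at h3
        exact (mem_Cz_conj r).1 h3⟩)⟩)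
    (by
      have h1 := card_sdiff_add_card_eq_card hle
      rw [card_fs, card_fs, hV16] at h1
      have hd : Nat.card ↥(V ⊓ Cz r1) ∣ 16 := hV16 ▸ Subgroup.card_dvd_of_le inf_le_left
      have hne : Nat.card ↥(V ⊓ Cz r1) ≠ 16 := fun h => by
        have : V ⊓ Cz r1 = V := Subgroup.eq_of_le_of_card_ge inf_le_left (by rw [hV16, h])
        have h2 := J.V2 r1 (J.selfV fun w hw => (mem_Cz.1 (this.ge hw).2).symm)
        have := orderOf_dvd_of_pow_eq_one (show r1 ^ 2 = 1 by rwa [pow_two])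
        rw [a2] at this; omega
      have h4 := Nat.le_of_dvd (by norm_num) hd
      generalize Nat.card ↥(V ⊓ Cz r1) = n at *
      interval_cases n <;> omega)
  have h21 : r2 ∉ Subgroup.zpowers r1 := fun h => (mem_sdiff.1 hw2).2 (mem_fs.2 ⟨mem_fs.1 (mem_sdiff.1 hw2).1,
    mem_Cz_comm.1 ((Subgroup.zpowers_le.2 b1) (mem_zpowers_of_prime Nat.prime_three a2 h
      (by rintro rfl; simp at b2)))⟩)
  obtain ⟨g, rfl⟩ := hxy
  have tr : ∀ a : G, a ∈ Cz (g * x * g⁻¹) → g⁻¹ * a * g⁻¹⁻¹ ∈ Cz x := fun a ha => by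
    have := (mem_Cz_conj g⁻¹).2 ha
    rwa [show g⁻¹ * (g * x * g⁻¹) * g⁻¹⁻¹ = x by group] at this
  have tr2 : ∀ a : G, g⁻¹ * a * g⁻¹⁻¹ ∈ Subgroup.zpowers x → a ∈ Subgroup.zpowers (g * x * g⁻¹) :=
    fun a ha => by simpa [mul_assoc] using conj_mem_zpowers g ha
  refine ⟨⟨_, tr v hvy, by rw [orderOf_conj', hvo]⟩, g⁻¹ * r1 * g⁻¹⁻¹, g⁻¹ * r2 * g⁻¹⁻¹, a3.conj _, b3.conj _,
    tr _ (mem_Cz.2 (comm_of_card9 hR hr1 hyR)), tr _ (mem_Cz.2 (comm_of_card9 hR hr2 hyR)),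
    (mem_Cz_conj _).2 (mem_Cz.2 (comm_of_card9 hR hr2 hr1)), fun h => a4 (tr2 _ h), fun h => b4 (tr2 _ h),
    fun S h1 h2 => ?_⟩
  have e : cj g S ⊓ R = R := by
    have k1 : r1 ∈ cj g S ⊓ R := ⟨mem_cj.2 (by simpa using h1), hr1⟩
    have k2 : r2 ∈ cj g S ⊓ R := ⟨mem_cj.2 (by simpa using h2), hr2⟩
    have hd : Nat.card ↥(cj g S ⊓ R) ∣ 3 ^ 2 := hR ▸ Subgroup.card_dvd_of_le inf_le_right
    have hlt : Subgroup.zpowers r1 < cj g S ⊓ R :=
      lt_of_le_of_ne (Subgroup.zpowers_le.2 k1) fun e => h21 (e ▸ k2)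
    have h3 := sub_card_lt hlt
    rw [Nat.card_zpowers, a2] at h3
    refine Subgroup.eq_of_le_of_card_ge inf_le_right ?_
    have h4 := Nat.le_of_dvd (by norm_num) hd
    rw [hR]
    generalize Nat.card ↥(cj g S ⊓ R) = n at *
    interval_cases n <;> omega
  exact conj_mem_cj.1 (e.ge hyR).1

end J3
end
end Cfsg.Agent.J3T
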