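import Cfsg.Agent.Lib.J3T.CX

/-! The normalizer of a subgroup of class 3A. -/

set_option autoImplicit false
set_option linter.unusedSectionVars false
open Finset Classical

namespace Cfsg.Agent.J3T
noncomputable section
variable {G : Type*} [Group G] [Fintype G]

theorem conj_Cz_of_inv {x v a : G} (h : v * x * v⁻¹ = x⁻¹) (ha : a ∈ Cz x) : v * a * v⁻¹ ∈ Cz x := by
  have := (mem_Cz_conj v).2 ha
  rw [h, mem_Cz_comm] at this
  rw [mem_Cz_comm]; simpa using (Cz _).inv_mem this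

theorem pow_pm {x g : G} (h : g * x * g⁻¹ = x⁻¹) (k : ℕ) :
    (Even k → g ^ k ∈ Cz x) ∧ (Odd k → g ^ k * x * (g ^ k)⁻¹ = x⁻¹) := by
  have h2 : g * g ∈ Cz x := by
    rw [mem_Cz']
    calc g * g * x * (g * g)⁻¹ = g * (g * x * g⁻¹) * g⁻¹ := by group
      _ = (g * x * g⁻¹)⁻¹ := by rw [h]; nth_rewrite 2 [← h]; group
      _ = x := by rw [h, inv_inv]
  constructor
  · rintro ⟨m, rfl⟩
    rw [← two_mul, pow_mul, pow_two]; exact (Cz x).pow_mem h2 m
  · rintro ⟨m, rfl⟩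
    calc g ^ (2 * m + 1) * x * (g ^ (2 * m + 1))⁻¹ = g * ((g ^ 2) ^ m * x * ((g ^ 2) ^ m)⁻¹) * g⁻¹ := by
          rw [← pow_mul]; group
      _ = _ := by rw [pow_two, mem_Cz'.1 ((Cz x).pow_mem h2 m), h]

namespace J3
variable {z x u s su τ : G} (J : J3 z x u s su τ)
include J

theorem x_ne_inv : x ≠ x⁻¹ := fun h => by
  have := orderOf_dvd_of_pow_eq_one (show x ^ 2 = 1 by rw [pow_two]; nth_rewrite 1 [h]; simp)
  rw [J.xo] at this; omega

theorem card_IL (hL : Nat.card (Cz x) = 1080) : ((Inv G).filter (· ∈ Cz x)).card = 45 := by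
  have h := orbit_card (Cz x) z
  have e : cls (Cz x) {z} = (Inv G).filter (· ∈ Cz x) := by
    ext a; rw [mem_cls1, mem_filter]
    constructor
    · rintro ⟨g, hg, rfl⟩
      exact ⟨Inv.conj J.zI g, (Cz x).mul_mem ((Cz x).mul_mem hg J.zx) ((Cz x).inv_mem hg)⟩
    · rintro ⟨h1, h2⟩
      obtain ⟨g, hg, rfl⟩ := J.invL h1 h2
      exact ⟨g⁻¹, (Cz x).inv_mem hg, by group⟩
  rw [e, inf_comm, J.c24, hL] at h
  omega

theorem outer_conj (hL : Nat.card (Cz x) = 1080) {v : G} (hv : v ∈ Inv G) (h : v * x * v⁻¹ = x⁻¹) :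
    ∃ g ∈ Cz x, g * v * g⁻¹ = τ := by
  have : ∃ t ∈ (Inv G).filter (· ∈ Cz x), v * t = t * v := by
    by_contra hn
    push Not at hn
    have := free_prime Nat.prime_two (Inv.order hv) _ (fun a ha =>
      mem_filter.2 ⟨Inv.conj (mem_filter.1 ha).1 v, conj_Cz_of_inv h (mem_filter.1 ha).2⟩) hn
    rw [J.card_IL hL] at this; omega
  obtain ⟨t, ht, e⟩ := this
  obtain ⟨g, hg, hgt⟩ := J.invL (mem_filter.1 ht).1 (mem_filter.1 ht).2
  obtain ⟨⟨k, -, hk, e2⟩, -⟩ := J.oc (g * v * g⁻¹) (hgt ▸ (mem_Cz_conj g).2 (mem_Cz.2 e)) (by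
    calc g * v * g⁻¹ * x * (g * v * g⁻¹)⁻¹ = g * (v * (g⁻¹ * x * g⁻¹⁻¹) * v⁻¹) * g⁻¹ := by group
      _ = (g * x * g⁻¹)⁻¹ := by rw [mem_Cz'.1 ((Cz x).inv_mem hg), h]; group
      _ = _ := by rw [mem_Cz'.1 hg]) (mem_Inv.1 (Inv.conj hv g)).1
  exact ⟨k * g, (Cz x).mul_mem hk hg, by rw [← e2]; group⟩

theorem outer_two {v t d : G} (hv : v ∈ Inv G) (h : v * x * v⁻¹ = x⁻¹) (ht : t ∈ Inv G) (htx : t ∈ Cz x)
    (htv : t ∈ Cz v) (h1 : d ∈ Cz x) (h2 : d ∈ Cz v) (h3 : d ∈ Cz t) : d = 1 ∨ d = t := by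
  obtain ⟨g, hg, hgt⟩ := J.invL ht htx
  obtain ⟨-, k⟩ := J.oc (g * v * g⁻¹) (hgt ▸ (mem_Cz_conj g).2 (mem_Cz_comm.1 htv)) (by
    calc g * v * g⁻¹ * x * (g * v * g⁻¹)⁻¹ = g * (v * (g⁻¹ * x * g⁻¹⁻¹) * v⁻¹) * g⁻¹ := by group
      _ = (g * x * g⁻¹)⁻¹ := by rw [mem_Cz'.1 ((Cz x).inv_mem hg), h]; group
      _ = _ := by rw [mem_Cz'.1 hg]) (mem_Inv.1 (Inv.conj hv g)).1
  rcases k (g * d * g⁻¹) (hgt ▸ (mem_Cz_conj g).2 h3)
    ((Cz x).mul_mem ((Cz x).mul_mem hg h1) ((Cz x).inv_mem hg)) ((mem_Cz_conj g).2 h2) with e | e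
  · left; simpa using e
  · right; rw [← hgt] at e; simpa using e

theorem outer_odd {v a b : G} (hv : v ∈ Inv G) (h : v * x * v⁻¹ = x⁻¹) (ha : a ∈ Inv G) (hb : b ∈ Inv G)
    (ha2 : a ∈ Cz x ⊓ Cz v) (hb2 : b ∈ Cz x ⊓ Cz v) : Odd (orderOf (a * b)) := by
  by_contra hn
  rw [Nat.not_odd_iff_even] at hn
  have hw := half_mem_Inv hn
  have hm : (a * b) ^ (orderOf (a * b) / 2) ∈ Cz x ⊓ Cz v := Subgroup.pow_mem _ (Subgroup.mul_mem _ ha2 hb2) _
  obtain ⟨k1, k2⟩ := pair_mem_Cz hw ha hb (Subgroup.npow_mem_zpowers _ _)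
  have e1 := (J.outer_two hv h ha ha2.1 ha2.2 hm.1 hm.2 (mem_Cz_comm.1 k1)).resolve_left (mem_Inv.1 hw).2
  have e2 := (J.outer_two hv h hb hb2.1 hb2.2 hm.1 hm.2 (mem_Cz_comm.1 k2)).resolve_left (mem_Inv.1 hw).2
  rw [e1.symm.trans e2, (mem_Inv.1 hb).1] at hn
  simp at hn

theorem outer_count (hL : Nat.card (Cz x) = 1080) : ninv x = 108 ∧ Nat.card ↥(Cz x ⊓ Cz τ) = 10 := by
  set O := (Inv G).filter fun v => v * x * v⁻¹ = x⁻¹ with hO
  set IL := (Inv G).filter (· ∈ Cz x) with hIL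
  have hnO : ninv x = O.card := by
    unfold ninv; congr 1; refine filter_congr fun a ha => ?_
    rw [Inv.inv ha]
  have h1 := orbit_card (Cz x) τ
  have e1 : cls (Cz x) {τ} = O := by
    ext a; rw [mem_cls1, mem_filter]
    constructor
    · rintro ⟨g, hg, rfl⟩
      refine ⟨Inv.conj J.τI g, ?_⟩
      calc g * τ * g⁻¹ * x * (g * τ * g⁻¹)⁻¹ = g * (τ * (g⁻¹ * x * g⁻¹⁻¹) * τ⁻¹) * g⁻¹ := by group
        _ = (g * x * g⁻¹)⁻¹ := by rw [mem_Cz'.1 ((Cz x).inv_mem hg), J.τx]; group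
        _ = _ := by rw [mem_Cz'.1 hg]
    · rintro ⟨h1, h2⟩
      obtain ⟨g, hg, rfl⟩ := J.outer_conj hL h1 h2
      exact ⟨g⁻¹, (Cz x).inv_mem hg, by group⟩
  rw [e1, hL] at h1
  have hzτ : z ∈ Cz x ⊓ Cz τ := ⟨J.zx, mem_Cz_comm.1 J.τz⟩
  set k := ((Inv G).filter (· ∈ Cz x ⊓ Cz τ)).card with hk
  have h2 := orbit_card (Cz x ⊓ Cz τ) z
  have e2 : cls (Cz x ⊓ Cz τ) {z} = (Inv G).filter (· ∈ Cz x ⊓ Cz τ) := by
    ext a; rw [mem_cls1, mem_filter]
    constructor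
    · rintro ⟨g, hg, rfl⟩
      exact ⟨Inv.conj J.zI g, Subgroup.mul_mem _ (Subgroup.mul_mem _ hg hzτ) (Subgroup.inv_mem _ hg)⟩
    · rintro ⟨h1, h2⟩
      obtain ⟨m, hm⟩ := odd_conj (mem_Inv.1 h1).1 (mem_Inv.1 J.zI).1 (J.outer_odd J.τI J.τx h1 J.zI h2 hzτ)
      exact ⟨_, Subgroup.pow_mem _ (Subgroup.mul_mem _ h2 hzτ) m, hm⟩
  have e3 : Nat.card ↥(Cz x ⊓ Cz τ ⊓ Cz z) = 2 := by
    rw [← card_fs, ← card_pair (mem_Inv.1 J.zI).2.symm]; congr 1; ext d
    rw [mem_fs, mem_insert, mem_singleton]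
    refine ⟨fun h => J.outer_two J.τI J.τx J.zI hzτ.1 hzτ.2 h.1.1 h.1.2 h.2, ?_⟩
    rintro (rfl | rfl)
    · exact Subgroup.one_mem _
    · exact ⟨hzτ, self_mem_Cz _⟩
  rw [e2, e3, ← hk] at h2
  have h3 := even_split (IL ×ˢ O) (fun p : G × G => p.1 * p.2)
  have hinv : ∀ p ∈ IL ×ˢ O, p.1 * p.2 * x * (p.1 * p.2)⁻¹ = x⁻¹ := by
    rintro ⟨a, b⟩ hp
    obtain ⟨ha, hb⟩ := mem_product.1 hp
    calc a * b * x * (a * b)⁻¹ = a * (b * x * b⁻¹) * a⁻¹ := by group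
      _ = (a * x * a⁻¹)⁻¹ := by rw [(mem_filter.1 hb).2]; group
      _ = _ := by rw [mem_Cz'.1 (mem_filter.1 ha).2]
  have e4 : (IL ×ˢ O).filter (fun p : G × G => Odd (orderOf (p.1 * p.2))) = ∅ := by
    rw [filter_eq_empty_iff]
    intro p hp ho
    have := (pow_pm (hinv p hp) _).2 ho
    rw [pow_orderOf_eq_one] at this
    exact J.x_ne_inv (by simpa using this)
  have hdis : Disjoint IL O := by
    rw [disjoint_left]; intro a h1 h2
    exact J.x_ne_inv ((mem_Cz'.1 (mem_filter.1 h1).2).symm.trans (mem_filter.1 h2).2)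
  have e5 : ∑ t ∈ Inv G, ((IL ×ˢ O).filter fun p : G × G => t ∈ Subgroup.zpowers (p.1 * p.2)).card =
      IL.card * 48 + O.card * (k * k) := by
    rw [← sum_subset (s₁ := IL ∪ O) (union_subset (filter_subset _ _) (filter_subset _ _)), sum_union hdis,
      ← smul_eq_mul, ← smul_eq_mul O.card, ← sum_const, ← sum_const]
    · congr 1
      · refine sum_congr rfl fun t ht => ?_
        obtain ⟨g, hg, hgt⟩ := J.invL (mem_filter.1 ht).1 (mem_filter.1 ht).2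
        rw [← J.c48]
        refine card_conj_eq2 g fun a b => ?_
        simp only [hIL, hO, mem_filter, mem_product, mem_Inv_conj]
        rw [← hgt, show g * a * g⁻¹ * (g * b * g⁻¹) = g * (a * b) * g⁻¹ by group, conj_mem_zpowers_iff]
        have f1 : g * a * g⁻¹ ∈ Cz x ↔ a ∈ Cz x := by
          conv_lhs => rw [← mem_Cz'.1 hg]
          exact mem_Cz_conj g
        have f2 : g * b * g⁻¹ * x * (g * b * g⁻¹)⁻¹ = x⁻¹ ↔ b * x * b⁻¹ = x⁻¹ := by
          conv_lhs => rw [← mem_Cz'.1 hg]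
          rw [show g * b * g⁻¹ * (g * x * g⁻¹) * (g * b * g⁻¹)⁻¹ = g * (b * x * b⁻¹) * g⁻¹ by group,
            show (g * x * g⁻¹)⁻¹ = g * x⁻¹ * g⁻¹ by group]
          simp
        rw [f1, f2]; tauto
      · refine sum_congr rfl fun t ht => ?_
        obtain ⟨g, hg, hgt⟩ := J.outer_conj hL (mem_filter.1 ht).1 (mem_filter.1 ht).2
        have f0 : ((IL ×ˢ O).filter fun p : G × G => t ∈ Subgroup.zpowers (p.1 * p.2)).card =
            ((IL ×ˢ O).filter fun p : G × G => τ ∈ Subgroup.zpowers (p.1 * p.2)).card := by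
          refine card_conj_eq2 g fun a b => ?_
          simp only [hIL, hO, mem_filter, mem_product, mem_Inv_conj]
          rw [← hgt, show g * a * g⁻¹ * (g * b * g⁻¹) = g * (a * b) * g⁻¹ by group, conj_mem_zpowers_iff]
          have f1 : g * a * g⁻¹ ∈ Cz x ↔ a ∈ Cz x := by
            conv_lhs => rw [← mem_Cz'.1 hg]
            exact mem_Cz_conj g
          have f2 : g * b * g⁻¹ * x * (g * b * g⁻¹)⁻¹ = x⁻¹ ↔ b * x * b⁻¹ = x⁻¹ := by
            conv_lhs => rw [← mem_Cz'.1 hg]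
            rw [show g * b * g⁻¹ * (g * x * g⁻¹) * (g * b * g⁻¹)⁻¹ = g * (b * x * b⁻¹) * g⁻¹ by group,
              show (g * x * g⁻¹)⁻¹ = g * x⁻¹ * g⁻¹ by group]
            simp
          rw [f1, f2]
        rw [f0, hk, ← card_product]
        have hττ := (mem_Inv.1 J.τI).1
        refine (card_bij (fun p _ => (p.1, τ * p.2)) ?_ ?_ ?_).symm
        · rintro ⟨a, b⟩ hp
          simp only [hIL, hO, mem_filter, mem_product] at hp ⊢
          obtain ⟨⟨ha, ha2⟩, hb, hb2⟩ := hp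
          have hbτ : b * τ = τ * b := mem_Cz.1 hb2.2
          refine ⟨⟨⟨ha, ha2.1⟩, mem_Inv.2 ⟨?_, fun e => ?_⟩, ?_⟩, ?_⟩
          · calc τ * b * (τ * b) = τ * (b * τ) * b := by group
              _ = τ * τ * (b * b) := by rw [hbτ]; group
              _ = 1 := by rw [hττ, (mem_Inv.1 hb).1, one_mul]
          · have : τ = b := by rw [eq_inv_of_mul_eq_one_left e, Inv.inv hb]
            exact J.x_ne_inv ((mem_Cz'.1 (this ▸ hb2.1)).symm.trans J.τx)
          · calc τ * b * x * (τ * b)⁻¹ = τ * (b * x * b⁻¹) * τ⁻¹ := by group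
              _ = _ := by rw [mem_Cz'.1 hb2.1, J.τx]
          · obtain ⟨m, hm⟩ := J.outer_odd J.τI J.τx ha hb ha2 hb2
            have hc : Commute (a * b) τ := mem_Cz.1 (Subgroup.mul_mem _ ha2 hb2).2
            refine ⟨(orderOf (a * b) : ℕ), ?_⟩
            simp only [zpow_natCast]
            rw [← hbτ, ← mul_assoc, hc.mul_pow, pow_orderOf_eq_one, hm, pow_succ, pow_mul, pow_two, hττ]
            simp
        · rintro ⟨a, b⟩ _ ⟨c, d⟩ _ e
          simp only [Prod.mk.injEq, mul_right_inj] at e ⊢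
          exact e
        · rintro ⟨a, b⟩ hp
          simp only [hIL, hO, mem_filter, mem_product] at hp
          obtain ⟨⟨⟨ha, ha2⟩, hb, hb2⟩, h⟩ := hp
          obtain ⟨k1, k2⟩ := pair_mem_Cz J.τI ha hb h
          have hbτ : b * τ = τ * b := mem_Cz.1 k2
          refine ⟨(a, τ * b), ?_, by simp [← mul_assoc, hττ]⟩
          simp only [mem_filter, mem_product]
          refine ⟨⟨ha, ha2, k1⟩, mem_Inv.2 ⟨?_, fun e => ?_⟩, mem_Cz'.2 ?_,
            (Cz τ).mul_mem (self_mem_Cz τ) k2⟩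
          · calc τ * b * (τ * b) = τ * (b * τ) * b := by group
              _ = τ * τ * (b * b) := by rw [hbτ]; group
              _ = 1 := by rw [hττ, (mem_Inv.1 hb).1, one_mul]
          · have e2 : τ = b := by rw [eq_inv_of_mul_eq_one_left e, Inv.inv hb]
            subst e2
            have hI : a * τ ∈ Inv G := mem_Inv.2 ⟨by
              calc a * τ * (a * τ) = a * (τ * a) * τ := by group
                _ = a * a * (τ * τ) := by rw [← mem_Cz.1 k1]; group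
                _ = 1 := by rw [hττ, (mem_Inv.1 ha).1, one_mul], fun e3 => by
              rw [e3] at h
              exact (mem_Inv.1 J.τI).2 (by simpa using h)⟩
            have f1 := (inv_mem_zpowers J.τI h).2
            rw [Inv.order hI] at f1
            exact (mem_Inv.1 ha).2 (by simpa using f1)
          · calc τ * b * x * (τ * b)⁻¹ = τ * (b * x * b⁻¹) * τ⁻¹ := by group
              _ = (τ * x * τ⁻¹)⁻¹ := by rw [hb2]; group
              _ = _ := by rw [J.τx, inv_inv]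
    · intro t ht hn
      rw [card_eq_zero, filter_eq_empty_iff]
      intro p hp h
      obtain ⟨m, _, rfl⟩ := exists_pow_of_mem_zpowers h
      rcases Nat.even_or_odd m with hm | hm
      · exact hn (mem_union_left _ (mem_filter.2 ⟨ht, (pow_pm (hinv p hp) m).1 hm⟩))
      · exact hn (mem_union_right _ (mem_filter.2 ⟨ht, (pow_pm (hinv p hp) m).2 hm⟩))
  rw [e4, e5, card_product, J.card_IL hL, card_empty] at h3
  rw [← h2] at h1
  have h4 : O.card * k = 540 := by linarith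
  have h5 : O.card = 48 + 12 * k := by
    rw [← mul_assoc, h4] at h3; omega
  have h6 : k = 5 := by
    rw [h5] at h4
    have : k ≤ 5 := by nlinarith
    interval_cases k <;> omega
  rw [hnO]; omega

theorem outer_ten (hL : Nat.card (Cz x) = 1080) {v : G} (hv : v ∈ Inv G) (h : v * x * v⁻¹ = x⁻¹) :
    Nat.card ↥(Cz x ⊓ Cz v) = 10 := by
  obtain ⟨g, hg, e⟩ := J.outer_conj hL hv h
  rw [← (J.outer_count hL).2]
  refine sub_card_conj g fun a => ?_
  rw [Subgroup.mem_inf, Subgroup.mem_inf, ← e, mem_Cz_conj]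
  conv_rhs => rw [← mem_Cz'.1 hg, mem_Cz_conj]

end J3
end
end Cfsg.Agent.J3T
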