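import Cfsg.Agent.Lib.J3T.HF
import Cfsg.Prelude.Def_Transfer

/-! The hypotheses of `J₃`-type give the facts `HF`. -/

set_option autoImplicit false
set_option linter.unusedSectionVars false
open Finset Classical
open scoped commutatorElement

namespace Cfsg.Agent.J3T
noncomputable section
variable {G : Type*} [Group G] [Fintype G]

theorem pre_of {Y : Type*} [Group Y] [Fintype Y] (z : Y) (hz : orderOf z = 2) (zc : ∀ g, g * z = z * g)
    (E A : Subgroup Y) [hn : E.Normal] (hE : Cfsg.IsExtraspecial 2 ↥E) (hE32 : Nat.card ↥E = 32)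
    (hEA : E.IsComplement' A) (eA : ↥A ≃* ↥(alternatingGroup (Fin 5))) : Pre z E A := by
  have hzI := mem_Inv.1 (Inv.of_order hz)
  have cA : Nat.card A = 60 := by
    rw [Nat.card_congr eA.toEquiv, nat_card_alternatingGroup]; simp [Nat.factorial]
  haveI : IsSimpleGroup A := eA.isSimpleGroup
  have hsimp : ∀ N : Subgroup Y, N ≤ A → (∀ a ∈ A, ∀ n ∈ N, a * n * a⁻¹ ∈ N) → N = ⊥ ∨ N = A := by
    intro N hN h
    have : (N.subgroupOf A).Normal := ⟨fun n hn a => h a a.2 n hn⟩
    rcases this.eq_bot_or_eq_top with h | h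
    · left; rwa [Subgroup.subgroupOf_eq_bot, disjoint_iff, inf_eq_left.2 hN] at h
    · right; exact le_antisymm hN (Subgroup.subgroupOf_eq_top.1 h)
  have hord : ∀ a ∈ A, a ^ 2 = 1 ∨ a ^ 3 = 1 ∨ a ^ 5 = 1 := by
    intro a ha
    have key : ∀ k : ℕ, ((eA ⟨a, ha⟩ : alternatingGroup (Fin 5)) : Equiv.Perm (Fin 5)) ^ k = 1 →
        a ^ k = 1 := fun k h => by
      have : eA (⟨a, ha⟩ ^ k) = 1 := by rw [map_pow]; exact Subtype.ext h
      exact congrArg Subtype.val ((MulEquiv.map_eq_one_iff eA).1 this)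
    rcases a5_ord _ (Equiv.Perm.mem_alternatingGroup.1 (eA ⟨a, ha⟩).2) with h | h | h
    · exact Or.inl (key _ h)
    · exact Or.inr (Or.inl (key _ h))
    · exact Or.inr (Or.inr (key _ h))
  have sur : ∀ g, ∃ x ∈ E, ∃ a ∈ A, x * a = g := fun g => by
    obtain ⟨⟨x, a⟩, h, _⟩ := Subgroup.IsComplement.existsUnique hEA g
    exact ⟨x, x.2, a, a.2, h⟩
  have dis : ∀ g ∈ E, g ∈ A → g = 1 := fun g h1 h2 => Subgroup.disjoint_def.1 hEA.disjoint h1 h2
  have zE : z ∈ E := by
    obtain ⟨x, hx, a, ha, rfl⟩ := sur z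
    have hc : ∀ b ∈ A, b * a = a * b := fun b hb => by
      have e : x⁻¹ * (b * x * b⁻¹) = a * (b * a * b⁻¹)⁻¹ := by
        calc x⁻¹ * (b * x * b⁻¹) = x⁻¹ * (b * (x * a)) * a⁻¹ * b⁻¹ := by group
          _ = _ := by rw [zc b]; group
      have := dis _ (E.mul_mem (E.inv_mem hx) (hn.conj_mem x hx b))
        (e ▸ A.mul_mem ha (A.inv_mem (A.mul_mem (A.mul_mem hb ha) (A.inv_mem hb))))
      rw [e, mul_inv_eq_one, eq_mul_inv_iff_mul_eq] at this
      exact this.symm
    rcases hsimp (A ⊓ Subgroup.centralizer (A : Set Y)) inf_le_left (fun b hb n hn => by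
      rw [show b * n * b⁻¹ = n by rw [hn.2 b hb]; group]; exact hn) with h | h
    · have : a ∈ A ⊓ Subgroup.centralizer (A : Set Y) := ⟨ha, hc⟩
      rw [h, Subgroup.mem_bot] at this
      rw [this, mul_one]; exact hx
    · exact (no6 hord le_rfl (by rw [cA]; norm_num) fun a ha b hb => (h.ge hb).2 a ha).elim
  have cen : ∀ c ∈ E, (∀ a ∈ E, c * a = a * c) → c = 1 ∨ c = z := by
    intro c hc h
    have h2 : Nat.card ((Subgroup.center E).map E.subtype) = 2 := by
      rw [Subgroup.card_map_of_injective E.subtype_injective, hE.2]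
    refine eq_of_card_two h2 ⟨⟨z, zE⟩, Subgroup.mem_center_iff.2 fun g => Subtype.ext (zc g), rfl⟩ hzI.2
      ⟨⟨c, hc⟩, Subgroup.mem_center_iff.2 fun g => Subtype.ext (h g g.2).symm, rfl⟩
  refine ⟨hzI.1, hzI.2, zc, zE, fun g x hx => hn.conj_mem x hx g, fun a ha b hb => ?_, cen, hsimp, hord,
    hE32, cA, by rw [← hEA.card_mul_card, hE32, cA], sur, dis⟩
  have h1 : ⁅(⟨a, ha⟩ : E), (⟨b, hb⟩ : E)⁆ ∈ Subgroup.center E := by
    rw [← hE.1.2.2]; exact Subgroup.commutator_mem_commutator trivial trivial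
  have h2 := cen _ (⁅(⟨a, ha⟩ : E), (⟨b, hb⟩ : E)⁆ : E).2 fun g hg =>
    (congrArg Subtype.val (Subgroup.mem_center_iff.1 h1 ⟨g, hg⟩)).symm
  change a * b * a⁻¹ * b⁻¹ = 1 ∨ a * b * a⁻¹ * b⁻¹ = z at h2
  rcases h2 with h | h
  · left
    calc a * b = a * b * a⁻¹ * b⁻¹ * (b * a) := by group
      _ = _ := by rw [h, one_mul]
  · right; rw [← h]; group

theorem Pre.comm_triv {Y : Type*} [Group Y] [Fintype Y] {z : Y} {E A : Subgroup Y} (P : Pre z E A)
    (h : ∀ a ∈ A, ∀ x ∈ E, a * x = x * a) {p q : Y} (hp : p ^ 4 = 1) (hq : q ^ 4 = 1)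
    (hpq : (p * q) ^ 4 = 1) : p * q = q * p ∨ p * q = z * (q * p) := by
  have key : ∀ x ∈ E, ∀ a ∈ A, (x * a) ^ 4 = 1 → a * a = 1 := by
    intro x hx a ha h4
    have hx4 : x ^ 4 = 1 := by
      rw [show x ^ 4 = x * x * (x * x) by simp [pow_succ, mul_assoc]]
      rcases P.sq hx with e | e <;> rw [e]
      · simp
      · exact P.zz
    rw [(show Commute x a from (h a ha x hx).symm).mul_pow, hx4, one_mul] at h4
    rcases P.ord a ha with e | e | e
    · rwa [pow_two] at e
    · rw [pow_succ, e, one_mul] at h4; simp [h4]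
    · rw [pow_succ, h4, one_mul] at e; simp [e]
  obtain ⟨x, hx, a, ha, rfl⟩ := P.sur p
  obtain ⟨y, hy, b, hb, rfl⟩ := P.sur q
  have e1 : x * a * (y * b) = x * y * (a * b) := by
    rw [mul_assoc, ← mul_assoc a, h a ha y hy]; group
  have e2 : y * b * (x * a) = y * x * (b * a) := by
    rw [mul_assoc, ← mul_assoc b, h b hb x hx]; group
  have ha2 := key x hx a ha hp
  have hb2 := key y hy b hb hq
  have hab := key _ (E.mul_mem hx hy) _ (A.mul_mem ha hb) (e1 ▸ hpq)
  have e3 : a * b = b * a := by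
    calc a * b = (a * b)⁻¹ := eq_inv_of_mul_eq_one_left hab
      _ = b * a := by rw [mul_inv_rev, inv_eq_of_mul_eq_one_right ha2, inv_eq_of_mul_eq_one_right hb2]
  rw [e1, e2, e3]
  rcases P.comm x hx y hy with e | e <;> rw [e]
  · exact Or.inl rfl
  · right; group

theorem setup (hone : ∀ x y : G, orderOf x = 2 → orderOf y = 2 → IsConj x y)
    (t : G) (ht : orderOf t = 2) (E A : Subgroup ↥(Cz t)) [E.Normal]
    (hE : Cfsg.IsExtraspecial 2 ↥E) (hE32 : Nat.card ↥E = 32) (hEA : E.IsComplement' A)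
    (eA : ↥A ≃* ↥(alternatingGroup (Fin 5))) : ∃ x u s su τ : G, HF t x u s su τ := by
  set z : Cz t := ⟨t, self_mem_Cz t⟩ with hzdef
  have P : Pre z E A := pre_of z (by rw [← ht, ← Subgroup.orderOf_coe]) (fun g => Subtype.ext (mem_Cz.1 g.2))
    E A hE hE32 hEA eA
  rcases P.faith_or with hf | htr
  · obtain ⟨e, R⟩ := P.exists_rel hf
    obtain ⟨φ, h1, h2, h3, h4⟩ := R.exists_phi
    have F : Phi (fun a => (φ a : G)) t := ⟨by simp [h1, hzdef], fun a ha b hb => by simp [h2 a ha b hb],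
      fun a ha b hb h => h3 a ha b hb (Subtype.ext h), fun g => ⟨fun hg => by
        obtain ⟨a, ha, e⟩ := h4 ⟨g, hg⟩
        exact ⟨a, ha, congrArg Subtype.val e⟩, by rintro ⟨a, _, rfl⟩; exact (φ a).2⟩⟩
    exact ⟨_, _, _, _, _, F.hf⟩
  · exfalso
    obtain ⟨a, ha, hao⟩ := exists_order_of_dvd (D := A) Nat.prime_two (by rw [P.cA]; norm_num)
    obtain ⟨g, hg⟩ := isConj_iff.1 (hone a t (by rw [Subgroup.orderOf_coe, hao]) ht)
    have hnc : ∃ x ∈ E, ∃ y ∈ E, x * y ≠ y * x := by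
      by_contra hn
      push Not at hn
      have hsub : fs E ⊆ {1, z} := fun c hc => by
        simpa using P.cen c (mem_fs.1 hc) fun b hb => hn c (mem_fs.1 hc) b hb
      have := (card_le_card hsub).trans card_le_two
      rw [card_fs, P.cE] at this; omega
    obtain ⟨x, hx, y, hy, hxy⟩ := hnc
    have hm : ∀ w ∈ E, g * (w : G) * g⁻¹ ∈ Cz t := fun w hw => by
      have : g * (w : G) * g⁻¹ ∈ Cz (g * (a : G) * g⁻¹) :=
        (mem_Cz_conj g).2 (mem_Cz.2 (congrArg Subtype.val (htr a ha w hw)).symm)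
      rwa [hg] at this
    have h4 : ∀ w (hw : w ∈ E), (⟨g * (w : G) * g⁻¹, hm w hw⟩ : Cz t) ^ 4 = 1 := fun w hw => by
      have hx4 : w ^ 4 = 1 := by
        rw [show w ^ 4 = w * w * (w * w) by simp [pow_succ, mul_assoc]]
        rcases P.sq hw with e | e <;> rw [e]
        · simp
        · exact P.zz
      apply Subtype.ext
      simp only [SubmonoidClass.mk_pow, conj_pow, OneMemClass.coe_one]
      rw [← Subgroup.coe_pow, hx4]; simp
    have := P.comm_triv htr (h4 x hx) (h4 y hy) (by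
      convert h4 _ (E.mul_mem hx hy) using 2
      apply Subtype.ext; simp)
    have hxy' : (x : G) * y = t * (y * x) := congrArg Subtype.val ((P.comm x hx y hy).resolve_left hxy)
    rcases this with h | h <;> have h := congrArg Subtype.val h <;> simp only [Subgroup.coe_mul] at h
    · apply hxy; apply Subtype.ext
      simp only [Subgroup.coe_mul]
      calc (x : G) * y = g⁻¹ * (g * x * g⁻¹ * (g * y * g⁻¹)) * g := by group
        _ = _ := by rw [h]; group
    · have e : g * t * g⁻¹ = t := by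
        calc g * t * g⁻¹ = g * (t * (y * x)) * g⁻¹ * (g * (y * x) * g⁻¹)⁻¹ := by group
          _ = g * x * g⁻¹ * (g * y * g⁻¹) * (g * (y * x) * g⁻¹)⁻¹ := by rw [← hxy']; group
          _ = t := by rw [h]; simp only [hzdef]; group
      have e2 : (a : G) = t := by
        have := hg.trans e.symm
        simpa using this
      have e3 : a = z := Subtype.ext e2
      exact P.z1 (P.dis z P.zE (e3 ▸ ha))

end
end Cfsg.Agent.J3T
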