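import Cfsg.Agent.Lib.J3T.DW

/-! The T.I. set in `C(W)`. -/

set_option autoImplicit false
set_option linter.unusedSectionVars false
open Finset Classical

namespace Cfsg.Agent.J3T
noncomputable section
variable {G : Type*} [Group G] [Fintype G]

theorem exists_ne_one_of_card {A B S : Subgroup G} (hA : A ≤ S) (hB : B ≤ S)
    (h : Nat.card S < Nat.card A * Nat.card B) : ∃ c ∈ A ⊓ B, c ≠ 1 := by
  by_contra hn
  push Not at hn
  have h1 := card_mul_le hA hB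
  rw [(Subgroup.eq_bot_iff_forall _).2 hn, Subgroup.card_bot] at h1
  omega

namespace J3
variable {z x u s su τ : G} (J : J3 z x u s su τ) {σ : G} {T W : Subgroup G} (E : WD z x σ T W)
  (h5 : H5 x) {w0 : G} (hw0 : w0 ∈ W) (h01 : w0 ≠ 1)
include J E h5 hw0 h01

theorem eqD {w : G} (hw : w ∈ W) (h1 : w ≠ 1) : Cz w = Cz w0 :=
  le_antisymm ((J.dich E h5 hw h1).1 w0 hw0) ((J.dich E h5 hw0 h01).1 w hw)

theorem DW {w : G} (hw : w ∈ W) : Cz w0 ≤ Cz w := (J.dich E h5 hw0 h01).1 w hw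

omit h5 in
theorem dvd_D : 243 ∣ Nat.card (Cz w0) := by
  obtain ⟨P, hP, -, hPW⟩ := J.ex_P E
  exact hP ▸ Subgroup.card_dvd_of_le (hPW w0 hw0)

omit J h5 h01 in
theorem WD' : W ≤ Cz w0 := fun a ha => mem_Cz.2 (E.comm a (E.WT ha) w0 (E.WT hw0))

omit J h5 h01 in
theorem xD : x ∈ Cz w0 := mem_Cz_comm.1 (E.le (E.WT hw0))

omit h5 in
theorem zD {a : G} (ha : a ∈ Cz w0) (h : Cz w0 ≤ Cz a) : a ∈ W := by
  by_contra h2
  have h3 := (J.cj_of_T E ((J.cx_cw E hw0 h01).le ⟨ha, mem_Cz_comm.1 (h (xD E hw0))⟩) h2).card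
  have := (J.dvd_D E hw0 h01).trans (Subgroup.card_dvd_of_le h)
  rw [h3, E.cL] at this; omega

theorem gd_D {g : G} (hg : g ∈ Cz w0) (h1 : g ≠ 1) (hx : ¬ Cj x g) : Gd x g :=
  ⟨h1, hx, odd_order_of_mem (J.gd_odd (J.gd_W E hw0 h01)) hg, fun h =>
    gd_five h5 (J.gd_W E hw0 h01) (h.trans (Subgroup.orderOf_dvd_natCard _ hg))⟩

theorem σD {d : G} (hd : d ∈ Cz w0) : σ * d * σ⁻¹ ∈ Cz w0 := by
  have := (mem_Cz_conj σ).2 hd
  rwa [J.eqD E h5 hw0 h01 (E.σW hw0) (fun e => h01 (by simpa using e))] at this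

theorem step1 {h w : G} (hw : w ∈ W) (h1 : w ≠ 1) (hc : h * w * h⁻¹ ∈ Cz w0) : h * w * h⁻¹ ∈ W := by
  have hzz := (mem_Inv.1 J.zI).1
  have hzi := Inv.inv J.zI
  set D := Cz w0 with hD
  have hDo : Odd (Nat.card D) := J.gd_odd (J.gd_W E hw0 h01)
  have hD' : ∀ c ∈ cj h W, c ≠ 1 → Cz c = cj h D := fun c hc hc1 => by
    rw [hD, ← J.eqD E h5 hw0 h01 (mem_cj.1 hc) (fun e => hc1 (by
      calc c = h * (h⁻¹ * c * h) * h⁻¹ := by group
        _ = 1 := by rw [e]; group)), cj_Cz]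
    congr 1; group
  have hcW : h * w * h⁻¹ ∈ cj h W := conj_mem_cj.2 hw
  have hc1 : h * w * h⁻¹ ≠ 1 := fun e => h1 (by simpa using e)
  have hWD' : W ≤ cj h D := fun a ha => by
    rw [← hD' _ hcW hc1, mem_Cz_comm]; exact J.DW E h5 hw0 h01 ha hc
  have hW'D : cj h W ≤ D := fun c hc => by
    by_cases e : c = 1
    · rw [e]; exact D.one_mem
    · rw [hD, mem_Cz_comm, hD' c hc e]; exact hWD' hw0
  have fin : x ∈ cj h D → h * w * h⁻¹ ∈ W := fun hx => by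
    by_contra h2
    refine ((J.gd_W E hw h1).conj h).2.1 (J.cj_of_T E ((J.cx_cw E hw0 h01).le ⟨hc, ?_⟩) h2)
    exact mem_Cz_comm.1 (by rw [hD' _ hcW hc1]; exact hx)
  rcases (J.dich E h5 hw0 h01).2 with hA | ⟨B, hB, memB⟩
  · by_contra h2
    have h3 := (hA _ hc h2 ((J.gd_W E hw h1).conj h).2.1).1
    obtain ⟨c, hc2, hc3⟩ := exists_ne_one_of_card (A := W) (B := cj h W) (S := D ⊓ Cz (h * w * h⁻¹))
      (fun a ha => ⟨WD' E hw0 ha, by rw [hD' _ hcW hc1]; exact hWD' ha⟩)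
      (fun a ha => ⟨hW'D ha, by rw [hD' _ hcW hc1]; exact mem_cj.2 (WD' E hw0 (mem_cj.1 ha))⟩)
      (by rw [card_cj, E.cW]; exact lt_of_le_of_lt h3 (by norm_num))
    refine h2 (fin ?_)
    rw [← hD' c hc2.2 hc3, J.eqD E h5 hw0 h01 hc2.1 hc3]; exact xD E hw0
  have hBD : B ≤ D := fun a ha => ((memB a).1 ha).1
  have hBi : ∀ a ∈ B, z * a * z = a⁻¹ := fun a ha => ((memB a).1 ha).2
  have hBc : ∀ a ∈ B, ∀ b ∈ B, a * b = b * a := fun a ha b hb => comm_of_inverts hzz hBi ha hb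
  have h243 := Nat.le_of_dvd Nat.card_pos (J.dvd_D E hw0 h01)
  rw [← hD] at hB h243
  obtain ⟨c, hc2, hc3⟩ := exists_ne_one_of_card hW'D hBD (by rw [card_cj, E.cW]; omega)
  have hBD' : B ≤ cj h D := fun a ha => by rw [← hD' c hc2.1 hc3]; exact mem_Cz.2 (hBc a ha c hc2.2)
  have hB'D' : cj h B ≤ cj h D := fun a ha => mem_cj.2 (hBD (mem_cj.1 ha))
  have hBB : cj h B = B := by
    by_contra hne
    obtain ⟨b', hb', hb'B⟩ : ∃ b' ∈ cj h B, b' ∉ B := by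
      by_contra hn
      push Not at hn
      exact hne (Subgroup.eq_of_le_of_card_ge hn (by rw [card_cj]))
    have h2 : B ⊓ cj h B ≤ cj h W := fun a ha => by
      have h3 : cj h D ⊓ Cz a = cj h D := eq_of_index_three (B := B) (lt_of_le_of_ne
        (fun b hb => ⟨hBD' hb, mem_Cz.2 (hBc b hb a ha.1)⟩) fun e => hb'B (e ▸ ⟨hB'D' hb', by
          have := (mem_Cz_conj h).2 (mem_Cz.2 (hBc _ (mem_cj.1 hb') _ (mem_cj.1 ha.2)))
          simpa [mul_assoc] using this⟩)) inf_le_left (by rw [card_cj, hB])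
      refine mem_cj.2 (J.zD E hw0 h01 (hBD (mem_cj.1 ha.2)) fun d hd => ?_)
      have := (mem_Cz_conj h⁻¹).2 (h3.ge (conj_mem_cj.2 hd)).2
      simpa [mul_assoc] using this
    have h3 := Subgroup.card_le_of_le h2
    have h4 := card_mul_le hBD' hB'D'
    rw [card_cj, E.cW] at h3
    rw [card_cj, card_cj, ← hB] at h4
    have h6 : Nat.card B * Nat.card B ≤ Nat.card B * 27 := by nlinarith
    have := Nat.le_of_mul_le_mul_left h6 Nat.card_pos
    omega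
  have hhB : ∀ a ∈ B, h * a * h⁻¹ ∈ B := fun a ha => hBB.le (conj_mem_cj.2 ha)
  have hhB' : ∀ a ∈ B, h⁻¹ * a * h ∈ B := fun a ha => mem_cj.1 (hBB.ge ha)
  have hcent : ∀ a ∈ B, h * z * h⁻¹ * z ∈ Cz a := fun a ha => mem_Cz'.2 (by
    calc h * z * h⁻¹ * z * a * (h * z * h⁻¹ * z)⁻¹ = h * z * h⁻¹ * (z * a * z⁻¹) * h * z⁻¹ * h⁻¹ := by group
      _ = h * (z * (h⁻¹ * a * h) * z⁻¹)⁻¹ * h⁻¹ := by rw [hzi, hBi a ha]; group; simp [hzi]
      _ = a := by rw [hzi, hBi _ (hhB' a ha)]; group)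
  have hw0B : w0 ∈ B := (memB w0).2 ⟨self_mem_Cz w0, E.Wz hw0⟩
  have hzB : h * z * h⁻¹ * z ∈ B := by
    by_contra hn
    have h2 : B ≤ W := fun a ha => J.zD E hw0 h01 (hBD ha) (by
      have : D ⊓ Cz a = D := eq_of_index_three (B := B) (lt_of_le_of_ne
        (fun b hb => ⟨hBD hb, mem_Cz.2 (hBc b hb a ha)⟩) fun e => hn (e ▸ ⟨hcent w0 hw0B, hcent a ha⟩))
        inf_le_left hB
      rw [← hD, ← this]; exact inf_le_right)
    have := Subgroup.card_le_of_le h2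
    rw [E.cW] at this; omega
  obtain ⟨j, hj⟩ := odd_conj (mem_Inv.1 (Inv.conj J.zI h)).1 hzz (odd_order_of_mem hDo (hBD hzB))
  obtain ⟨b, hb, hbj⟩ : ∃ b ∈ B, b * z * b⁻¹ = h * z * h⁻¹ := ⟨_, Subgroup.pow_mem _ hzB j, hj⟩
  let Y : Subgroup G := Cz z ⊓ Subgroup.normalizer (B : Set G)
  have hYD : ∀ g ∈ Cz z, (∀ d ∈ D, g * d * g⁻¹ ∈ D) → g ∈ Y := fun g hg h2 =>
    ⟨hg, mem_normalizer_iff'.2 fun a ha => (memB _).2 ⟨h2 a (hBD ha), by
      have e : z * g = g * z := (mem_Cz.1 hg).symm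
      have e' : g⁻¹ * z = z * g⁻¹ := mem_Cz.1 ((Cz z).inv_mem hg)
      calc z * (g * a * g⁻¹) * z = (z * g) * a * (g⁻¹ * z) := by group
        _ = g * (z * a * z) * g⁻¹ := by rw [e, e']; group
        _ = _ := by rw [hBi a ha]; group⟩⟩
  have hxY : x ∈ Y := hYD x J.xz fun d hd => D.mul_mem (D.mul_mem (xD E hw0) hd) (D.inv_mem (xD E hw0))
  have hσY : σ ∈ Y := hYD σ E.σz fun d hd => J.σD E h5 hw0 h01 hd
  have hhY : b⁻¹ * h ∈ Y := ⟨mem_Cz'.2 (by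
      calc _ = b⁻¹ * (h * z * h⁻¹) * b := by group
        _ = z := by rw [← hbj]; group),
    Subgroup.mul_mem _ (Subgroup.inv_mem _ (Subgroup.le_normalizer hb)) (mem_normalizer_iff'.2 hhB)⟩
  rcases J.h7 Y inf_le_left hxY σ hσY E.σx (fun e => by
      have := orderOf_dvd_of_pow_eq_one (show σ ^ 2 = 1 by rwa [pow_two])
      rw [E.σo] at this; omega) (b⁻¹ * h * x * (b⁻¹ * h)⁻¹)
      (Y.mul_mem (Y.mul_mem hhY hxY) (Y.inv_mem hhY)) (by rw [conj_pow, J.x3]; group) with h2 | ⟨t, ht, htI, htz⟩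
  · refine fin ((Subgroup.zpowers_le.2 ?_) (mem_zpowers_of_prime Nat.prime_three J.xo h2
      (fun e => J.x1 (by
        calc x = (b⁻¹ * h)⁻¹ * (b⁻¹ * h * x * (b⁻¹ * h)⁻¹) * (b⁻¹ * h) := by group
          _ = 1 := by rw [e]; group))))
    rw [show b⁻¹ * h * x * (b⁻¹ * h)⁻¹ = b⁻¹ * (h * x * h⁻¹) * b by group]
    exact Subgroup.mul_mem _ (Subgroup.mul_mem _ (Subgroup.inv_mem _ (hBD' hb)) (conj_mem_cj.2 (xD E hw0)))
      (hBD' hb)
  · exfalso
    have hBo : Odd (Nat.card B) := Odd.of_dvd_nat hDo (Subgroup.card_dvd_of_le hBD)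
    have hsm : ∀ v ∈ Inv G, Nat.card ↥(B ⊓ Cz v) ≤ 3 := fun v hv => by
      have hd := Subgroup.card_dvd_of_le ((inf_le_left : B ⊓ Cz v ≤ B).trans hBD)
      exact Nat.le_of_dvd (by norm_num) (J.small hv inf_le_right (Odd.of_dvd_nat hDo hd)
        fun h => gd_five h5 (J.gd_W E hw0 h01) (h.trans hd))
    have h3 := inverted_card hBo htI (fun d hd => by
      have := mem_normalizer_iff'.1 ht.2 d hd
      rwa [Inv.inv htI] at this)
    have htt := (mem_Inv.1 htI).1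
    have htz' : t * z = z * t := mem_Cz.1 ht.1
    have hI : t * z ∈ Inv G := mem_Inv.2 ⟨by
      calc t * z * (t * z) = t * (z * t) * z := by group
        _ = t * t * (z * z) := by rw [← htz']; group
        _ = 1 := by rw [htt, hzz, one_mul], fun e => htz (by rw [eq_inv_of_mul_eq_one_left e, hzi])⟩
    have h4 : ((fs B).filter fun d => t * d * t = d⁻¹).card ≤ Nat.card ↥(B ⊓ Cz (t * z)) := by
      rw [← card_fs]
      refine card_le_card fun d hd => mem_fs.2 ⟨mem_fs.1 (mem_filter.1 hd).1, mem_Cz_comm.1 (mem_Cz'.2 ?_)⟩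
      calc t * z * d * (t * z)⁻¹ = t * (z * d * z⁻¹) * t⁻¹ := by group
        _ = (t * d * t⁻¹)⁻¹ := by rw [hzi, hBi d (mem_fs.1 (mem_filter.1 hd).1)]; group
        _ = d := by rw [Inv.inv htI, (mem_filter.1 hd).2, inv_inv]
    have h6 := hsm _ hI
    have h7 := hsm _ htI
    have : Nat.card B ≤ 3 * 3 := by rw [← h3]; exact Nat.mul_le_mul (h4.trans h6) h7
    omega

theorem oddN {n : G} (hn : ∀ w ∈ W, n * w * n⁻¹ ∈ W) (ho : Odd (orderOf n)) : n ∈ Cz w0 := by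
  have h1 := orbit_card (Subgroup.zpowers n) w0
  have h2 : (cls (Subgroup.zpowers n) {w0}).card ∣ ((fs W).erase 1).card :=
    dvd_card_of_orbits (Subgroup.zpowers n) _ _ (fun a ha h hh => conj_pow_mem (fun b hb =>
      mem_erase.2 ⟨fun e => (mem_erase.1 hb).1 (by simpa using e), mem_fs.2 (hn b (mem_fs.1 (mem_erase.1 hb).2))⟩)
      hh a ha) fun a ha => by
      have h3 := orbit_card (Subgroup.zpowers n) a
      rw [J.eqD E h5 hw0 h01 (mem_fs.1 (mem_erase.1 ha).2) (mem_erase.1 ha).1, ← h1] at h3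
      rw [Nat.eq_of_mul_eq_mul_right Nat.card_pos h3]
  rw [E.card_W1] at h2
  rw [Nat.card_zpowers] at h1
  have h4 : (cls (Subgroup.zpowers n) {w0}).card = 1 :=
    Nat.eq_one_of_dvd_coprimes (Nat.Coprime.pow_right 3 (Nat.coprime_two_right.2 ho)) ⟨_, h1.symm⟩ h2
  exact mem_Cz'.2 (card_le_one.1 h4.le _ (mem_cls1.2 ⟨n, Subgroup.mem_zpowers n, rfl⟩) _
    (mem_cls1.2 ⟨1, Subgroup.one_mem _, by simp⟩))

theorem CD_real {c : G} (hc : c ∈ Cz w0) (hW : c ∉ W) (hz : z * c * z = c⁻¹) : Cz c ≤ Cz w0 := by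
  have hzz := (mem_Inv.1 J.zI).1
  have hg : Gd x c := J.gd_D E h5 hw0 h01 hc (fun e => hW (e ▸ W.one_mem)) (J.inv_not_cj E hw0 h01 hc hz)
  have hb : Cz c ⊓ Cz z = ⊥ := by
    rw [eq_bot_iff]; intro d hd
    rcases J.oddc J.zI hd.2 (odd_order_of_mem (J.gd_odd hg) hd.1) with e | e | e
    · exact e
    · exfalso
      obtain ⟨k, hk⟩ := J.gd_cj E hg hd.1 (J.cj3 J.zI hd.2 e)
      have := J.step1 E h5 hw0 h01 (h := k⁻¹) hk (hg.conj k).1 (by simpa [mul_assoc] using hc)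
      exact hW (by simpa [mul_assoc] using this)
    · exact absurd (e ▸ Subgroup.orderOf_dvd_natCard _ hd.1) (gd_five h5 hg)
  have := fpf_inverts (J.gd_odd hg) J.zI (fun d hd => norm_Cz_of_inverts hzz hz hd) hb
  exact fun d hd => mem_Cz.2 (comm_of_inverts hzz this hd (mem_Cz_comm.1 hc))

theorem CD {g : G} (hg : g ∈ Cz w0) (h1 : g ≠ 1) (hx : ¬ Cj x g) : Cz g ≤ Cz w0 := by
  haveI : Fact (Nat.Prime 3) := ⟨Nat.prime_three⟩
  by_cases hW : g ∈ W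
  · exact (J.eqD E h5 hw0 h01 hW h1).le
  rcases (J.dich E h5 hw0 h01).2 with hA | ⟨B, hB, memB⟩
  · obtain ⟨-, k, hk, e⟩ := hA g hg hW hx
    have h2 := J.CD_real E h5 hw0 h01 (Subgroup.mul_mem _ (Subgroup.mul_mem _ hk hg) (Subgroup.inv_mem _ hk))
      (fun h => hW (by
        have := mem_Cz'.1 (J.DW E h5 hw0 h01 h (Subgroup.inv_mem _ hk))
        rw [← this] at h
        simpa [mul_assoc] using h)) e
    intro d hd
    have := Subgroup.mul_mem _ (Subgroup.mul_mem _ (Subgroup.inv_mem _ hk) (h2 ((mem_Cz_conj k).2 hd))) hk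
    simpa [mul_assoc] using this
  by_cases hgB : g ∈ B
  · exact J.CD_real E h5 hw0 h01 hg hW ((memB g).1 hgB).2
  have hzz := (mem_Inv.1 J.zI).1
  set D := Cz w0 with hD
  have hgd := J.gd_D E h5 hw0 h01 hg h1 hx
  have hDo : Odd (Nat.card D) := J.gd_odd (J.gd_W E hw0 h01)
  have hBD : B ≤ D := fun a ha => ((memB a).1 ha).1
  have hBc : ∀ a ∈ B, ∀ b ∈ B, a * b = b * a := fun a ha b hb =>
    comm_of_inverts hzz (fun a ha => ((memB a).1 ha).2) ha hb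
  have hWg : W ≤ D ⊓ Cz g := fun a ha => ⟨WD' E hw0 ha, mem_Cz_comm.1 (J.DW E h5 hw0 h01 ha hg)⟩
  have h2 : D ⊓ Cz g ⊓ B ≤ W := fun a ha => J.zD E hw0 h01 ha.1.1 (by
    have : D ⊓ Cz a = D := eq_of_index_three (B := B) (lt_of_le_of_ne
      (fun b hb => ⟨hBD hb, mem_Cz.2 (hBc b hb a ha.2)⟩) fun e => hgB (e ▸ ⟨hg, mem_Cz_comm.1 ha.1.2⟩))
      inf_le_left hB
    rw [← hD, ← this]; exact inf_le_right)
  have h3 := Subgroup.card_le_of_le h2
  have h4 := card_mul_le (inf_le_left : D ⊓ Cz g ≤ D) hBD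
  rw [E.cW] at h3
  rw [← hB] at h4
  have h6 : Nat.card ↥(D ⊓ Cz g) ≤ 27 := by
    refine Nat.le_of_mul_le_mul_right ?_ (Nat.card_pos (α := B))
    nlinarith
  have key : ∀ S : Subgroup G, W ≤ S → g ∈ S → S ≤ D ⊓ Cz g → Nat.card S = 27 := by
    intro S k1 k2 k3
    have a1 := sub_card_lt (lt_of_le_of_ne k1 fun e => hW (e ▸ k2))
    have a2 := Subgroup.card_dvd_of_le k1
    have a3 := Subgroup.card_le_of_le k3
    obtain ⟨j, hj⟩ := Odd.of_dvd_nat hDo (Subgroup.card_dvd_of_le (k3.trans inf_le_left))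
    rw [E.cW] at a1 a2
    omega
  have h27 := key _ hWg ⟨hg, self_mem_Cz g⟩ le_rfl
  have hcomm : ∀ a ∈ D ⊓ Cz g, ∀ b ∈ D ⊓ Cz g, a * b = b * a := by
    have := key (D ⊓ Cz g ⊓ Subgroup.centralizer ((D ⊓ Cz g : Subgroup G) : Set G))
      (fun a ha => ⟨hWg ha, fun b hb => mem_Cz.1 (J.DW E h5 hw0 h01 ha hb.1)⟩)
      ⟨⟨hg, self_mem_Cz g⟩, fun b hb => mem_Cz.1 hb.2⟩ inf_le_left
    have e := Subgroup.eq_of_le_of_card_ge (inf_le_left : D ⊓ Cz g ⊓ Subgroup.centralizer _ ≤ D ⊓ Cz g)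
      (by rw [this, h27])
    exact fun a ha b hb => (e.ge hb).2 a ha
  obtain ⟨Q, q1, q2, q3, q4⟩ := burnside (p := 3) (C := Cz g) (T := D ⊓ Cz g) inf_le_right
    (IsPGroup.of_card (n := 3) h27) hcomm fun n hn h => ⟨J.oddN E h5 hw0 h01 (fun w hw => by
      by_cases e : w = 1
      · simp [e]
      · exact J.step1 E h5 hw0 h01 hw e (h w (hWg hw)).1) (odd_order_of_mem (J.gd_odd hgd) hn), hn⟩
  have q5 := fpf33 E.cW E.exp3 (fun w hw => q2 w (hWg hw).2) q3 fun w hw hw1 a ha h => by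
    have d1 := Subgroup.orderOf_dvd_natCard _ (show a ∈ D ⊓ Cz g from
      ⟨(J.eqD E h5 hw0 h01 hw hw1).le h, q1 ha⟩)
    rw [h27] at d1
    rw [← orderOf_eq_one_iff]
    exact Nat.eq_one_of_dvd_coprimes (Nat.Coprime.pow_left 3
      ((Nat.Prime.coprime_iff_not_dvd Nat.prime_three).2 q3)) d1 (Subgroup.orderOf_dvd_natCard _ ha)
  have : D ⊓ Cz g = Cz g := Subgroup.eq_of_le_of_card_ge inf_le_right (by rw [← q4, q5, one_mul])
  rw [← this]; exact inf_le_left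

theorem normD {h : G} (hh : h ∈ Subgroup.normalizer (W : Set G)) {d : G} (hd : d ∈ Cz w0) :
    h * d * h⁻¹ ∈ Cz w0 := by
  have := (mem_Cz_conj h).2 hd
  rwa [J.eqD E h5 hw0 h01 (mem_normalizer_iff'.1 hh w0 hw0) (fun e => h01 (by simpa using e))] at this

theorem tiD : ∀ g ∈ (fs (Cz w0)).filter (fun g => g ≠ 1 ∧ ¬ Cj x g), ∀ h ∈ (⊤ : Subgroup G),
    (h * g * h⁻¹ ∈ (fs (Cz w0)).filter (fun g => g ≠ 1 ∧ ¬ Cj x g) ↔ h ∈ Subgroup.normalizer (W : Set G)) := by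
  intro g hg h _
  obtain ⟨k1, k2, k3⟩ := mem_filter.1 hg
  constructor
  · intro hh
    obtain ⟨l1, l2, l3⟩ := mem_filter.1 hh
    refine mem_normalizer_iff'.2 fun w hw => ?_
    by_cases e : w = 1
    · simp [e]
    · exact J.step1 E h5 hw0 h01 hw e (J.CD E h5 hw0 h01 (mem_fs.1 l1) l2 l3
        ((mem_Cz_conj h).2 (mem_Cz_comm.1 (J.DW E h5 hw0 h01 hw (mem_fs.1 k1)))))
  · intro hh
    exact mem_filter.2 ⟨mem_fs.2 (J.normD E h5 hw0 h01 hh (mem_fs.1 k1)), fun e => k2 (by simpa using e),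
      fun e => k3 e.of_conj⟩

theorem card_NW : Nat.card (Subgroup.normalizer (W : Set G)) = 8 * Nat.card (Cz w0) := by
  have h := orbit_card (Subgroup.normalizer (W : Set G)) w0
  have e : cls (Subgroup.normalizer (W : Set G)) {w0} = (fs W).erase 1 := by
    ext a; rw [mem_cls1, mem_erase, mem_fs]
    constructor
    · rintro ⟨n, hn, rfl⟩
      exact ⟨fun e => h01 (by simpa using e), mem_normalizer_iff'.1 hn w0 hw0⟩
    · rintro ⟨h1, h2⟩
      obtain ⟨k, hk, rfl⟩ := E.trans w0 hw0 h01 a h2 h1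
      exact ⟨k, (Subgroup.zpowers_le.2 (mem_normalizer_iff'.2 fun w hw => E.σW hw)) hk, rfl⟩
  rw [e, E.card_W1, inf_eq_right.2 (fun d hd => mem_normalizer_iff'.2 fun w hw => by
    rw [mem_Cz'.1 (J.DW E h5 hw0 h01 hw hd)]; exact hw)] at h
  exact h.symm

theorem inv_NW {t : G} (ht : t ∈ Inv G) (hn : t ∈ Subgroup.normalizer (W : Set G)) : t * w0 * t = w0⁻¹ := by
  have htt := (mem_Inv.1 ht).1
  have h1 : t * w0 * t ∈ W := by
    have := mem_normalizer_iff'.1 hn w0 hw0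
    rwa [Inv.inv ht] at this
  rw [eq_inv_iff_mul_eq_one]
  by_contra h2
  refine not_mem_of_odd (J.gd_odd (J.gd_W E (W.mul_mem h1 hw0) h2)) ht (mem_Cz.2 ?_)
  calc t * (t * w0 * t * w0) = (t * t) * w0 * t * w0 := by group
    _ = w0 * t * w0 * (t * t) := by rw [htt]; group
    _ = w0 * (t * w0 * t) * t := by group
    _ = _ := by rw [← E.comm _ (E.WT h1) _ (E.WT hw0)]

theorem sum_ninv : (∑ g ∈ (fs (Cz w0)).filter (fun g => g ≠ 1 ∧ ¬ Cj x g), ninv g) * 9 + Nat.card (Cz w0) * 3 =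
    Nat.card (Cz w0) * Nat.card (Cz w0) := by
  have hzz := (mem_Inv.1 J.zI).1
  have hDo : Odd (Nat.card (Cz w0)) := J.gd_odd (J.gd_W E hw0 h01)
  set IN := (Inv G).filter (· ∈ Subgroup.normalizer (W : Set G)) with hIN
  have hmul : ∀ a ∈ Inv G, ∀ b ∈ Inv G, a * w0 * a = w0⁻¹ → b * w0 * b = w0⁻¹ → a * b ∈ Cz w0 := by
    intro a ha b hb h1 h2
    have e1 : b * w0 = w0⁻¹ * b := by rw [← h2, mul_assoc, (mem_Inv.1 hb).1, mul_one]
    have e2 : a * w0⁻¹ = w0 * a := by rw [← h1, ← mul_assoc, ← mul_assoc, (mem_Inv.1 ha).1, one_mul]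
    rw [mem_Cz, mul_assoc, e1, ← mul_assoc, e2, mul_assoc]
  have hzN : z ∈ Subgroup.normalizer (W : Set G) := mem_normalizer_iff'.2 fun w hw => by
    rw [Inv.inv J.zI, E.Wz hw]; exact W.inv_mem hw
  have hDN : Cz w0 ≤ Subgroup.normalizer (W : Set G) := fun d hd => mem_normalizer_iff'.2 fun w hw => by
    rw [mem_Cz'.1 (J.DW E h5 hw0 h01 hw hd)]; exact hw
  have hcj : ∀ t ∈ IN, ∃ k ∈ Cz w0, k * z * k⁻¹ = t := fun t ht => by
    obtain ⟨h1, h2⟩ := mem_filter.1 ht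
    have h3 := hmul t h1 z J.zI (J.inv_NW E h5 hw0 h01 h1 h2) (E.Wz hw0)
    obtain ⟨m, hm⟩ := odd_conj (mem_Inv.1 h1).1 hzz (odd_order_of_mem hDo h3)
    exact ⟨_, Subgroup.pow_mem _ h3 m, hm⟩
  have h1 := orbit_card (Cz w0) z
  have e1 : cls (Cz w0) {z} = IN := by
    ext a; rw [mem_cls1]
    refine ⟨?_, hcj a⟩
    rintro ⟨k, hk, rfl⟩
    exact mem_filter.2 ⟨Inv.conj J.zI k, Subgroup.mul_mem _ (Subgroup.mul_mem _ (hDN hk) hzN)
      (Subgroup.inv_mem _ (hDN hk))⟩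
  rw [e1, J.cz_cw E h5 hw0 h01, Nat.card_zpowers, J.xo] at h1
  have h2 : IN.offDiag.card = ∑ g ∈ (fs (Cz w0)).filter (fun g => g ≠ 1 ∧ ¬ Cj x g), ninv g := by
    rw [card_eq_sum_card_fiberwise (f := fun p : G × G => p.1 * p.2)
      (t := (fs (Cz w0)).filter (fun g => g ≠ 1 ∧ ¬ Cj x g))]
    · refine sum_congr rfl fun y hy => ?_
      refine card_bij (fun p _ => p.1) ?_ ?_ ?_
      · rintro ⟨a, b⟩ hp
        obtain ⟨hp1, rfl⟩ := mem_filter.1 hp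
        obtain ⟨ha, hb, -⟩ := mem_offDiag.1 hp1
        have ha := (mem_filter.1 ha).1
        have hb := (mem_filter.1 hb).1
        refine mem_filter.2 ⟨ha, ?_⟩
        simp only at ha hb ⊢
        rw [← mul_assoc, (mem_Inv.1 ha).1, one_mul, mul_inv_rev, Inv.inv ha, Inv.inv hb]
      · rintro ⟨a, b⟩ hp ⟨c, d⟩ hq e
        simp only at e
        subst e
        have := (mem_filter.1 hp).2.trans (mem_filter.1 hq).2.symm
        simp only [mul_right_inj] at this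
        rw [this]
      · intro t ht
        obtain ⟨ht1, ht2⟩ := mem_filter.1 ht
        obtain ⟨k1, k2, k3⟩ := mem_filter.1 hy
        have htt := (mem_Inv.1 ht1).1
        have htN : t ∈ Subgroup.normalizer (W : Set G) := (J.tiD E h5 hw0 h01 y hy t trivial).1 (by
          rw [Inv.inv ht1, ht2]
          exact mem_filter.2 ⟨mem_fs.2 (Subgroup.inv_mem _ (mem_fs.1 k1)), fun e => k2 (by simpa using e),
            fun e => k3 (by simpa using J.cjx_inv e)⟩)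
        have e : t * (t * y) = y := by rw [← mul_assoc, htt, one_mul]
        refine ⟨(t, t * y), mem_filter.2 ⟨mem_offDiag.2 ⟨mem_filter.2 ⟨ht1, htN⟩, mem_filter.2
          ⟨mem_Inv.2 ⟨by rw [← mul_assoc, ht2, inv_mul_cancel], fun h => ?_⟩,
            Subgroup.mul_mem _ htN (hDN (mem_fs.1 k1))⟩, fun h => k2 (by simpa using h)⟩, e⟩, rfl⟩
        have h' : t * y = 1 := h
        have : y = t := by rw [← e, h', mul_one]
        exact not_mem_of_odd hDo ht1 (this ▸ mem_fs.1 k1)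
    · rintro ⟨a, b⟩ hp
      obtain ⟨ha, hb, hab⟩ := mem_offDiag.1 hp
      obtain ⟨ha1, ha2⟩ := mem_filter.1 ha
      obtain ⟨hb1, hb2⟩ := mem_filter.1 hb
      simp only at ha1 ha2 hb1 hb2 hab
      have h3 := hmul a ha1 b hb1 (J.inv_NW E h5 hw0 h01 ha1 ha2) (J.inv_NW E h5 hw0 h01 hb1 hb2)
      refine mem_filter.2 ⟨mem_fs.2 h3, fun e => hab (by
        have e' : a * b = 1 := e
        rw [eq_inv_of_mul_eq_one_left e', Inv.inv hb1]), fun e => ?_⟩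
      obtain ⟨k, hk, hka⟩ := hcj a ha
      refine J.inv_not_cj E hw0 h01 (Subgroup.mul_mem _ (Subgroup.mul_mem _ (Subgroup.inv_mem _ hk) h3)
        (Subgroup.inv_mem _ (Subgroup.inv_mem _ hk))) ?_ (e.conj k⁻¹)
      calc z * (k⁻¹ * (a * b) * k⁻¹⁻¹) * z = k⁻¹ * ((k * z * k⁻¹) * (a * b) * (k * z * k⁻¹)) * k := by group
        _ = k⁻¹ * (a * a * (b⁻¹ * a⁻¹)) * k := by rw [hka, Inv.inv ha1, Inv.inv hb1]; group
        _ = _ := by rw [(mem_Inv.1 ha1).1]; group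
  rw [← h2, offDiag_card, ← h1]
  have : IN.card ≤ IN.card * IN.card := Nat.le_mul_self _
  zify [this]; ring

theorem hallD {q : ℕ} (hq : q.Prime) (hd : q ∣ Nat.card (Cz w0)) : ¬ q ∣ (Cz w0).index := by
  haveI : Fact q.Prime := ⟨hq⟩
  obtain ⟨a, ha, ha1, hax, hao⟩ : ∃ a ∈ Cz w0, a ≠ 1 ∧ ¬ Cj x a ∧ orderOf a = q := by
    by_cases h3 : q = 3
    · exact ⟨w0, self_mem_Cz w0, h01, J.W_not_cj E hw0, h3 ▸ E.W_order hw0 h01⟩
    · obtain ⟨a, ha, ho⟩ := exists_order_of_dvd hq hd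
      exact ⟨a, ha, fun e => by rw [e, orderOf_one] at ho; exact hq.one_lt.ne ho,
        fun e => h3 (by rw [← ho, e.order, J.xo]), ho⟩
  have hp : IsPGroup q (Subgroup.zpowers a) := IsPGroup.of_card (n := 1) (by rw [Nat.card_zpowers, hao, pow_one])
  obtain ⟨Q, hQ⟩ := hp.exists_le_sylow
  haveI : Nontrivial (Q : Subgroup G) :=
    ⟨⟨⟨a, hQ (Subgroup.mem_zpowers a)⟩, 1, fun h => ha1 (congrArg Subtype.val h)⟩⟩
  haveI := Q.isPGroup'.center_nontrivial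
  obtain ⟨⟨w, hw⟩, hw1⟩ := exists_ne (1 : Subgroup.center (Q : Subgroup G))
  have hw1' : (w : G) ≠ 1 := fun h => hw1 (Subtype.ext (Subtype.ext h))
  have hwc : (Q : Subgroup G) ≤ Cz (w : G) := fun g hg =>
    mem_Cz.2 (congrArg Subtype.val (Subgroup.mem_center_iff.1 hw ⟨g, hg⟩))
  have hwD : (w : G) ∈ Cz w0 := J.CD E h5 hw0 h01 ha ha1 hax (mem_Cz_comm.1 (hwc (hQ (Subgroup.mem_zpowers a))))
  by_cases hx : Cj x w
  · exfalso
    obtain ⟨k, hk⟩ := pelt_of_mem Q.isPGroup' w.2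
    have h3 := orderOf_dvd_of_pow_eq_one hk
    rw [hx.order, J.xo] at h3
    have : q = 3 := ((Nat.prime_dvd_prime_iff_eq Nat.prime_three hq).1
      (Nat.prime_three.dvd_of_dvd_pow h3)).symm
    subst this
    have h4 := Q.pow_dvd_card_of_pow_dvd_card (n := 5)
      ((J.dvd_D E hw0 h01).trans (Subgroup.card_subgroup_dvd_card _))
    have := h4.trans (Subgroup.card_dvd_of_le hwc)
    rw [hx.card, E.cL] at this; omega
  · exact fun h => Q.not_dvd_index (h.trans (Subgroup.index_dvd_of_le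
      (hwc.trans (J.CD E h5 hw0 h01 hwD hw1' hx))))

end J3
end
end Cfsg.Agent.J3T
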