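import Cfsg.Agent.Lib.J3T.NX

/-! The Sylow 3-subgroup of `C(x)` is elementary abelian. -/

set_option autoImplicit false
set_option linter.unusedSectionVars false
open Finset Classical

namespace Cfsg.Agent.J3T
noncomputable section
variable {G : Type*} [Group G] [Fintype G]

theorem mem_zpowers_of_sq {x c : G} (hc : Odd (orderOf c)) (h : c * c ∈ Subgroup.zpowers x) :
    c ∈ Subgroup.zpowers x := by
  obtain ⟨m, hm⟩ := hc
  have : c = (c * c) ^ (m + 1) := by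
    rw [← pow_two, ← pow_mul, show 2 * (m + 1) = orderOf c + 1 by omega, pow_succ, pow_orderOf_eq_one,
      one_mul]
  rw [this]; exact Subgroup.pow_mem _ h _

theorem conj_zpowers_pm {x n a : G} (hn : n * x * n⁻¹ = x ∨ n * x * n⁻¹ = x⁻¹)
    (ha : a ∈ Subgroup.zpowers x) : n * a * n⁻¹ ∈ Subgroup.zpowers x := by
  have := conj_mem_zpowers n ha
  rcases hn with h | h <;> rw [h] at this
  · exact this
  · rwa [Subgroup.zpowers_inv] at this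

theorem pm_inv {x n : G} (hn : n * x * n⁻¹ = x ∨ n * x * n⁻¹ = x⁻¹) :
    n⁻¹ * x * n⁻¹⁻¹ = x ∨ n⁻¹ * x * n⁻¹⁻¹ = x⁻¹ := by
  rcases hn with h | h
  · left; nth_rewrite 1 [← h]; group
  · right
    calc n⁻¹ * x * n⁻¹⁻¹ = n⁻¹ * (x⁻¹)⁻¹ * n := by group
      _ = _ := by nth_rewrite 1 [← h]; group

theorem conj_Cz_pm {x n a : G} (hn : n * x * n⁻¹ = x ∨ n * x * n⁻¹ = x⁻¹) (ha : a ∈ Cz x) :
    n * a * n⁻¹ ∈ Cz x := by
  rcases hn with h | h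
  · exact (Cz x).mul_mem ((Cz x).mul_mem (mem_Cz'.2 h) ha) ((Cz x).inv_mem (mem_Cz'.2 h))
  · exact conj_Cz_of_inv h ha

namespace TD
variable {z x : G} {T : Subgroup G} (D : TD z x T)
include D

theorem zp_le : Subgroup.zpowers x ≤ T := Subgroup.zpowers_le.2 D.xT

theorem odd_order {c : G} (hc : c ∈ T) : Odd (orderOf c) := odd_order_of_mem (by rw [D.cT]; decide) hc

theorem normT {n c : G} (hn : n * x * n⁻¹ = x ∨ n * x * n⁻¹ = x⁻¹) (hc : c ∈ T)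
    (hc1 : c ∉ Subgroup.zpowers x) (h : n * c * n⁻¹ ∈ T) : ∀ t ∈ T, n * t * n⁻¹ ∈ T := by
  intro t ht
  have h1 : n * c * n⁻¹ ∉ Subgroup.zpowers x := fun h2 => hc1 (by
    simpa [mul_assoc] using conj_zpowers_pm (pm_inv hn) h2)
  rw [← D.cent _ h h1 _ (conj_Cz_pm hn (D.le ht))]
  have := conj_zpowers_pm hn ((D.cent c hc hc1 t (D.le ht)).2 ht)
  rwa [show n * (t * c * t⁻¹ * c⁻¹) * n⁻¹ =
    n * t * n⁻¹ * (n * c * n⁻¹) * (n * t * n⁻¹)⁻¹ * (n * c * n⁻¹)⁻¹ by group] at this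

theorem ex_c (hx : orderOf x = 3) : ∃ c ∈ T, c ∉ Subgroup.zpowers x := by
  by_contra hh
  push Not at hh
  have := Subgroup.card_le_of_le (show T ≤ _ from hh)
  rw [D.cT, Nat.card_zpowers, hx] at this; omega

theorem zT {c : G} (hc : c ∈ T) : z * c * z ∈ T := by
  have := T.mul_mem (D.zp_le (D.zinv c hc)) (T.inv_mem hc)
  simpa using this

theorem into {y : G} (hy : y ∈ Cz x) (h3 : ∃ k, orderOf y ∣ 3 ^ k) : ∃ g ∈ Cz x, g * y * g⁻¹ ∈ T := by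
  obtain ⟨k, hk⟩ := h3
  rcases D.odd y hy (Odd.of_dvd_nat (Odd.pow (by decide)) hk) with h | ⟨h, _⟩
  · exact h
  · exact absurd (Nat.Prime.dvd_of_dvd_pow Nat.prime_five (h.trans hk)) (by norm_num)

theorem comm_of_central (hx : orderOf x = 3) {r : G} (hr : r ∈ T) (hr1 : r ∉ Subgroup.zpowers x)
    (h : ∀ t ∈ T, t * r = r * t) : ∀ a ∈ T, ∀ b ∈ T, a * b = b * a := by
  let Z : Subgroup G := T ⊓ Subgroup.centralizer (T : Set G)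
  have hxZ : Subgroup.zpowers x ≤ Z := Subgroup.zpowers_le.2 ⟨D.xT, fun t ht => mem_Cz.1 (D.le ht)⟩
  have h1 := sub_card_lt (lt_of_le_of_ne hxZ fun e => hr1 (e ▸ (⟨hr, h⟩ : r ∈ Z)))
  rw [Nat.card_zpowers, hx] at h1
  intro a ha b hb
  by_contra hab
  have h2 : Z < T ⊓ Cz a := lt_of_le_of_ne (fun c hc => ⟨hc.1, mem_Cz.2 (hc.2 a ha).symm⟩) fun e =>
    hab ((e.ge ⟨ha, self_mem_Cz a⟩).2 b hb).symm
  have h3 : T ⊓ Cz a < T := lt_of_le_of_ne inf_le_left fun e => hab (mem_Cz.1 (e.ge hb).2).symm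
  have k2 := sub_card_lt h2
  have k3 := sub_card_lt h3
  have d1 : Nat.card Z ∣ 27 := D.cT ▸ Subgroup.card_dvd_of_le inf_le_left
  have d2 : Nat.card ↥(T ⊓ Cz a) ∣ 27 := D.cT ▸ Subgroup.card_dvd_of_le inf_le_left
  rw [D.cT] at k3
  generalize Nat.card Z = m at *
  generalize Nat.card ↥(T ⊓ Cz a) = n at *
  interval_cases n <;> interval_cases m <;> omega

theorem ex_alpha (hx : orderOf x = 3) (hna : ¬ ∀ a ∈ T, ∀ b ∈ T, a * b = b * a) {r : G} (hr : r ∈ T)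
    (hr1 : r ∉ Subgroup.zpowers x) : ∃ α ∈ T, α * r * α⁻¹ = x * r := by
  have : ∃ t ∈ T, t * r ≠ r * t := by
    by_contra hn
    push Not at hn
    exact hna (D.comm_of_central hx hr hr1 hn)
  obtain ⟨t, ht, hne⟩ := this
  rcases eq_of_order_three hx ((D.cent r hr hr1 t (D.le ht)).2 ht) with h | h | h
  · exact absurd (by
      calc t * r = t * r * t⁻¹ * r⁻¹ * (r * t) := by group
        _ = _ := by rw [h, one_mul]) hne
  · exact ⟨t, ht, by rw [← h]; group⟩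
  · refine ⟨t⁻¹, T.inv_mem ht, ?_⟩
    have e : t * r * t⁻¹ = x⁻¹ * r := by rw [← h]; group
    have e2 : t * x * t⁻¹ = x := mem_Cz'.1 (D.le ht)
    calc t⁻¹ * r * t⁻¹⁻¹ = t⁻¹ * (x * (x⁻¹ * r)) * t := by group
      _ = t⁻¹ * ((t * x * t⁻¹) * (t * r * t⁻¹)) * t := by rw [e, e2]
      _ = _ := by group

end TD

/-- the data on `T`, `W` and the element `σ` of order 8 -/
structure WD (z x σ : G) (T W : Subgroup G) : Prop extends TD z x T where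
  comm : ∀ a ∈ T, ∀ b ∈ T, a * b = b * a
  σx : σ * x * σ⁻¹ = x⁻¹
  σz : σ ∈ Cz z
  σ4 : σ ^ 4 = z
  σo : orderOf σ = 8
  σT : ∀ t ∈ T, σ * t * σ⁻¹ ∈ T
  memW : ∀ w, w ∈ W ↔ w ∈ T ∧ z * w * z = w⁻¹
  cW : Nat.card W = 9
  dec : ∀ c ∈ T, ∃ η ∈ Subgroup.zpowers x, ∃ w ∈ W, c = η * w
  trans : ∀ w ∈ W, w ≠ 1 → ∀ w' ∈ W, w' ≠ 1 → ∃ h ∈ Subgroup.zpowers σ, h * w * h⁻¹ = w'
  exp3 : ∀ w ∈ W, w ^ 3 = 1
  centT : ∀ c ∈ T, c ∉ Subgroup.zpowers x → Cz x ⊓ Cz c = T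
  mixed : ∀ w ∈ W, w ≠ 1 → Cj x (x * w) ∧ Cj x (x⁻¹ * w)

theorem z_mem_of_order8 {σ z : G} (h4 : σ ^ 4 = z) (ho : orderOf σ = 8) :
    ∀ h ∈ Subgroup.zpowers σ, h ≠ 1 → z ∈ Subgroup.zpowers h := by
  intro h hh h1
  obtain ⟨k, hk, rfl⟩ := exists_pow_of_mem_zpowers hh
  have h8 : σ ^ 8 = 1 := by rw [← ho, pow_orderOf_eq_one]
  have key : ∀ j m : ℕ, k * j = 4 + 8 * m → z ∈ Subgroup.zpowers (σ ^ k) := fun j m e => by
    have : z = (σ ^ k) ^ j := by rw [← pow_mul, e, pow_add, pow_mul, h8, one_pow, mul_one, h4]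
    rw [this]; exact Subgroup.npow_mem_zpowers _ _
  rw [ho] at hk
  interval_cases k
  · simp at h1
  · exact key 4 0 rfl
  · exact key 2 0 rfl
  · exact key 4 1 rfl
  · exact key 1 0 rfl
  · exact key 4 2 rfl
  · exact key 2 1 rfl
  · exact key 4 3 rfl

namespace J3
variable {z x u s su τ : G} (J : J3 z x u s su τ)
include J

theorem sigma_of {T : Subgroup G} (D : TD z x T) {n : G} (hn : n * x * n⁻¹ = x⁻¹)
    (hT : ∀ t ∈ T, n * t * n⁻¹ ∈ T) : ∃ t ∈ T, t⁻¹ * n ∈ Cz z ∧ (t⁻¹ * n) ^ 4 = z := by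
  have hzz := (mem_Inv.1 J.zI).1
  have hzi := Inv.inv J.zI
  have hT' : ∀ t ∈ T, n⁻¹ * t * n⁻¹⁻¹ ∈ T :=
    mem_normalizer_iff'.1 (Subgroup.inv_mem _ (mem_normalizer_iff'.2 hT))
  obtain ⟨c, hc, hc1⟩ := D.ex_c J.xo
  have hz' : n * z * n⁻¹ ∈ Cz x := conj_Cz_of_inv hn J.zx
  have h1 : n * z * n⁻¹ * z ∈ T := by
    rw [← D.cent c hc hc1 _ ((Cz x).mul_mem hz' J.zx)]
    have a1 := D.zinv c hc
    have a2 := conj_zpowers_pm (Or.inr hn) (D.zinv _ (hT' _ (T.inv_mem hc)))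
    have a3 : n * z * n⁻¹ * (z * c * z * c) * (n * z * n⁻¹)⁻¹ ∈ Subgroup.zpowers x :=
      conj_zpowers_pm (Or.inl (mem_Cz'.1 hz')) a1
    have := Subgroup.mul_mem _ a3 a2
    convert this using 1
    calc _ = n * z * n⁻¹ * z * c * z⁻¹ * n * z⁻¹ * n⁻¹ * c⁻¹ := by group
      _ = n * z * n⁻¹ * z * c * z * c * n * (z⁻¹ * z) * n⁻¹ * c⁻¹ * n * z * n⁻¹ * c⁻¹ := by
        rw [inv_mul_cancel, hzi]; group
      _ = _ := by group
  obtain ⟨k, hk⟩ := odd_conj (mem_Inv.1 (Inv.conj J.zI n)).1 hzz (D.odd_order h1)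
  obtain ⟨t, ht, htk⟩ : ∃ t ∈ T, t * z * t⁻¹ = n * z * n⁻¹ := ⟨_, T.pow_mem h1 k, hk⟩
  have hσz : t⁻¹ * n ∈ Cz z := by
    rw [mem_Cz']
    calc t⁻¹ * n * z * (t⁻¹ * n)⁻¹ = t⁻¹ * (n * z * n⁻¹) * t := by group
      _ = z := by rw [← htk]; group
  have hσx : t⁻¹ * n * x * (t⁻¹ * n)⁻¹ = x⁻¹ := by
    calc _ = t⁻¹ * (n * x * n⁻¹) * t⁻¹⁻¹ := by group
      _ = (t⁻¹ * x * t⁻¹⁻¹)⁻¹ := by rw [hn]; group
      _ = _ := by rw [mem_Cz'.1 ((Cz x).inv_mem (D.le ht))]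
  refine ⟨t, ht, hσz, (J.ox _ hσz hσx).resolve_left fun h2 => ?_⟩
  have hσT : ∀ a ∈ T, t⁻¹ * n * a * (t⁻¹ * n)⁻¹ ∈ T := fun a ha => by
    have := T.mul_mem (T.mul_mem (T.inv_mem ht) (hT a ha)) ht
    rwa [show t⁻¹ * (n * a * n⁻¹) * t = t⁻¹ * n * a * (t⁻¹ * n)⁻¹ by group] at this
  generalize t⁻¹ * n = σ at *
  have key : ∀ v : G, v * v = 1 → v * x * v⁻¹ = x⁻¹ → (∀ a ∈ T, v * a * v ∈ T) → v * c * v = c⁻¹ := by
    intro v h1 h2 h3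
    have hv : v ∈ Inv G := mem_Inv.2 ⟨h1, fun e => J.x_ne_inv (by rw [← h2, e]; simp)⟩
    refine fpf_inverts (by rw [D.cT]; decide) hv h3 ?_ c hc
    rw [← Subgroup.card_eq_one]
    have d1 : Nat.card ↥(T ⊓ Cz v) ∣ 27 := D.cT ▸ Subgroup.card_dvd_of_le inf_le_left
    have d2 : Nat.card ↥(T ⊓ Cz v) ∣ 10 :=
      J.outer_ten D.cL hv h2 ▸ Subgroup.card_dvd_of_le (inf_le_inf_right _ D.le)
    exact Nat.eq_one_of_dvd_coprimes (by norm_num) d1 d2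
  have hσi : σ⁻¹ = σ := inv_eq_of_mul_eq_one_right h2
  have hzσ : σ * z = z * σ := mem_Cz.1 hσz
  have k1 := key σ h2 hσx fun a ha => by have := hσT a ha; rwa [hσi] at this
  have k2 := key (σ * z) (by
      calc σ * z * (σ * z) = σ * (z * σ) * z := by group
        _ = σ * σ * (z * z) := by rw [← hzσ]; group
        _ = 1 := by rw [h2, hzz, one_mul])
    (by
      calc σ * z * x * (σ * z)⁻¹ = σ * (z * x * z⁻¹) * σ⁻¹ := by group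
        _ = _ := by rw [mem_Cz'.1 J.zx, hσx])
    (fun a ha => by
      have := hσT _ (D.zT ha)
      rw [hσi] at this
      rwa [show σ * z * a * (σ * z) = σ * (z * a * z) * σ by nth_rewrite 2 [hzσ]; group])
  have k3 : z * c * z = c := by
    have : σ * (z * c * z) * σ = σ * c * σ := by
      rw [k1, ← k2]; nth_rewrite 2 [hzσ]; group
    simpa using this
  have := D.zinv c hc
  rw [k3] at this
  exact hc1 (mem_zpowers_of_sq (D.odd_order hc) this)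

theorem T_comm {T : Subgroup G} (D : TD z x T) : ∀ a ∈ T, ∀ b ∈ T, a * b = b * a := by
  by_contra hna
  obtain ⟨-, r0, -, hr0, -, hr1, -, -, hr1', -, -⟩ := J.nv
  obtain ⟨l0, hl0, hr⟩ := D.into hr1 ⟨1, by rw [hr0.order, J.xo, pow_one]⟩
  have hrc := hr0.conj l0
  have hr' : l0 * r0 * l0⁻¹ ∉ Subgroup.zpowers x := fun h => hr1' (by
    simpa [mul_assoc] using conj_zpowers_pm (Or.inl (mem_Cz'.1 ((Cz x).inv_mem hl0))) h)
  generalize l0 * r0 * l0⁻¹ = r at *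
  obtain ⟨α, hα, hαr⟩ := D.ex_alpha J.xo hna hr hr'
  have hαx : α * x * α⁻¹ = x := mem_Cz'.1 (D.le hα)
  obtain ⟨g, hg⟩ := hrc
  have hxr : x * r = r * x := (mem_Cz.1 (D.le hr)).symm
  have h1 : g⁻¹ * x * g⁻¹⁻¹ ∈ Cz x := by
    have := (mem_Cz_conj g⁻¹).2 (mem_Cz_comm.1 (D.le hr))
    rwa [← hg, show g⁻¹ * (g * x * g⁻¹) * g⁻¹⁻¹ = x by group] at this
  obtain ⟨l, hl, h2⟩ := D.into h1 ⟨1, by rw [orderOf_conj', J.xo, pow_one]⟩
  have h3 : l * (g⁻¹ * x * g⁻¹⁻¹) * l⁻¹ ∉ Subgroup.zpowers x := fun h => hr' (by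
    have k1 := conj_mem_zpowers g (conj_zpowers_pm (Or.inl (mem_Cz'.1 ((Cz x).inv_mem hl))) h)
    rw [hg, show g * (l⁻¹ * (l * (g⁻¹ * x * g⁻¹⁻¹) * l⁻¹) * l⁻¹⁻¹) * g⁻¹ = x by group] at k1
    exact mem_zpowers_of_prime Nat.prime_three (by rw [← hg, orderOf_conj', J.xo]) k1 J.x1)
  obtain ⟨β', hβ', hβr⟩ := D.ex_alpha J.xo hna h2 h3
  obtain ⟨β, hβ⟩ : ∃ β, β = g * l⁻¹ * β' * l * g⁻¹ := ⟨_, rfl⟩
  have lx : l⁻¹ * x * l = x := by simpa using mem_Cz'.1 ((Cz x).inv_mem hl)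
  have b1 : β * r * β⁻¹ = r := by
    calc β * r * β⁻¹ = g * (l⁻¹ * (β' * (l * x * l⁻¹) * β'⁻¹) * l) * g⁻¹ := by rw [hβ, ← hg]; group
      _ = r := by rw [mem_Cz'.1 hl, mem_Cz'.1 (D.le hβ'), lx, hg]
  have b2 : β * x * β⁻¹ = r * x := by
    calc β * x * β⁻¹ = g * l⁻¹ * (β' * (l * (g⁻¹ * x * g⁻¹⁻¹) * l⁻¹) * β'⁻¹) * l * g⁻¹ := by
          rw [hβ]; group
      _ = g * (l⁻¹ * x * l) * g⁻¹ * x := by rw [hβr]; group
      _ = _ := by rw [lx, hg]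
  have b3 : β⁻¹ * r * β = r := by nth_rewrite 1 [← b1]; group
  have b4 : β⁻¹ * x * β = r⁻¹ * x := by
    calc β⁻¹ * x * β = (β⁻¹ * r * β)⁻¹ * (β⁻¹ * (r * x) * β) := by group
      _ = _ := by rw [b3, ← b2]; group
  obtain ⟨m, hm⟩ : ∃ m, m = α * β⁻¹ * α := ⟨_, rfl⟩
  have m1 : m * x * m⁻¹ = r⁻¹ := by
    calc m * x * m⁻¹ = α * (β⁻¹ * (α * x * α⁻¹) * β) * α⁻¹ := by rw [hm]; group
      _ = (α * r * α⁻¹)⁻¹ * (α * x * α⁻¹) := by rw [hαx, b4]; nth_rewrite 2 [← hαx]; group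
      _ = _ := by rw [hαr, hαx]; group
  have m2 : m * r * m⁻¹ = x := by
    calc m * r * m⁻¹ = α * (β⁻¹ * (α * r * α⁻¹) * β) * α⁻¹ := by rw [hm]; group
      _ = α * ((β⁻¹ * x * β) * (β⁻¹ * r * β)) * α⁻¹ := by rw [hαr]; group
      _ = α * (r⁻¹ * (x * r)) * α⁻¹ := by rw [b3, b4]; group
      _ = _ := by rw [hxr, inv_mul_cancel_left, hαx]
  have n1 : m * m * x * (m * m)⁻¹ = x⁻¹ := by
    calc _ = m * (m * x * m⁻¹) * m⁻¹ := by group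
      _ = (m * r * m⁻¹)⁻¹ := by rw [m1]; group
      _ = _ := by rw [m2]
  have n2 : m * m * r * (m * m)⁻¹ = r⁻¹ := by
    calc _ = m * (m * r * m⁻¹) * m⁻¹ := by group
      _ = _ := by rw [m2, m1]
  generalize m * m = n at *
  obtain ⟨t, ht, -, h4⟩ := J.sigma_of D n1 (D.normT (Or.inr n1) hr hr' (n2 ▸ T.inv_mem hr))
  have hσx : t⁻¹ * n * x * (t⁻¹ * n)⁻¹ = x⁻¹ := by
    calc _ = t⁻¹ * (n * x * n⁻¹) * t⁻¹⁻¹ := by group
      _ = (t⁻¹ * x * t⁻¹⁻¹)⁻¹ := by rw [n1]; group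
      _ = _ := by rw [mem_Cz'.1 ((Cz x).inv_mem (D.le ht))]
  obtain ⟨ξ, hξ, e⟩ : ∃ ξ ∈ Subgroup.zpowers x, t⁻¹ * n * r * (t⁻¹ * n)⁻¹ = r⁻¹ * ξ := by
    refine ⟨_, Subgroup.inv_mem _ ((D.cent r hr hr' t⁻¹ (D.le (T.inv_mem ht))).2 (T.inv_mem ht)), ?_⟩
    have hc : (t⁻¹ * r * t⁻¹⁻¹ * r⁻¹)⁻¹ * r⁻¹ = r⁻¹ * (t⁻¹ * r * t⁻¹⁻¹ * r⁻¹)⁻¹ := by
      have := (Subgroup.zpowers_le.2 (mem_Cz_comm.1 ((Cz x).inv_mem (D.le hr)))) (Subgroup.inv_mem _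
        ((D.cent r hr hr' t⁻¹ (D.le (T.inv_mem ht))).2 (T.inv_mem ht)))
      exact mem_Cz.1 this
    calc t⁻¹ * n * r * (t⁻¹ * n)⁻¹ = t⁻¹ * (n * r * n⁻¹) * t := by group
      _ = r⁻¹ * (t⁻¹ * r * t⁻¹⁻¹ * r⁻¹)⁻¹ := by rw [n2]; group
  generalize t⁻¹ * n = σ at *
  have hξr : ξ * r = r * ξ := mem_Cz.1 ((Subgroup.zpowers_le.2 (mem_Cz_comm.1 (D.le hr))) hξ)
  have hη := conj_zpowers_pm (Or.inr hσx) hξ
  obtain ⟨η, hη, e2⟩ : ∃ η ∈ Subgroup.zpowers x, σ * σ * r * (σ * σ)⁻¹ = η * r := by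
    refine ⟨ξ⁻¹ * (σ * ξ * σ⁻¹), Subgroup.mul_mem _ (Subgroup.inv_mem _ hξ) hη, ?_⟩
    have hc : r * (σ * ξ * σ⁻¹) = (σ * ξ * σ⁻¹) * r :=
      (mem_Cz.1 ((Subgroup.zpowers_le.2 (mem_Cz_comm.1 (D.le hr))) hη)).symm
    calc σ * σ * r * (σ * σ)⁻¹ = σ * (σ * r * σ⁻¹) * σ⁻¹ := by group
      _ = (σ * r * σ⁻¹)⁻¹ * (σ * ξ * σ⁻¹) := by rw [e]; nth_rewrite 2 [← e]; group
      _ = ξ⁻¹ * (r * (σ * ξ * σ⁻¹)) := by rw [e]; group
      _ = _ := by rw [hc]; group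
  have hσσ : σ * σ ∈ Cz x := by simpa [pow_two] using (pow_pm hσx 2).1 (by decide)
  have hη2 : σ * σ * η * (σ * σ)⁻¹ = η :=
    mem_Cz'.1 (mem_Cz_comm.1 ((Subgroup.zpowers_le.2 (mem_Cz_comm.1 hσσ)) hη))
  have e3 : z * r * z = η * η * r := by
    calc z * r * z = σ * σ * (σ * σ * r * (σ * σ)⁻¹) * (σ * σ)⁻¹ := by
          nth_rewrite 2 [← Inv.inv J.zI]; rw [← h4]; simp [pow_succ, mul_assoc]
      _ = (σ * σ * η * (σ * σ)⁻¹) * (σ * σ * r * (σ * σ)⁻¹) := by rw [e2]; nth_rewrite 2 [← e2]; group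
      _ = _ := by rw [hη2, e2, mul_assoc]
  have h5 := D.zinv r hr
  rw [e3] at h5
  have h6 := Subgroup.mul_mem _ (Subgroup.inv_mem _ (Subgroup.mul_mem _ hη hη)) h5
  rw [show (η * η)⁻¹ * (η * η * r * r) = r * r by group] at h6
  exact hr' (mem_zpowers_of_sq (D.odd_order hr) h6)

theorem wd : ∃ (σ : G) (T W : Subgroup G), WD z x σ T W := by
  obtain ⟨T, D⟩ := J.cx
  have hc := J.T_comm D
  have hzz := (mem_Inv.1 J.zI).1
  have hzi := Inv.inv J.zI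
  obtain ⟨c, hcT, hc1⟩ := D.ex_c J.xo
  obtain ⟨g, hg, h1⟩ := D.into (conj_Cz_of_inv J.τx (D.le hcT))
    ⟨3, by rw [orderOf_conj', show 3 ^ 3 = 27 by norm_num, ← D.cT]; exact Subgroup.orderOf_dvd_natCard T hcT⟩
  have hn : g * τ * x * (g * τ)⁻¹ = x⁻¹ := by
    calc _ = g * (τ * x * τ⁻¹) * g⁻¹ := by group
      _ = (g * x * g⁻¹)⁻¹ := by rw [J.τx]; group
      _ = _ := by rw [mem_Cz'.1 hg]
  have hnT := D.normT (Or.inr hn) hcT hc1 (by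
    rwa [show g * τ * c * (g * τ)⁻¹ = g * (τ * c * τ⁻¹) * g⁻¹ by group])
  obtain ⟨t, ht, hσz, hσ4⟩ := J.sigma_of D hn hnT
  have hσx : t⁻¹ * (g * τ) * x * (t⁻¹ * (g * τ))⁻¹ = x⁻¹ := by
    calc _ = t⁻¹ * (g * τ * x * (g * τ)⁻¹) * t⁻¹⁻¹ := by group
      _ = (t⁻¹ * x * t⁻¹⁻¹)⁻¹ := by rw [hn]; group
      _ = _ := by rw [mem_Cz'.1 ((Cz x).inv_mem (D.le ht))]
  have hσT : ∀ a ∈ T, t⁻¹ * (g * τ) * a * (t⁻¹ * (g * τ))⁻¹ ∈ T := fun a ha => by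
    have := T.mul_mem (T.mul_mem (T.inv_mem ht) (hnT a ha)) ht
    rwa [show t⁻¹ * (g * τ * a * (g * τ)⁻¹) * t = t⁻¹ * (g * τ) * a * (t⁻¹ * (g * τ))⁻¹ by group] at this
  generalize t⁻¹ * (g * τ) = σ at *
  haveI : Fact (Nat.Prime 2) := ⟨Nat.prime_two⟩
  have hσo : orderOf σ = 8 := orderOf_eq_prime_pow (p := 2) (n := 2) (by
    rw [show 2 ^ 2 = 4 by norm_num, hσ4]; exact (mem_Inv.1 J.zI).2) (by
    rw [show 2 ^ (2 + 1) = 4 + 4 by norm_num, pow_add, hσ4, hzz])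
  let W : Subgroup G :=
    { carrier := {w | w ∈ T ∧ z * w * z = w⁻¹}
      mul_mem' := fun {a b} ha hb => ⟨T.mul_mem ha.1 hb.1, by
        calc z * (a * b) * z = z * a * (z * z) * b * z := by rw [hzz]; group
          _ = (z * a * z) * (z * b * z) := by group
          _ = _ := by rw [ha.2, hb.2, hc a ha.1 b hb.1]; group⟩
      one_mem' := ⟨T.one_mem, by simp [hzz]⟩
      inv_mem' := fun {a} ha => ⟨T.inv_mem ha.1, by
        calc z * a⁻¹ * z = (z⁻¹ * a * z⁻¹)⁻¹ := by group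
          _ = _ := by rw [hzi, ha.2]⟩ }
  have memW : ∀ w, w ∈ W ↔ w ∈ T ∧ z * w * z = w⁻¹ := fun _ => Iff.rfl
  have hTz : T ⊓ Cz z = Subgroup.zpowers x := by
    refine le_antisymm (fun a ha => ?_) (Subgroup.zpowers_le.2 ⟨D.xT, J.xz⟩)
    have := D.zinv a ha.1
    rw [← mem_Cz.1 ha.2, mul_assoc a, hzz, mul_one] at this
    exact mem_zpowers_of_sq (D.odd_order ha.1) this
  have cW : Nat.card W = 9 := by
    have := inverted_card (D := T) (by rw [D.cT]; decide) J.zI (fun d hd => D.zT hd)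
    rw [hTz, Nat.card_zpowers, J.xo, D.cT,
      show (fs T).filter (fun d => z * d * z = d⁻¹) = fs W by ext a; simp [memW], card_fs] at this
    omega
  have hσW : ∀ w ∈ W, σ * w * σ⁻¹ ∈ W := fun w hw => ⟨hσT w hw.1, by
    have e : z * σ = σ * z := (mem_Cz.1 hσz).symm
    have e' : σ⁻¹ * z = z * σ⁻¹ := mem_Cz.1 ((Cz z).inv_mem hσz)
    calc z * (σ * w * σ⁻¹) * z = (z * σ) * w * (σ⁻¹ * z) := by group
      _ = σ * (z * w * z) * σ⁻¹ := by rw [e, e']; group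
      _ = _ := by rw [hw.2]; group⟩
  have hWz : ∀ w ∈ W, w ∈ Cz z → w = 1 := fun w hw h => by
    have h2 := hw.2
    rw [← mem_Cz.1 h, mul_assoc, hzz, mul_one] at h2
    by_contra h3
    exact not_mem_of_odd (D := T) (by rw [D.cT]; decide) (mem_Inv.2 ⟨by nth_rewrite 1 [h2]; simp, h3⟩) hw.1
  have trans : ∀ w ∈ W, w ≠ 1 → ∀ w' ∈ W, w' ≠ 1 → ∃ h ∈ Subgroup.zpowers σ, h * w * h⁻¹ = w' := by
    intro w hw hw1 w' hw' hw1'
    have ho := orbit_card (Subgroup.zpowers σ) w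
    have hb : Subgroup.zpowers σ ⊓ Cz w = ⊥ := by
      rw [eq_bot_iff]; intro h hh
      by_contra h1
      exact hw1 (hWz w hw (mem_Cz_comm.1 ((Subgroup.zpowers_le.2 hh.2) (z_mem_of_order8 hσ4 hσo h hh.1 h1))))
    rw [hb, Subgroup.card_bot, mul_one, Nat.card_zpowers, hσo] at ho
    have hall : cls (Subgroup.zpowers σ) {w} = (fs W).erase 1 := eq_of_subset_of_card_le (fun a ha => by
      obtain ⟨h, hh, rfl⟩ := mem_cls1.1 ha
      exact mem_erase.2 ⟨fun e => hw1 (by simpa using e),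
        conj_pow_mem (S := fs W) (fun a ha => mem_fs.2 (hσW a (mem_fs.1 ha))) hh w (mem_fs.2 hw)⟩)
      (by rw [ho, card_erase_of_mem (mem_fs.2 W.one_mem), card_fs, cW])
    exact mem_cls1.1 (hall.ge (mem_erase.2 ⟨hw1', mem_fs.2 hw'⟩))
  have dec : ∀ c ∈ T, ∃ η ∈ Subgroup.zpowers x, ∃ w ∈ W, c = η * w := by
    intro c hc'
    have h1 := D.zinv c hc'
    obtain ⟨ξ, hξ⟩ : ∃ ξ, ξ = z * c * z * c := ⟨_, rfl⟩
    rw [← hξ] at h1
    have h3 : ξ ^ 3 = 1 := by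
      have := orderOf_dvd_of_mem_zpowers h1
      rwa [J.xo, orderOf_dvd_iff_pow_eq_one] at this
    have hξz : z * ξ = ξ * z := (mem_Cz.1 ((Subgroup.zpowers_le.2 J.xz) h1)).symm
    have hξc : c * ξ = ξ * c := hc c hc' ξ (D.zp_le h1)
    refine ⟨ξ⁻¹, Subgroup.inv_mem _ h1, ξ * c, ⟨T.mul_mem (D.zp_le h1) hc', ?_⟩, by group⟩
    rw [eq_inv_iff_mul_eq_one]
    calc z * (ξ * c) * z * (ξ * c) = (z * ξ) * c * (z * ξ) * c := by group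
      _ = ξ * z * (c * ξ) * z * c := by rw [hξz]; group
      _ = ξ * (z * ξ) * c * z * c := by rw [hξc]; group
      _ = ξ * ξ * (z * c * z * c) := by rw [hξz]; group
      _ = 1 := by rw [← hξ, ← h3]; simp [pow_succ]
  have step : ∀ η ∈ Subgroup.zpowers x, ∀ w ∈ W, Cj x (η * w) → Cj x (η⁻¹ * w) := by
    intro η hη w hw h
    have h1 := J.cjx_inv (h.conj z)
    have hηz : z * η = η * z := (mem_Cz.1 ((Subgroup.zpowers_le.2 J.xz) hη)).symm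
    rwa [show z * (η * w) * z⁻¹ = η * w⁻¹ by rw [hzi, ← hw.2, ← mul_assoc, hηz]; group, mul_inv_rev, inv_inv,
      hc w hw.1 _ (T.inv_mem (D.zp_le hη))] at h1
  refine ⟨σ, T, W, D, hc, hσx, hσz, hσ4, hσo, hσT, memW, cW, dec, trans, fun w hw => ?_,
    fun c hc' hc1 => le_antisymm (fun g hg => (D.cent c hc' hc1 g hg.1).1 ?_)
      (fun g hg => ⟨D.le hg, mem_Cz.2 (hc g hg c hc')⟩), ?_⟩
  · by_cases hw1 : w = 1
    · simp [hw1]
    obtain ⟨w0, hw0, ho⟩ := exists_order_of_dvd (D := W) Nat.prime_three (by rw [cW]; norm_num)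
    obtain ⟨h, -, rfl⟩ := trans w0 hw0 (by rintro rfl; simp at ho) w hw hw1
    rw [conj_pow, ← ho, pow_orderOf_eq_one]; simp
  · rw [mem_Cz'.1 hg.2]; simp
  · obtain ⟨-, r1, r2, a1, a2, a3, a4, a5, a6, a7, a8⟩ := J.nv
    obtain ⟨l, hl, b1⟩ := D.into a3 ⟨1, by rw [a1.order, J.xo, pow_one]⟩
    have nz : ∀ r, r ∉ Subgroup.zpowers x → l * r * l⁻¹ ∉ Subgroup.zpowers x := fun r hr h => hr (by
      simpa [mul_assoc] using conj_zpowers_pm (Or.inl (mem_Cz'.1 ((Cz x).inv_mem hl))) h)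
    have b2 : l * r2 * l⁻¹ ∈ T := (D.cent _ b1 (nz _ a6) _
      ((Cz x).mul_mem ((Cz x).mul_mem hl a4) ((Cz x).inv_mem hl))).1 (by
        rw [mem_Cz'.1 ((mem_Cz_conj l).2 a5)]; simp)
    have : ∃ r ∈ T, r ∉ W ∧ r ∉ Subgroup.zpowers x ∧ Cj x r := by
      by_contra hn
      push Not at hn
      have c1 : l * r1 * l⁻¹ ∈ W := by by_contra h; exact hn _ b1 h (nz _ a6) (a1.conj l)
      have c2 : l * r2 * l⁻¹ ∈ W := by by_contra h; exact hn _ b2 h (nz _ a7) (a2.conj l)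
      have c3 := a8 (cj l⁻¹ W) (mem_cj.2 (by simpa using c1)) (mem_cj.2 (by simpa using c2))
      rw [mem_cj, inv_inv, mem_Cz'.1 hl] at c3
      exact J.x1 (hWz x c3 J.xz)
    obtain ⟨r, hr, hrW, hrx, hcj⟩ := this
    obtain ⟨η, hη, w0, hw0, rfl⟩ := dec r hr
    have hw01 : w0 ≠ 1 := by rintro rfl; exact hrx (by simpa using hη)
    have base : Cj x (x * w0) := by
      rcases eq_of_order_three J.xo hη with rfl | rfl | rfl
      · exact absurd (by simpa using hw0) hrW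
      · exact hcj
      · simpa using step _ hη w0 hw0 hcj
    intro w hw hw1
    obtain ⟨h, hh, rfl⟩ := trans w0 hw0 hw01 w hw hw1
    have h1 := base.conj h
    rw [show h * (x * w0) * h⁻¹ = (h * x * h⁻¹) * (h * w0 * h⁻¹) by group] at h1
    obtain ⟨k, -, rfl⟩ := exists_pow_of_mem_zpowers hh
    rcases Nat.even_or_odd k with hk | hk
    · rw [mem_Cz'.1 ((pow_pm hσx k).1 hk)] at h1
      exact ⟨h1, step x (Subgroup.mem_zpowers x) _ hw h1⟩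
    · rw [(pow_pm hσx k).2 hk] at h1
      exact ⟨by simpa using step _ (Subgroup.inv_mem _ (Subgroup.mem_zpowers x)) _ hw h1, h1⟩

end J3
end
end Cfsg.Agent.J3T
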